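/-
A p-group in which every element outside the derived subgroup is conjugate to its whole coset, with
automorphisms permuting the non-trivial cosets transitively, has class at most two and its elements
have order dividing `p` for odd `p` and four for `p = 2`.
-/
import Cfsg.Agent.Transfer.Complement
import Mathlib.GroupTheory.GroupAction.Quotient
import Cfsg.Agent.Core.Fitting
import Mathlib.Data.Nat.GCD.Basic
import Mathlib.Data.Nat.Choose.Dvd

set_option autoImplicit false
set_option linter.unusedSectionVars false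
set_option linter.style.haveILetI false

namespace Cfsg.Agent.FPF4.Camina

open Cfsg
open scoped commutatorElement

universe u v

variable {P : Type u} [Group P] {B : Type v} [Group B]

theorem index_dvd_card_of_perm {α : Type*} [Finite α] (ψ : B →* Equiv.Perm α) (S : Subgroup B)
    (h : ∀ a b, ψ b a = a ↔ b ∈ S) : S.index ∣ Nat.card α := by
  letI : MulAction B α := MulAction.compHom α ψ
  have hS : ∀ a : α, MulAction.stabilizer B a = S := fun a => Subgroup.ext fun b => h a b
  rw [Nat.card_congr (MulAction.selfEquivSigmaOrbitsQuotientStabilizer B α)]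
  have h1 : ∀ ω : MulAction.orbitRel.Quotient B α,
      B ⧸ MulAction.stabilizer B ω.out ≃ B ⧸ S := fun ω => Subgroup.quotientEquivOfEq (hS _)
  rw [Nat.card_congr (Equiv.sigmaCongrRight h1), Nat.card_congr (Equiv.sigmaEquivProd _ _),
    Nat.card_prod]
  exact dvd_mul_left _ _

theorem index_eq_card_of_perm {α : Type*} [Finite α] (ψ : B →* Equiv.Perm α) (S : Subgroup B)
    (a : α) (h : ∀ b, ψ b a = a ↔ b ∈ S) (htr : ∀ c, ∃ b, ψ b a = c) : S.index = Nat.card α := by
  letI : MulAction B α := MulAction.compHom α ψ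
  have hS : MulAction.stabilizer B a = S := Subgroup.ext h
  rw [← hS, MulAction.index_stabilizer,
    show MulAction.orbit B a = Set.univ from Set.eq_univ_of_forall fun c => htr c, Set.ncard_univ]

variable [Finite P]

/-- The action on the non-trivial cosets of a subgroup of an invariant normal subgroup. -/
theorem exists_coset_perm (φ : B →* MulAut P) (N X : Subgroup P) [N.Normal]
    (hN : ∀ b, N.map (φ b).toMonoidHom = N) (hNX : N ≤ X) (hX : ∀ b, ∀ x ∈ X, φ b x ∈ X) :
    ∃ ψ : B →* Equiv.Perm {c : P ⧸ N // c ∈ X.map (QuotientGroup.mk' N) ∧ c ≠ 1},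
      Nat.card {c : P ⧸ N // c ∈ X.map (QuotientGroup.mk' N) ∧ c ≠ 1} = N.relIndex X - 1 ∧
      ∀ b (c : {c : P ⧸ N // c ∈ X.map (QuotientGroup.mk' N) ∧ c ≠ 1}) (x : P),
        (c : P ⧸ N) = (x : P ⧸ N) → ((ψ b c : _) : P ⧸ N) = ((φ b x : P) : P ⧸ N) := by
  classical
  let e : B → (P ⧸ N) ≃* (P ⧸ N) := fun b => QuotientGroup.congr N N (φ b) (hN b)
  have he : ∀ b (x : P), e b (x : P ⧸ N) = ((φ b x : P) : P ⧸ N) := fun b x => rfl
  have hmem : ∀ b, ∀ c : P ⧸ N, c ∈ X.map (QuotientGroup.mk' N) ∧ c ≠ 1 →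
      e b c ∈ X.map (QuotientGroup.mk' N) ∧ e b c ≠ 1 := by
    rintro b c ⟨⟨x, hx, rfl⟩, hc⟩
    exact ⟨⟨φ b x, hX b x hx, (he b x).symm⟩, fun h => hc ((e b).injective (h.trans (map_one _).symm))⟩
  let f : B → Function.End {c : P ⧸ N // c ∈ X.map (QuotientGroup.mk' N) ∧ c ≠ 1} :=
    fun b c => ⟨e b c, hmem b c c.2⟩
  let F : B →* Function.End {c : P ⧸ N // c ∈ X.map (QuotientGroup.mk' N) ∧ c ≠ 1} :=
    { toFun := f
      map_one' := by
        funext c
        refine Subtype.ext ?_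
        obtain ⟨x, hx⟩ := QuotientGroup.mk'_surjective N (c : P ⧸ N)
        show e 1 c = c
        rw [← hx, QuotientGroup.mk'_apply, he, map_one, MulAut.one_apply]
      map_mul' := fun b b' => by
        funext c
        refine Subtype.ext ?_
        obtain ⟨x, hx⟩ := QuotientGroup.mk'_surjective N (c : P ⧸ N)
        show e (b * b') c = e b (e b' c)
        rw [← hx, QuotientGroup.mk'_apply, he, he, he, map_mul, MulAut.mul_apply] }
  refine ⟨MonoidHom.toHomPerm F, ?_, fun b c x hx => ?_⟩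
  · have h1 : Nat.card (X.map (QuotientGroup.mk' N)) = N.relIndex X := by
      rw [← Subgroup.relIndex_ker, QuotientGroup.ker_mk']
    rw [← h1]
    haveI := Fintype.ofFinite ↥(X.map (QuotientGroup.mk' N))
    rw [Nat.card_congr (Equiv.subtypeSubtypeEquivSubtypeInter
        (fun c : P ⧸ N => c ∈ X.map (QuotientGroup.mk' N)) (fun c => c ≠ 1)).symm,
      Nat.card_eq_fintype_card, Nat.card_eq_fintype_card]
    refine (Fintype.card_congr (β := {c : ↥(X.map (QuotientGroup.mk' N)) // ¬ c = 1})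
      (Equiv.subtypeEquivRight
        (fun c => not_congr ⟨fun h => Subtype.ext h, fun h => congrArg Subtype.val h⟩))).trans ?_
    rw [Fintype.card_subtype_compl, Fintype.card_subtype_eq]
  · show e b c = _
    rw [hx, he]

/-- The hypotheses. -/
structure Data (P : Type u) [Group P] (p : ℕ) {B : Type v} [Group B] (φ : B →* MulAut P) : Prop where
  pgroup : IsPGroup p P
  expo : ∀ x : P, x ^ p ∈ commutator P
  full : ∀ y : P, y ∉ commutator P → ∀ c ∈ commutator P, ∃ t : P, t * y * t⁻¹ = y * c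
  trans : ∀ x : P, x ∉ commutator P → ∀ y : P, y ∉ commutator P →
    ∃ b, (φ b x)⁻¹ * y ∈ commutator P
  inner : ∀ b c : B, ∃ t : P, ∀ x, φ (b * c * b⁻¹ * c⁻¹) x = t * x * t⁻¹

variable {p : ℕ} [hp : Fact p.Prime] {φ : B →* MulAut P}

theorem map_eq_of_char {N : Subgroup P} [N.Characteristic] (e : MulAut P) :
    N.map e.toMonoidHom = N :=
  Subgroup.characteristic_iff_map_eq.mp inferInstance e

omit hp in
theorem card_centralizer_le {Q : Type*} [Group Q] [Finite Q] (D : Subgroup Q) (y : Q)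
    (h : ∀ c ∈ D, ∃ t : Q, t * y * t⁻¹ = y * c) :
    Nat.card (Subgroup.centralizer ({y} : Set Q)) ≤ D.index := by
  choose t ht using h
  refine Nat.le_of_mul_le_mul_right ?_ (Nat.card_pos (α := D))
  rw [D.index_mul_card, ← Nat.card_prod]
  refine Nat.card_le_card_of_injective
    (fun z : Subgroup.centralizer ({y} : Set Q) × D => t z.2 z.2.2 * (z.1 : Q)) ?_
  rintro ⟨c, d⟩ ⟨c', d'⟩ e
  change t d d.2 * (c : Q) = t d' d'.2 * (c' : Q) at e
  have key : ∀ (c : Subgroup.centralizer ({y} : Set Q)) (d : D),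
      (t d d.2 * (c : Q)) * y * (t d d.2 * (c : Q))⁻¹ = y * d := by
    intro c d
    rw [mul_assoc (t d d.2) (c : Q) y, Subgroup.mem_centralizer_singleton_iff.mp c.2, ← ht d d.2]
    group
  have hd : (d : Q) = d' := mul_left_cancel ((key c d).symm.trans (e ▸ key c' d'))
  obtain rfl : d = d' := Subtype.ext hd
  exact Prod.ext (Subtype.ext (mul_left_cancel e)) rfl

/-- A central section inside the derived subgroup is smaller than the abelian quotient. -/
theorem relIndex_lt (D : Data P p φ) (hne : commutator P ≠ ⊤) {N Z : Subgroup P} [N.Normal]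
    (hNZ : N ≤ Z) (hZ : Z ≤ commutator P) (hc : ∀ z ∈ Z, ∀ x : P, ⁅z, x⁆ ∈ N) :
    N.relIndex Z < (commutator P).index := by
  obtain ⟨y, hy⟩ : ∃ y, y ∉ commutator P := by
    by_contra h
    push Not at h
    exact hne ((Subgroup.eq_top_iff' _).mpr h)
  set π := QuotientGroup.mk' N
  have hker : π.ker ≤ commutator P := by rw [QuotientGroup.ker_mk']; exact hNZ.trans hZ
  have h1 := card_centralizer_le ((commutator P).map π) (π y) (by
    rintro _ ⟨c, hc', rfl⟩
    obtain ⟨t, ht⟩ := D.full y hy c hc'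
    exact ⟨π t, by rw [← map_inv, ← map_mul, ← map_mul, ← map_mul, ht]⟩)
  have h2 : ((commutator P).map π).index = (commutator P).index := by
    rw [← Subgroup.index_comap_of_surjective _ (QuotientGroup.mk'_surjective N),
      Subgroup.comap_map_eq_self hker]
  rw [h2] at h1
  refine lt_of_lt_of_le ?_ h1
  have h3 : Nat.card (Z.map π) = N.relIndex Z := by
    rw [← Subgroup.relIndex_ker, QuotientGroup.ker_mk']
  rw [← h3]
  have hle : Z.map π ≤ Subgroup.centralizer ({π y} : Set (P ⧸ N)) := by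
    rintro _ ⟨z, hz, rfl⟩
    refine Subgroup.mem_centralizer_singleton_iff.mpr (commutatorElement_eq_one_iff_mul_comm.mp ?_)
    rw [← map_commutatorElement]
    exact (QuotientGroup.eq_one_iff _).mpr (hc z hz y)
  refine lt_of_le_of_ne (Subgroup.card_le_of_le hle) fun e => hy ?_
  have hmem : π y ∈ Z.map π :=
    (Subgroup.eq_of_le_of_card_ge hle e.ge).ge (Subgroup.mem_centralizer_singleton_iff.mpr rfl)
  obtain ⟨z, hz, hze⟩ := hmem
  have : z⁻¹ * y ∈ N := QuotientGroup.eq.mp hze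
  rw [show y = z * (z⁻¹ * y) by group]
  exact mul_mem (hZ hz) (hZ (hNZ this))

omit hp [Finite P] in
theorem arith {e a f m n : ℕ} (hp : 2 ≤ p) (he : 0 < e) (ha : 0 < a) (hef : e < f) (haf : a < f)
    (hm : m ∣ p ^ e - 1) (hn : n ∣ p ^ a - 1) (hmn : n * m = p ^ f - 1) : False := by
  have hm' : m ∣ p ^ Nat.gcd e f - 1 := by
    rw [← Nat.pow_sub_one_gcd_pow_sub_one]
    exact Nat.dvd_gcd hm ⟨n, by rw [← hmn, Nat.mul_comm]⟩
  have hn' : n ∣ p ^ Nat.gcd a f - 1 := by
    rw [← Nat.pow_sub_one_gcd_pow_sub_one]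
    exact Nat.dvd_gcd hn ⟨m, hmn.symm⟩
  have hhalf : ∀ b, 0 < b → b < f → 2 * Nat.gcd b f ≤ f := by
    intro b hb hbf
    obtain ⟨k, hk⟩ := Nat.gcd_dvd_right b f
    have h1 := Nat.gcd_le_left f hb
    have h2 : 2 ≤ k := by
      rcases k with _ | _ | k
      · omega
      · omega
      · omega
    nlinarith
  have hg1 := hhalf e he hef
  have hg2 := hhalf a ha haf
  have hpos : ∀ b, 0 < b → 2 ≤ p ^ Nat.gcd b f := fun b hb =>
    hp.trans (Nat.le_self_pow (Nat.gcd_pos_of_pos_left f hb).ne' p)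
  have h1 := hpos e he
  have h2 := hpos a ha
  have hmle := Nat.le_of_dvd (by omega) hm'
  have hnle := Nat.le_of_dvd (by omega) hn'
  have hle : p ^ (Nat.gcd a f) * p ^ (Nat.gcd e f) ≤ p ^ f := by
    rw [← pow_add]
    exact Nat.pow_le_pow_right (by omega) (by omega)
  have := Nat.mul_le_mul hnle hmle
  obtain ⟨x, hx⟩ : ∃ x, p ^ Nat.gcd a f = x + 2 := ⟨p ^ Nat.gcd a f - 2, by omega⟩
  obtain ⟨y, hy⟩ : ∃ y, p ^ Nat.gcd e f = y + 2 := ⟨p ^ Nat.gcd e f - 2, by omega⟩
  rw [hx, hy] at this hle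
  rw [show x + 2 - 1 = x + 1 by omega, show y + 2 - 1 = y + 1 by omega, hmn] at this
  obtain ⟨t, ht⟩ : ∃ t, p ^ f = t + 1 :=
    ⟨p ^ f - 1, (Nat.sub_add_cancel (Nat.one_le_pow _ _ (by omega))).symm⟩
  rw [ht, Nat.add_sub_cancel] at this
  rw [ht] at hle
  nlinarith

omit hp in
theorem index_kernel (D : Data P p φ) (hne : commutator P ≠ ⊤) :
    ∃ B₀ : Subgroup B, (∀ b, b ∈ B₀ ↔ ∀ x, x⁻¹ * φ b x ∈ commutator P) ∧
      (∀ x ∉ commutator P, ∀ b, x⁻¹ * φ b x ∈ commutator P → b ∈ B₀) ∧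
      B₀.index = (commutator P).index - 1 := by
  classical
  set P1 := commutator P
  obtain ⟨ψ, hcard, hψ⟩ := exists_coset_perm φ P1 ⊤ (fun b => map_eq_of_char (φ b)) le_top
    (fun _ _ _ => trivial)
  rw [Subgroup.relIndex_top_right] at hcard
  let B₀ : Subgroup B := ψ.ker
  have hfix : ∀ (c : {c : P ⧸ P1 // c ∈ (⊤ : Subgroup P).map (QuotientGroup.mk' P1) ∧ c ≠ 1})
      (x : P) (b : B), (c : P ⧸ P1) = x → (ψ b c = c ↔ x⁻¹ * φ b x ∈ P1) := by
    intro c x b hc
    rw [Subtype.ext_iff, hψ b c x hc, hc, eq_comm, QuotientGroup.eq]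
  have hin : ∀ b c x, φ (b * c) x ≠ φ (b * c) x * 1 → False := fun b c x h => h (mul_one _).symm
  have hcomm : ∀ b c, ψ (b * c) = ψ (c * b) := by
    intro b c
    refine Equiv.ext fun w => Subtype.ext ?_
    obtain ⟨x, hx⟩ := QuotientGroup.mk'_surjective P1 (w : P ⧸ P1)
    rw [hψ _ w x hx.symm, hψ _ w x hx.symm]
    obtain ⟨t, ht⟩ := D.inner b c
    have e : φ (b * c) x = t * φ (c * b) x * t⁻¹ := by
      rw [← ht, ← MulAut.mul_apply, ← map_mul]
      congr 2
      group
    rw [e]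
    refine (QuotientGroup.eq.mpr ?_).symm
    rw [show (φ (c * b) x)⁻¹ * (t * φ (c * b) x * t⁻¹) = ⁅(φ (c * b) x)⁻¹, t⁆ by
      rw [commutatorElement_def]; group]
    exact Subgroup.commutator_mem_commutator trivial trivial
  have hall : ∀ x ∉ P1, ∀ b, x⁻¹ * φ b x ∈ P1 → b ∈ B₀ := by
    intro x hx b hb
    rw [MonoidHom.mem_ker]
    refine Equiv.ext fun w => Subtype.ext ?_
    obtain ⟨y, hy⟩ := QuotientGroup.mk'_surjective P1 (w : P ⧸ P1)
    have hy1 : y ∉ P1 := fun h => w.2.2 (hy ▸ (QuotientGroup.eq_one_iff y).mpr h)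
    obtain ⟨c, hc⟩ := D.trans x hx y hy1
    let u : {c : P ⧸ P1 // c ∈ (⊤ : Subgroup P).map (QuotientGroup.mk' P1) ∧ c ≠ 1} :=
      ⟨(x : P ⧸ P1), ⟨x, trivial, rfl⟩, fun h => hx ((QuotientGroup.eq_one_iff x).mp h)⟩
    have hwu : w = ψ c u := Subtype.ext (by
      rw [hψ c u x rfl, ← hy]
      exact (QuotientGroup.eq.mpr hc).symm)
    rw [hwu, ← Equiv.Perm.mul_apply, ← map_mul, hcomm, map_mul, Equiv.Perm.mul_apply,
      (hfix u x b rfl).mpr hb]
    rfl
  have hmem : ∀ b, b ∈ B₀ ↔ ∀ x, x⁻¹ * φ b x ∈ P1 := by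
    intro b
    constructor
    · intro hb x
      by_cases hx : x ∈ P1
      · refine mul_mem (inv_mem hx) ?_
        rw [← map_eq_of_char (φ b) (N := P1)]
        exact ⟨x, hx, rfl⟩
      · exact (hfix ⟨(x : P ⧸ P1), ⟨x, trivial, rfl⟩,
          fun h => hx ((QuotientGroup.eq_one_iff x).mp h)⟩ x b rfl).mp
          (by rw [MonoidHom.mem_ker.mp hb]; rfl)
    · intro h
      obtain ⟨x, hx⟩ : ∃ x, x ∉ P1 := by
        by_contra h'
        push Not at h'
        exact hne ((Subgroup.eq_top_iff' _).mpr h')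
      exact hall x hx b (h x)
  refine ⟨B₀, hmem, hall, ?_⟩
  obtain ⟨x, hx⟩ : ∃ x, x ∉ P1 := by
    by_contra h'
    push Not at h'
    exact hne ((Subgroup.eq_top_iff' _).mpr h')
  let u : {c : P ⧸ P1 // c ∈ (⊤ : Subgroup P).map (QuotientGroup.mk' P1) ∧ c ≠ 1} :=
    ⟨(x : P ⧸ P1), ⟨x, trivial, rfl⟩, fun h => hx ((QuotientGroup.eq_one_iff x).mp h)⟩
  rw [← hcard]
  refine index_eq_card_of_perm ψ B₀ u (fun b => ?_) fun w => ?_
  · rw [hfix u x b rfl]
    exact ⟨hall x hx b, fun h => (hmem b).mp h x⟩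
  · obtain ⟨y, hy⟩ := QuotientGroup.mk'_surjective P1 (w : P ⧸ P1)
    have hy1 : y ∉ P1 := fun h => w.2.2 (hy ▸ (QuotientGroup.eq_one_iff y).mpr h)
    obtain ⟨c, hc⟩ := D.trans x hx y hy1
    refine ⟨c, Subtype.ext ?_⟩
    rw [hψ c u x rfl, ← hy]
    exact QuotientGroup.eq.mpr hc

/-- The derived subgroup is central when its commutators are. -/
theorem le_center_aux (D : Data P p φ) (hL : ⁅commutator P, (⊤ : Subgroup P)⁆ ≤ Subgroup.center P) :
    commutator P ≤ Subgroup.center P := by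
  classical
  by_contra hc
  set P1 := commutator P with hP1
  set L := ⁅P1, (⊤ : Subgroup P)⁆
  have hne : P1 ≠ ⊤ := by
    intro h
    haveI : Group.IsNilpotent P := D.pgroup.isNilpotent
    haveI : Group.IsNilpotent (⊤ : Subgroup P) :=
      Core.isNilpotent_top_iff.mpr inferInstance
    have hbot : (⊤ : Subgroup P) = ⊥ :=
      Transfer.eq_bot_of_le_commutator le_rfl (by rw [← commutator_def, ← hP1, h])
    refine hc fun x _ => ?_
    have hx1 : x = 1 := Subgroup.mem_bot.mp (hbot ▸ Subgroup.mem_top x)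
    rw [hx1]
    exact one_mem _
  haveI : L.Normal := inferInstance
  have hLP1 : L ≤ P1 := Subgroup.commutator_le_left P1 ⊤
  set W := P1 ⊓ Subgroup.center P
  have hLW : L ≤ W := le_inf hLP1 hL
  have hWinv : ∀ b, W.map (φ b).toMonoidHom = W := fun b => by
    rw [Subgroup.map_inf _ _ _ (φ b).injective, map_eq_of_char, map_eq_of_char]
  haveI : W.Normal := inferInstance
  have hcent : ∀ w ∈ P1, ∀ x : P, ⁅w, x⁆ ∈ W := fun w hw x =>
    hLW (Subgroup.commutator_mem_commutator hw trivial)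
  -- the derived subgroup is abelian
  have hP1ab : ∀ w ∈ P1, ∀ v ∈ P1, w * v = v * w := by
    have h1 : ⁅⁅(⊤ : Subgroup P), P1⁆, (⊤ : Subgroup P)⁆ = ⊥ := by
      rw [Subgroup.commutator_comm ⊤ P1, Subgroup.commutator_eq_bot_iff_le_centralizer]
      intro z hz
      exact Subgroup.mem_centralizer_iff.mpr fun x _ => Subgroup.mem_center_iff.mp (hL hz) x
    have h2 : ⁅⁅P1, (⊤ : Subgroup P)⁆, (⊤ : Subgroup P)⁆ = ⊥ := by
      rwa [Subgroup.commutator_comm P1 ⊤]
    have h := Subgroup.commutator_commutator_eq_bot_of_rotate (H₁ := (⊤ : Subgroup P)) (H₂ := ⊤)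
      (H₃ := P1) h1 h2
    rw [← commutator_def, ← hP1] at h
    intro w hw v hv
    exact commutatorElement_eq_one_iff_mul_comm.mp
      (Subgroup.mem_bot.mp (h ▸ Subgroup.commutator_mem_commutator hw hv))
  -- a minimal invariant section
  obtain ⟨X, hX⟩ := (Set.toFinite {X : Subgroup P | W < X ∧ X ≤ P1 ∧ ∀ b, ∀ x ∈ X, φ b x ∈ X}).exists_minimal
    ⟨P1, lt_of_le_of_ne inf_le_left fun h => hc (h ▸ inf_le_right), le_rfl, fun b x hx => by
      rw [← map_eq_of_char (φ b) (N := P1)]; exact ⟨x, hx, rfl⟩⟩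
  obtain ⟨hWX, hXP, hXinv⟩ := hX.prop
  obtain ⟨w, hwX, hwW⟩ := SetLike.exists_of_lt hWX
  set π := QuotientGroup.mk' W
  have hπc : ∀ a ∈ P1, π a ∈ Subgroup.center (P ⧸ W) := fun a ha => Subgroup.mem_center_iff.mpr fun z => by
    obtain ⟨x, rfl⟩ := QuotientGroup.mk'_surjective W z
    refine (commutatorElement_eq_one_iff_mul_comm.mp ?_).symm
    rw [← map_commutatorElement]
    exact (QuotientGroup.eq_one_iff _).mpr (hcent a ha x)
  have hfix_iff : ∀ b x, (x⁻¹ * φ b x ∈ W ↔ π (φ b x) = π x) := fun b x => by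
    rw [eq_comm]; exact (QuotientGroup.eq).symm
  let Sx : P → Subgroup B := fun x =>
    { carrier := {b | π (φ b x) = π x}
      one_mem' := by simp
      mul_mem' := fun {b c} hb hc => by
        simp only [Set.mem_setOf_eq, map_mul, MulAut.mul_apply] at hb hc ⊢
        have h1 : π (φ b (φ c x)) = π (φ b x) := by
          have hm : x⁻¹ * φ c x ∈ W := (hfix_iff c x).mpr hc
          have : (φ b x)⁻¹ * φ b (φ c x) ∈ W := by
            rw [← map_inv, ← map_mul]
            exact (hWinv b).le ⟨_, hm, rfl⟩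
          exact (QuotientGroup.eq.mpr this).symm
        rw [h1, hb]
      inv_mem' := fun {b} hb => by
        simp only [Set.mem_setOf_eq] at hb ⊢
        have hm : x⁻¹ * φ b x ∈ W := (hfix_iff b x).mpr hb
        have h2 : (φ b⁻¹ x)⁻¹ * φ b⁻¹ (φ b x) ∈ W := by
          rw [← map_inv (φ b⁻¹ : P ≃* P), ← map_mul (φ b⁻¹ : P ≃* P)]
          exact (hWinv b⁻¹).le ⟨_, hm, rfl⟩
        rw [← MulAut.mul_apply, ← map_mul, inv_mul_cancel, map_one, MulAut.one_apply] at h2
        exact QuotientGroup.eq.mpr h2 }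
  have hSmem : ∀ b x, b ∈ Sx x ↔ π (φ b x) = π x := fun _ _ => Iff.rfl
  have hsame : ∀ x ∈ X, x ∉ W → ∀ z ∈ X, Sx x ≤ Sx z := by
    intro x hx hxW z hz
    let Fx : Subgroup P :=
      { carrier := {y | y ∈ X ∧ ∀ b ∈ Sx x, π (φ b y) = π y}
        one_mem' := ⟨X.one_mem, fun b _ => by rw [map_one]⟩
        mul_mem' := fun {y y'} hy hy' => ⟨X.mul_mem hy.1 hy'.1, fun b hb => by
          rw [map_mul, map_mul, hy.2 b hb, hy'.2 b hb, map_mul]⟩
        inv_mem' := fun {y} hy => ⟨X.inv_mem hy.1, fun b hb => by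
          rw [map_inv, map_inv, hy.2 b hb, map_inv]⟩ }
    have hFle : Fx ≤ X := fun y hy => hy.1
    have hWF : W < Fx := by
      refine lt_of_le_of_ne (fun y hy => ⟨hWX.le hy, fun b _ => ?_⟩) fun h => hxW (h ▸ ?_)
      · rw [← hfix_iff]
        exact mul_mem (inv_mem hy) ((hWinv b).le ⟨y, hy, rfl⟩)
      · exact ⟨hx, fun b hb => hb⟩
    have hFinv : ∀ c, ∀ y ∈ Fx, φ c y ∈ Fx := by
      intro c y hy
      refine ⟨hXinv c y hy.1, fun b hb => ?_⟩
      obtain ⟨t, ht⟩ := D.inner b c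
      have e : φ b (φ c y) = t * φ c (φ b y) * t⁻¹ := by
        rw [← ht, ← MulAut.mul_apply, ← MulAut.mul_apply, ← MulAut.mul_apply, ← map_mul, ← map_mul,
          ← map_mul]
        congr 2
        group
      have hP : π (φ c (φ b y)) ∈ Subgroup.center (P ⧸ W) :=
        hπc _ (hXP (hXinv c _ (hXinv b y hy.1)))
      rw [e, map_mul, map_mul, map_inv, Subgroup.mem_center_iff.mp hP (π t), mul_inv_cancel_right]
      have hm : y⁻¹ * φ b y ∈ W := (hfix_iff b y).mpr (hy.2 b hb)
      refine (QuotientGroup.eq.mpr ?_).symm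
      rw [← map_inv, ← map_mul]
      exact (hWinv c).le ⟨_, hm, rfl⟩
    have hzF : z ∈ Fx := hX.le_of_le ⟨hWF, hFle.trans hXP, hFinv⟩ hFle hz
    exact fun b hb => hzF.2 b hb
  set S := Sx w with hS
  obtain ⟨B₀, hB₀, hB₀', hB₀i⟩ := index_kernel D hne
  -- the kernel fixes the section
  have hB₀S : B₀ ≤ S := by
    intro b hb
    let Kb : Subgroup P :=
      { carrier := {y | π (φ b y) = π y}
        one_mem' := by simp
        mul_mem' := fun {y y'} hy hy' => by
          simp only [Set.mem_setOf_eq, map_mul] at hy hy' ⊢; rw [hy, hy']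
        inv_mem' := fun {y} hy => by simp only [Set.mem_setOf_eq, map_inv] at hy ⊢; rw [hy] }
    suffices h : P1 ≤ Kb from h (hXP hwX)
    rw [hP1, commutator_def, Subgroup.commutator_le]
    intro x _ y _
    show π (φ b ⁅x, y⁆) = π ⁅x, y⁆
    obtain ⟨c, hc, hxe⟩ : ∃ c ∈ P1, φ b x = x * c :=
      ⟨_, (hB₀ b).mp hb x, (mul_inv_cancel_left _ _).symm⟩
    obtain ⟨d, hd, hye⟩ : ∃ d ∈ P1, φ b y = y * d :=
      ⟨_, (hB₀ b).mp hb y, (mul_inv_cancel_left _ _).symm⟩
    rw [map_commutatorElement (f := φ b)]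
    show π ⁅φ b x, φ b y⁆ = _
    rw [hxe, hye, map_commutatorElement, map_commutatorElement, map_mul, map_mul,
      commutatorElement_def, commutatorElement_def]
    have h1 := Subgroup.mem_center_iff.mp (hπc c hc)
    have h2 := Subgroup.mem_center_iff.mp (hπc d hd)
    calc π x * π c * (π y * π d) * (π x * π c)⁻¹ * (π y * π d)⁻¹
        = π x * (π c * (π y * π d) * (π c)⁻¹) * (π x)⁻¹ * ((π d)⁻¹ * (π y)⁻¹) := by group
      _ = π x * (π y * π d) * (π x)⁻¹ * ((π d)⁻¹ * (π y)⁻¹) := by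
          rw [← h1 (π y * π d)]; group
      _ = π x * π y * (π d * (π x)⁻¹ * (π d)⁻¹) * (π y)⁻¹ := by group
      _ = π x * π y * (π x)⁻¹ * (π y)⁻¹ := by rw [← h2 (π x)⁻¹]; group
  -- the centralizer
  set U := Subgroup.centralizer ({w} : Set P)
  have hP1U : P1 ≤ U := fun v hv =>
    Subgroup.mem_centralizer_singleton_iff.mpr (hP1ab v hv w (hXP hwX))
  have hUinv : ∀ b : S, ∀ x ∈ U, (φ.comp S.subtype) b x ∈ U := by
    intro b x hx
    have hm : w⁻¹ * φ b w ∈ W := (hfix_iff b w).mpr b.2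
    rw [Subgroup.mem_centralizer_singleton_iff] at hx ⊢
    show φ b x * w = w * φ b x
    have h1 : φ b x * φ b w = φ b w * φ b x := by rw [← map_mul, ← map_mul, hx]
    have h2 : φ b w = w * (w⁻¹ * φ b w) := by group
    set z := w⁻¹ * φ b w
    have hz := Subgroup.mem_center_iff.mp (Subgroup.mem_inf.mp hm).2
    rw [h2] at h1
    have h3 : φ b x * w * z = w * φ b x * z := by
      rw [mul_assoc, h1, mul_assoc w z, ← hz (φ b x), mul_assoc]
    exact mul_right_cancel h3
  have hUtop : U ≠ ⊤ := fun h => hwW ⟨hXP hwX, Subgroup.mem_center_iff.mpr fun x =>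
    Subgroup.mem_centralizer_singleton_iff.mp (show x ∈ U by rw [h]; trivial)⟩
  set q := P1.index
  have hUP : U ≠ P1 := by
    intro hU
    let ρ : P →* P :=
      { toFun := fun x => ⁅w, x⁆
        map_one' := commutatorElement_one_right _
        map_mul' := fun x x' => by
          have h := Subgroup.mem_center_iff.mp (hL (Subgroup.commutator_mem_commutator (hXP hwX)
            (Subgroup.mem_top x'))) x
          calc ⁅w, x * x'⁆ = ⁅w, x⁆ * (x * ⁅w, x'⁆ * x⁻¹) := by
                simp only [commutatorElement_def]; group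
            _ = ⁅w, x⁆ * ⁅w, x'⁆ := by rw [h, mul_inv_cancel_right] }
    have hker : ρ.ker = U := by
      ext x
      rw [MonoidHom.mem_ker, Subgroup.mem_centralizer_singleton_iff]
      exact commutatorElement_eq_one_iff_mul_comm.trans eq_comm
    have h1 : Nat.card ρ.range = q := by rw [← Subgroup.index_ker, hker, hU]
    have h2 : ρ.range ≤ L := by
      rintro _ ⟨x, rfl⟩
      exact Subgroup.commutator_mem_commutator (hXP hwX) trivial
    have h3 : (⊥ : Subgroup P).relIndex L < q := relIndex_lt D hne bot_le hLP1 fun z hz x => by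
      rw [Subgroup.mem_bot, commutatorElement_eq_one_iff_mul_comm]
      exact (Subgroup.mem_center_iff.mp (hL hz) x).symm
    rw [Subgroup.relIndex_bot_left] at h3
    have := Subgroup.card_le_of_le h2
    omega
  -- the two divisibilities
  obtain ⟨ψ, hψc, hψ⟩ := exists_coset_perm φ W X hWinv hWX.le hXinv
  have hm : S.index ∣ W.relIndex X - 1 := by
    rw [← hψc]
    refine index_dvd_card_of_perm ψ S fun c b => ?_
    obtain ⟨x, hx, hxc⟩ := c.2.1
    have hxW : x ∉ W := fun h => c.2.2 (hxc ▸ (QuotientGroup.eq_one_iff x).mpr h)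
    rw [Subtype.ext_iff, hψ b c x hxc.symm, ← hxc]
    refine (Iff.trans ?_ (hSmem b x).symm).trans ⟨fun h => hsame x hx hxW w hwX h,
      fun h => hsame w hwX hwW x hx h⟩
    exact Iff.rfl
  obtain ⟨χ, hχc, hχ⟩ := exists_coset_perm (φ.comp S.subtype) P1 U (fun b => map_eq_of_char _)
    hP1U hUinv
  have hn : (B₀.subgroupOf S).index ∣ P1.relIndex U - 1 := by
    rw [← hχc]
    refine index_dvd_card_of_perm χ _ fun c b => ?_
    obtain ⟨x, hx, hxc⟩ := c.2.1
    have hxP : x ∉ P1 := fun h => c.2.2 (hxc ▸ (QuotientGroup.eq_one_iff x).mpr h)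
    rw [Subtype.ext_iff, hχ b c x hxc.symm, ← hxc, Subgroup.mem_subgroupOf, eq_comm]
    exact ⟨fun h => hB₀' x hxP b (QuotientGroup.eq.mp h),
      fun h => QuotientGroup.eq.mpr ((hB₀ b).mp h x)⟩
  have hnm : B₀.relIndex S * S.index = q - 1 := by rw [Subgroup.relIndex_mul_index hB₀S, hB₀i]
  -- powers of the prime
  obtain ⟨f, hf⟩ : ∃ f, q = p ^ f := D.pgroup.index P1
  obtain ⟨e, he⟩ : ∃ e, W.relIndex X = p ^ e := (D.pgroup.to_subgroup X).index _
  obtain ⟨a, ha⟩ : ∃ a, P1.relIndex U = p ^ a := (D.pgroup.to_subgroup U).index _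
  have hp2 := hp.out.two_le
  have he0 : 0 < e := by
    rcases Nat.eq_zero_or_pos e with rfl | h
    · rw [pow_zero, Subgroup.relIndex_eq_one] at he
      exact absurd (he hwX) hwW
    · exact h
  have ha0 : 0 < a := by
    rcases Nat.eq_zero_or_pos a with rfl | h
    · rw [pow_zero, Subgroup.relIndex_eq_one] at ha
      exact absurd (le_antisymm ha hP1U) hUP
    · exact h
  have hlt1 : L.relIndex P1 < q := relIndex_lt D hne hLP1 le_rfl fun z hz x =>
    Subgroup.commutator_mem_commutator hz trivial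
  have hef : e < f := by
    refine (Nat.pow_lt_pow_iff_right hp2).mp (lt_of_le_of_lt ?_ (hf ▸ hlt1))
    rw [← he, ← Subgroup.relIndex_mul_relIndex L W P1 hLW inf_le_left,
      ← Subgroup.relIndex_mul_relIndex W X P1 hWX.le hXP]
    refine (Nat.le_mul_of_pos_left _ ?_).trans' (Nat.le_mul_of_pos_right _ ?_) <;>
      exact Nat.pos_of_dvd_of_pos (Subgroup.relIndex_dvd_card _ _) Nat.card_pos
  have haf : a < f := by
    refine (Nat.pow_lt_pow_iff_right hp2).mp ?_
    rw [← ha, ← hf, show q = P1.relIndex U * U.index from (Subgroup.relIndex_mul_index hP1U).symm]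
    refine lt_mul_of_one_lt_right
      (Nat.pos_of_dvd_of_pos (Subgroup.relIndex_dvd_card _ _) Nat.card_pos) ?_
    exact lt_of_le_of_ne (Nat.one_le_iff_ne_zero.mpr Subgroup.index_ne_zero_of_finite)
      fun h => hUtop (Subgroup.index_eq_one.mp h.symm)
  refine arith (p := p) hp2 he0 ha0 hef haf (he ▸ hm) ?_ (by rw [hnm, hf])
  rw [← ha]
  exact hn

theorem Data.quotient (D : Data P p φ) (N : Subgroup P) [N.Normal]
    (hN : ∀ b, N.map (φ b).toMonoidHom = N) (hle : N ≤ commutator P) :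
    ∃ φ' : B →* MulAut (P ⧸ N), Data (P ⧸ N) p φ' ∧
      (commutator P).map (QuotientGroup.mk' N) = commutator (P ⧸ N) := by
  set π := QuotientGroup.mk' N
  have hc : (commutator P).map π = commutator (P ⧸ N) := by
    rw [commutator_def, Subgroup.map_commutator, commutator_def,
      Subgroup.map_top_of_surjective _ (QuotientGroup.mk'_surjective N)]
  let φ' : B →* MulAut (P ⧸ N) :=
    { toFun := fun b => QuotientGroup.congr N N (φ b) (hN b)
      map_one' := MulEquiv.ext fun z => by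
        obtain ⟨x, rfl⟩ := QuotientGroup.mk'_surjective N z
        show π (φ 1 x) = π x
        rw [map_one, MulAut.one_apply]
      map_mul' := fun b c => MulEquiv.ext fun z => by
        obtain ⟨x, rfl⟩ := QuotientGroup.mk'_surjective N z
        show π (φ (b * c) x) = π (φ b (φ c x))
        rw [map_mul, MulAut.mul_apply] }
  have hmem : ∀ x, π x ∈ commutator (P ⧸ N) → x ∈ commutator P := by
    intro x hx
    rw [← hc] at hx
    obtain ⟨c, hc', e⟩ := hx
    rw [show x = c * (c⁻¹ * x) by group]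
    exact mul_mem hc' (hle (QuotientGroup.eq.mp e))
  refine ⟨φ', ⟨D.pgroup.to_quotient N, fun z => ?_, fun z hz c hc' => ?_, fun z hz z' hz' => ?_,
    fun b c => ?_⟩, hc⟩
  · obtain ⟨x, rfl⟩ := QuotientGroup.mk'_surjective N z
    rw [← hc, ← map_pow]
    exact Subgroup.mem_map_of_mem _ (D.expo x)
  · obtain ⟨x, rfl⟩ := QuotientGroup.mk'_surjective N z
    rw [← hc] at hc' hz
    obtain ⟨d, hd, rfl⟩ := hc'
    obtain ⟨t, ht⟩ := D.full x (fun h => hz (Subgroup.mem_map_of_mem _ h)) d hd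
    exact ⟨π t, by rw [← map_inv, ← map_mul, ← map_mul, ← map_mul, ht]⟩
  · obtain ⟨x, rfl⟩ := QuotientGroup.mk'_surjective N z
    obtain ⟨y, rfl⟩ := QuotientGroup.mk'_surjective N z'
    rw [← hc] at hz hz' ⊢
    obtain ⟨b, hb⟩ := D.trans x (fun h => hz (Subgroup.mem_map_of_mem _ h)) y
      (fun h => hz' (Subgroup.mem_map_of_mem _ h))
    refine ⟨b, ?_⟩
    show (π (φ b x))⁻¹ * π y ∈ _
    rw [← map_inv, ← map_mul]
    exact Subgroup.mem_map_of_mem _ hb
  · obtain ⟨t, ht⟩ := D.inner b c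
    refine ⟨π t, fun z => ?_⟩
    obtain ⟨x, rfl⟩ := QuotientGroup.mk'_surjective N z
    show π (φ (b * c * b⁻¹ * c⁻¹) x) = _
    rw [ht, map_mul, map_mul, map_inv]

/-- The derived subgroup is central. -/
theorem le_center (D : Data P p φ) : commutator P ≤ Subgroup.center P := by
  set P1 := commutator P
  set L := ⁅P1, (⊤ : Subgroup P)⁆ with hL
  set L' := ⁅L, (⊤ : Subgroup P)⁆ with hL'
  have hP1L' : L' ≤ P1 := (Subgroup.commutator_le_left L ⊤).trans (Subgroup.commutator_le_left P1 ⊤)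
  obtain ⟨φ', D', hc⟩ := D.quotient L' (fun b => map_eq_of_char (φ b)) hP1L'
  set π := QuotientGroup.mk' L'
  have hbot : (⊤ : Subgroup (P ⧸ L')) = (⊤ : Subgroup P).map π :=
    (Subgroup.map_top_of_surjective _ (QuotientGroup.mk'_surjective L')).symm
  have h1 := le_center_aux D' (by
    rw [← hc, hbot, ← Subgroup.map_commutator]
    rintro _ ⟨z, hz, rfl⟩
    refine Subgroup.mem_center_iff.mpr fun x' => ?_
    obtain ⟨x, rfl⟩ := QuotientGroup.mk'_surjective L' x'
    refine (commutatorElement_eq_one_iff_mul_comm.mp ?_).symm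
    rw [← map_commutatorElement]
    exact (QuotientGroup.eq_one_iff _).mpr (Subgroup.commutator_mem_commutator hz trivial))
  have hLL : L ≤ L' := by
    rw [hL, Subgroup.commutator_le]
    intro a ha x _
    refine (QuotientGroup.eq_one_iff _).mp ?_
    show π ⁅a, x⁆ = 1
    rw [map_commutatorElement, commutatorElement_eq_one_iff_mul_comm]
    exact (Subgroup.mem_center_iff.mp (h1 (hc ▸ Subgroup.mem_map_of_mem π ha)) (π x)).symm
  haveI : Group.IsNilpotent P := D.pgroup.isNilpotent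
  haveI : Group.IsNilpotent (⊤ : Subgroup P) := Core.isNilpotent_top_iff.mpr inferInstance
  have hbot' : L = ⊥ := Transfer.eq_bot_of_le_commutator le_top hLL
  intro a ha
  refine Subgroup.mem_center_iff.mpr fun x => ?_
  refine (commutatorElement_eq_one_iff_mul_comm.mp ?_).symm
  exact Subgroup.mem_bot.mp (hbot' ▸ Subgroup.commutator_mem_commutator ha trivial)

omit hp [Finite P] in
theorem mul_pow_central {x y : P} (hc : ⁅y, x⁆ ∈ Subgroup.center P) (n : ℕ) :
    (x * y) ^ n = ⁅y, x⁆ ^ n.choose 2 * (x ^ n * y ^ n) := by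
  have hcc := Subgroup.mem_center_iff.mp hc
  set c := ⁅y, x⁆ with hcdef
  have hyx : y * x = c * (x * y) := by rw [hcdef, commutatorElement_def]; group
  have hyn : ∀ n : ℕ, y ^ n * x = c ^ n * (x * y ^ n) := by
    intro n
    induction n with
    | zero => simp
    | succ n ih =>
      calc y ^ (n + 1) * x = y ^ n * (c * (x * y)) := by rw [pow_succ, mul_assoc, hyx]
        _ = c * (y ^ n * x) * y := by rw [← mul_assoc, hcc]; group
        _ = c * (c ^ n * (x * y ^ n)) * y := by rw [ih]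
        _ = _ := by rw [pow_succ' c n, pow_succ y n]; group
  induction n with
  | zero => simp
  | succ n ih =>
    have hcn : ∀ (k : ℕ) (g : P), g * c ^ k = c ^ k * g := fun k g =>
      Subgroup.mem_center_iff.mp ((Subgroup.center P).pow_mem hc k) g
    rw [pow_succ, ih, Nat.choose_succ_succ, Nat.choose_one_right, pow_add, pow_succ x, pow_succ y]
    calc c ^ n.choose 2 * (x ^ n * y ^ n) * (x * y)
        = c ^ n.choose 2 * (x ^ n * (y ^ n * x) * y) := by group
      _ = c ^ n.choose 2 * ((x ^ n * c ^ n) * (x * y ^ n) * y) := by rw [hyn]; group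
      _ = c ^ n.choose 2 * c ^ n * (x ^ n * x * (y ^ n * y)) := by rw [hcn]; group
      _ = c ^ n * c ^ n.choose 2 * (x ^ n * x * (y ^ n * y)) := by rw [hcn]

/-- The exponent. -/
theorem pow_eq_one (D : Data P p φ) (x : P) :
    (p ≠ 2 → x ^ p = 1) ∧ (p = 2 → x ^ 4 = 1) := by
  have hZ := le_center D
  set P1 := commutator P with hP1
  have hcz : ∀ a b : P, ⁅a, b⁆ ∈ Subgroup.center P := fun a b =>
    hZ (Subgroup.commutator_mem_commutator trivial trivial)
  have hexp : ∀ c ∈ P1, c ^ p = 1 := by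
    let T : Subgroup P :=
      { carrier := {c | c ∈ Subgroup.center P ∧ c ^ p = 1}
        one_mem' := ⟨one_mem _, one_pow _⟩
        mul_mem' := fun {a b} ha hb => ⟨mul_mem ha.1 hb.1, by
          rw [Commute.mul_pow (Subgroup.mem_center_iff.mp hb.1 a), ha.2, hb.2, one_mul]⟩
        inv_mem' := fun {a} ha => ⟨inv_mem ha.1, by rw [inv_pow, ha.2, inv_one]⟩ }
    suffices h : P1 ≤ T from fun c hc => (h hc).2
    rw [hP1, commutator_def, Subgroup.commutator_le]
    intro a _ b _
    refine ⟨hcz a b, ?_⟩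
    let ρ : P →* P :=
      { toFun := fun a => ⁅a, b⁆
        map_one' := commutatorElement_one_left _
        map_mul' := fun a a' => by
          have h := Subgroup.mem_center_iff.mp (hcz a' b) a
          calc ⁅a * a', b⁆ = a * ⁅a', b⁆ * a⁻¹ * ⁅a, b⁆ := by
                simp only [commutatorElement_def]; group
            _ = ⁅a', b⁆ * ⁅a, b⁆ := by rw [h, mul_inv_cancel_right]
            _ = ⁅a, b⁆ * ⁅a', b⁆ := (Subgroup.mem_center_iff.mp (hcz a' b) _).symm }
    show ρ a ^ p = 1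
    rw [← map_pow]
    exact commutatorElement_eq_one_iff_mul_comm.mpr
      (Subgroup.mem_center_iff.mp (hZ (D.expo a)) b).symm
  refine ⟨fun hp2 => ?_, fun h2 => ?_⟩
  swap
  · subst h2
    rw [show (4 : ℕ) = 2 * 2 from rfl, pow_mul]
    exact hexp _ (D.expo x)
  by_cases hne : P1 = ⊤
  · exact hexp x (hne ▸ Subgroup.mem_top x)
  let ρ : P →* P :=
    { toFun := fun x => x ^ p
      map_one' := one_pow _
      map_mul' := fun a b => by
        rw [mul_pow_central (hcz b a)]
        have hdvd : p ∣ p.choose 2 :=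
          Nat.Prime.dvd_choose_self hp.out two_ne_zero (lt_of_le_of_ne hp.out.two_le (Ne.symm hp2))
        obtain ⟨k, hk⟩ := hdvd
        rw [hk, pow_mul, hexp _ (Subgroup.commutator_mem_commutator trivial trivial), one_pow,
          one_mul] }
  by_contra hx
  have hker : ρ.ker = P1 := by
    refine le_antisymm (fun y hy => ?_) fun c hc => hexp c hc
    by_contra hy1
    have hx1 : x ∉ P1 := fun h => hx (hexp x h)
    obtain ⟨b, hb⟩ := D.trans y hy1 x hx1
    refine hx ?_
    have hy' : y ^ p = 1 := hy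
    have h3 : x = φ b y * ((φ b y)⁻¹ * x) := by group
    have h4 : ρ x = 1 := by
      rw [h3, map_mul]
      show (φ b y) ^ p * ((φ b y)⁻¹ * x) ^ p = 1
      rw [← map_pow, hy', map_one, hexp _ hb, one_mul]
    exact h4
  have h1 : Nat.card ρ.range = P1.index := by rw [← Subgroup.index_ker, hker]
  have h2 : ρ.range ≤ P1 := by
    rintro _ ⟨y, rfl⟩
    exact D.expo y
  have h3 : (⊥ : Subgroup P).relIndex P1 < P1.index := relIndex_lt D hne bot_le le_rfl fun z hz a => by
    rw [Subgroup.mem_bot, commutatorElement_eq_one_iff_mul_comm]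
    exact (Subgroup.mem_center_iff.mp (hZ hz) a).symm
  rw [Subgroup.relIndex_bot_left] at h3
  have := Subgroup.card_le_of_le h2
  omega

end Cfsg.Agent.FPF4.Camina
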