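/-
A group with a fixed-point-free automorphism of order dividing four: the subgroup fixed by the square,
the elements inverted by the square, and the invariant Sylow subgroups.
-/
import Cfsg.Agent.Transfer.FPFFour
import Mathlib.GroupTheory.Sylow
import Mathlib.GroupTheory.Perm.Cycle.Type

set_option autoImplicit false
set_option linter.unusedSectionVars false
set_option linter.style.haveILetI false

namespace Cfsg.Agent.FPF4

open Cfsg

/-- A fixed-point-free automorphism with trivial fourth power, on a group of odd order. -/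
structure Four {G : Type*} [Group G] (σ : MulAut G) : Prop where
  odd : Odd (Nat.card G)
  four : ∀ g : G, σ (σ (σ (σ g))) = g
  fpf : ∀ g : G, σ g = g → g = 1

variable {G : Type*} [Group G]

/-- The fixed subgroup of the square of the automorphism. -/
def fix2 (σ : MulAut G) : Subgroup G where
  carrier := {g | σ (σ g) = g}
  one_mem' := by simp
  mul_mem' := fun {a b} (ha : σ (σ a) = a) (hb : σ (σ b) = b) => by
    show σ (σ (a * b)) = a * b
    rw [map_mul, map_mul, ha, hb]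
  inv_mem' := fun {a} (ha : σ (σ a) = a) => by
    show σ (σ a⁻¹) = a⁻¹
    rw [map_inv, map_inv, ha]

theorem mem_fix2 {σ : MulAut G} {g : G} : g ∈ fix2 σ ↔ σ (σ g) = g := Iff.rfl

/-- An element inverted by the square of the automorphism. -/
def IsI (σ : MulAut G) (g : G) : Prop := σ (σ g) = g⁻¹

/-- An invariant subgroup. -/
def SInv (σ : MulAut G) (H : Subgroup G) : Prop := ∀ h ∈ H, σ h ∈ H

/-- A subgroup invariant under the square. -/
def ZInv (σ : MulAut G) (H : Subgroup G) : Prop := ∀ h ∈ H, σ (σ h) ∈ H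

variable {σ : MulAut G}

theorem SInv.zInv {H : Subgroup G} (h : SInv σ H) : ZInv σ H := fun x hx => h _ (h _ hx)

theorem SInv.map_eq [Finite G] {H : Subgroup G} (h : SInv σ H) : H.map σ.toMonoidHom = H :=
  Core.ThompsonFPF.map_eq_of_le (Subgroup.map_le_iff_le_comap.mpr h)

theorem sInv_of_map_eq {H : Subgroup G} (h : H.map σ.toMonoidHom = H) : SInv σ H :=
  fun x hx => h.le ⟨x, hx, rfl⟩

theorem SInv.inf {H K : Subgroup G} (h : SInv σ H) (k : SInv σ K) : SInv σ (H ⊓ K) :=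
  fun x hx => ⟨h _ hx.1, k _ hx.2⟩

theorem ZInv.inf {H K : Subgroup G} (h : ZInv σ H) (k : ZInv σ K) : ZInv σ (H ⊓ K) :=
  fun x hx => ⟨h _ hx.1, k _ hx.2⟩

theorem sInv_closure {S : Set G} (h : ∀ x ∈ S, σ x ∈ S) : SInv σ (Subgroup.closure S) := by
  intro x hx
  have : Subgroup.closure S ≤ (Subgroup.closure S).comap σ.toMonoidHom :=
    (Subgroup.closure_le _).mpr fun y hy => Subgroup.subset_closure (h y hy)
  exact this hx

theorem sInv_normalizer [Finite G] {H : Subgroup G} (h : SInv σ H) :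
    SInv σ (Subgroup.normalizer (H : Set G)) := by
  intro n hn
  rw [Subgroup.mem_normalizer_iff] at hn ⊢
  intro x
  obtain ⟨y, rfl⟩ := σ.surjective x
  have hiff : ∀ z : G, σ z ∈ H ↔ z ∈ H := fun z =>
    ⟨fun hz => by
      rw [← h.map_eq] at hz
      obtain ⟨w, hw, e⟩ := hz
      have he : w = z := σ.injective e
      exact he ▸ hw, h z⟩
  rw [← map_inv, ← map_mul, ← map_mul, hiff, hiff]
  exact hn y

theorem sInv_centralizer [Finite G] {S : Set G} (h : ∀ x ∈ S, σ x ∈ S) :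
    SInv σ (Subgroup.centralizer S) := by
  intro c hc
  rw [Subgroup.mem_centralizer_iff] at hc ⊢
  intro x hx
  obtain ⟨y, hy, rfl⟩ : ∃ y ∈ S, σ y = x := by
    have hfin : Function.Surjective (fun y : S => (⟨σ y, h _ y.2⟩ : S)) :=
      Finite.injective_iff_surjective.mp fun a b e =>
        Subtype.ext (σ.injective (congrArg Subtype.val e))
    obtain ⟨y, hy⟩ := hfin ⟨x, hx⟩
    exact ⟨y, y.2, congrArg Subtype.val hy⟩
  rw [← map_mul, ← map_mul, hc y hy]

theorem zInv_centralizer_singleton {y : G} (hy : IsI σ y) :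
    ZInv σ (Subgroup.centralizer ({y} : Set G)) := by
  intro c hc
  rw [Subgroup.mem_centralizer_singleton_iff] at hc ⊢
  have h := congrArg (fun g => σ (σ g)) hc
  simp only [map_mul] at h
  rw [show σ (σ y) = y⁻¹ from hy] at h
  calc σ (σ c) * y = y * (y⁻¹ * σ (σ c)) * y := by group
    _ = y * (σ (σ c) * y⁻¹) * y := by rw [h]
    _ = y * σ (σ c) := by group

namespace IsI

variable {x : G}

theorem one : IsI σ (1 : G) := by simp [IsI]

theorem inv (h : IsI σ x) : IsI σ x⁻¹ := by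
  show σ (σ x⁻¹) = x⁻¹⁻¹
  rw [map_inv, map_inv, show σ (σ x) = x⁻¹ from h]

theorem pow (h : IsI σ x) (n : ℕ) : IsI σ (x ^ n) := by
  show σ (σ (x ^ n)) = (x ^ n)⁻¹
  rw [map_pow, map_pow, show σ (σ x) = x⁻¹ from h, inv_pow]

theorem sigma (h : IsI σ x) : IsI σ (σ x) := by
  show σ (σ (σ x)) = (σ x)⁻¹
  rw [show σ (σ x) = x⁻¹ from h, map_inv]

theorem conj (h : IsI σ x) {a : G} (ha : a ∈ fix2 σ) : IsI σ (a * x * a⁻¹) := by
  show σ (σ (a * x * a⁻¹)) = (a * x * a⁻¹)⁻¹
  rw [map_mul, map_mul, map_mul, map_mul, map_inv, map_inv, show σ (σ a) = a from ha,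
    show σ (σ x) = x⁻¹ from h]
  group

end IsI

variable [Finite G]

theorem Four.sq_injective (hσ : Four σ) {x y : G} (h : x * x = y * y) : x = y := by
  have hc : (Nat.card G).Coprime 2 := Nat.coprime_two_right.mpr hσ.odd
  exact (powCoprime hc).injective (by simp only [powCoprime_apply]; rw [pow_two, pow_two]; exact h)

theorem Four.eq_one_of_mem_of_isI (hσ : Four σ) {x : G} (ha : x ∈ fix2 σ) (hi : IsI σ x) : x = 1 := by
  refine Transfer.FPFFour.eq_one_of_inv_eq_self hσ.odd ?_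
  exact hi.symm.trans ha

theorem Four.sigma_fix2 (hσ : Four σ) {a : G} (ha : a ∈ fix2 σ) : σ a = a⁻¹ := by
  let f : fix2 σ → fix2 σ := fun b => ⟨(b : G)⁻¹ * σ (b : G), (fix2 σ).mul_mem
    ((fix2 σ).inv_mem b.2) (show σ (σ (σ (b : G))) = σ (b : G) by rw [show σ (σ (b : G)) = b from b.2])⟩
  have hf : Function.Injective f := by
    intro b c e
    have e' : (b : G)⁻¹ * σ (b : G) = (c : G)⁻¹ * σ (c : G) := congrArg Subtype.val e
    have : σ ((c : G) * (b : G)⁻¹) = (c : G) * (b : G)⁻¹ := by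
      rw [map_mul, map_inv]
      calc σ (c : G) * (σ (b : G))⁻¹
          = (c : G) * ((c : G)⁻¹ * σ (c : G)) * ((b : G)⁻¹ * σ (b : G))⁻¹ * (b : G)⁻¹ := by group
        _ = (c : G) * (b : G)⁻¹ := by rw [e']; group
    exact Subtype.ext (mul_inv_eq_one.mp (hσ.fpf _ this)).symm
  obtain ⟨b, hb⟩ := Finite.injective_iff_surjective.mp hf ⟨a, ha⟩
  have hb' : (b : G)⁻¹ * σ (b : G) = a := congrArg Subtype.val hb
  rw [← hb', map_mul, map_inv, show σ (σ (b : G)) = b from b.2, mul_inv_rev, inv_inv]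

theorem Four.commute_fix2 (hσ : Four σ) {a b : G} (ha : a ∈ fix2 σ) (hb : b ∈ fix2 σ) :
    a * b = b * a := by
  have h := hσ.sigma_fix2 ((fix2 σ).mul_mem ha hb)
  rw [map_mul, hσ.sigma_fix2 ha, hσ.sigma_fix2 hb, mul_inv_rev] at h
  have := congrArg (·⁻¹) h
  simp only [mul_inv_rev, inv_inv] at this
  exact this.symm

theorem Four.sInv_zpowers_fix2 (hσ : Four σ) {a : G} (ha : a ∈ fix2 σ) :
    SInv σ (Subgroup.zpowers a) := by
  rintro x ⟨k, rfl⟩
  show σ (a ^ k) ∈ Subgroup.zpowers a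
  rw [map_zpow, hσ.sigma_fix2 ha]
  exact Subgroup.zpow_mem _ (Subgroup.inv_mem _ (Subgroup.mem_zpowers a)) _

theorem Four.sInv_fix2 (hσ : Four σ) : SInv σ (fix2 σ) := fun a ha => by
  rw [hσ.sigma_fix2 ha]; exact (fix2 σ).inv_mem ha

theorem Four.sInv_le_fix2 (hσ : Four σ) {H : Subgroup G} (hH : H ≤ fix2 σ) : SInv σ H :=
  fun a ha => by rw [hσ.sigma_fix2 (hH ha)]; exact H.inv_mem ha

/-- An inverted element moving a fixed element to a fixed element centralizes it. -/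
theorem Four.commute_of_isI (hσ : Four σ) {i v : G} (hi : IsI σ i) (hv : v ∈ fix2 σ)
    (hw : i * v * i⁻¹ ∈ fix2 σ) : i * v = v * i := by
  have h : σ (σ (i * v * i⁻¹)) = i * v * i⁻¹ := hw
  rw [map_mul, map_mul, map_mul, map_mul, map_inv, map_inv, show σ (σ v) = v from hv,
    show σ (σ i) = i⁻¹ from hi, inv_inv] at h
  have hsq : Commute (i ^ 2) v := by
    show i ^ 2 * v = v * i ^ 2
    calc i ^ 2 * v = i * (i * v * i⁻¹) * i := by rw [pow_two]; group
      _ = i * (i⁻¹ * v * i) * i := by rw [← h]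
      _ = v * i ^ 2 := by rw [pow_two]; group
  obtain ⟨k, hk⟩ : ∃ k, (i ^ 2) ^ k = i :=
    exists_pow_eq_self_of_coprime ((Nat.coprime_two_right.mpr hσ.odd).coprime_dvd_left
      (orderOf_dvd_natCard i)).symm
  have := hsq.pow_left k
  rw [hk] at this
  exact this.eq

/-- Every element of an invariant subgroup is a fixed element times an inverted one. -/
theorem Four.exists_mul (hσ : Four σ) {H : Subgroup G} (hH : ZInv σ H) {h : G} (hh : h ∈ H) :
    ∃ a ∈ fix2 σ ⊓ H, ∃ i ∈ H, IsI σ i ∧ a * i = h := by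
  set t := h⁻¹ * σ (σ h) with ht
  have htH : t ∈ H := H.mul_mem (H.inv_mem hh) (hH h hh)
  have htI : IsI σ t := by
    show σ (σ (h⁻¹ * σ (σ h))) = (h⁻¹ * σ (σ h))⁻¹
    rw [map_mul, map_mul, map_inv, map_inv, hσ.four, mul_inv_rev, inv_inv]
  obtain ⟨m, hm⟩ := hσ.odd
  set i := (t ^ (m + 1))⁻¹ with hi
  have hiH : i ∈ H := H.inv_mem (H.pow_mem htH _)
  have hiI : IsI σ i := (htI.pow _).inv
  have hii : i⁻¹ * i⁻¹ = t := by
    rw [hi, inv_inv, ← pow_add, show m + 1 + (m + 1) = Nat.card G + 1 by omega, pow_succ,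
      pow_card_eq_one', one_mul]
  refine ⟨h * i⁻¹, ⟨?_, H.mul_mem hh (H.inv_mem hiH)⟩, i, hiH, hiI, by group⟩
  show σ (σ (h * i⁻¹)) = h * i⁻¹
  rw [map_mul, map_mul, map_inv, map_inv, show σ (σ i) = i⁻¹ from hiI,
    show σ (σ h) = h * t by rw [ht]; group, ← hii]
  group

theorem Four.mul_unique (hσ : Four σ) {a a' i i' : G} (ha : a ∈ fix2 σ) (ha' : a' ∈ fix2 σ)
    (hi : IsI σ i) (hi' : IsI σ i') (h : a * i = a' * i') : a = a' ∧ i = i' := by
  have h2 := congrArg (fun g => σ (σ g)) h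
  simp only [map_mul] at h2
  rw [show σ (σ a) = a from ha, show σ (σ a') = a' from ha', show σ (σ i) = i⁻¹ from hi,
    show σ (σ i') = i'⁻¹ from hi'] at h2
  have hii : i = i' := hσ.sq_injective (by
    calc i * i = (a * i⁻¹)⁻¹ * (a * i) := by group
      _ = (a' * i'⁻¹)⁻¹ * (a' * i') := by rw [h, h2]
      _ = i' * i' := by group)
  subst hii
  exact ⟨mul_right_cancel h, rfl⟩

/-- The order formula for an invariant subgroup. -/
theorem Four.card_eq (hσ : Four σ) {H : Subgroup G} (hH : ZInv σ H) :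
    Nat.card H = Nat.card ↥(fix2 σ ⊓ H) * Nat.card {x : G // x ∈ H ∧ IsI σ x} := by
  rw [← Nat.card_prod]
  refine (Nat.card_congr (Equiv.ofBijective
    (fun q : ↥(fix2 σ ⊓ H) × {x : G // x ∈ H ∧ IsI σ x} =>
      (⟨(q.1 : G) * q.2, H.mul_mem q.1.2.2 q.2.2.1⟩ : H)) ⟨?_, ?_⟩)).symm
  · rintro ⟨a, i⟩ ⟨a', i'⟩ e
    obtain ⟨h1, h2⟩ := hσ.mul_unique a.2.1 a'.2.1 i.2.2 i'.2.2 (congrArg Subtype.val e)
    rw [Subtype.ext h1, Subtype.ext h2]
  · intro h
    obtain ⟨a, ha, i, hiH, hiI, e⟩ := hσ.exists_mul hH h.2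
    exact ⟨(⟨a, ha⟩, ⟨i, hiH, hiI⟩), Subtype.ext e⟩

theorem Four.restrict (hσ : Four σ) {H : Subgroup G} (hH : SInv σ H) :
    Four (Core.ThompsonFPF.restrict σ H hH.map_eq : MulAut H) where
  odd := Odd.of_dvd_nat hσ.odd (Subgroup.card_subgroup_dvd_card H)
  four x := Subtype.ext (hσ.four x)
  fpf x hx := Subtype.ext (hσ.fpf x (congrArg Subtype.val hx))

theorem Four.pow_four (hσ : Four σ) : σ ^ 4 = 1 :=
  MulEquiv.ext fun g => by simpa [pow_succ, MulAut.mul_apply] using hσ.four g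

variable {p : ℕ} [hp : Fact p.Prime]

/-- Every invariant subgroup has an invariant Sylow subgroup. -/
theorem Four.exists_sInv_sylow_in (hσ : Four σ) {H : Subgroup G} (hH : SInv σ H) :
    ∃ T : Subgroup G, T ≤ H ∧ IsPGroup p T ∧ SInv σ T ∧ ¬ p ∣ T.relIndex H := by
  obtain ⟨P, hP⟩ := Core.ThompsonFPF.exists_invariant_sylow (hσ.restrict hH).fpf p
  refine ⟨(P : Subgroup H).map H.subtype, Subgroup.map_subtype_le _, P.2.map _, ?_, ?_⟩
  · rintro _ ⟨x, hx, rfl⟩
    exact ⟨Core.ThompsonFPF.restrict σ H hH.map_eq x, hP.le ⟨x, hx, rfl⟩, rfl⟩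
  · rw [Subgroup.relIndex, Subgroup.subgroupOf,
      Subgroup.comap_map_eq_self_of_injective H.subtype_injective]
    exact P.not_dvd_index

/-- Every subgroup invariant under the square has such a Sylow subgroup. -/
theorem Four.exists_zInv_sylow_in (hσ : Four σ) {H : Subgroup G} (hH : ZInv σ H) :
    ∃ T : Subgroup G, T ≤ H ∧ IsPGroup p T ∧ ZInv σ T ∧ ¬ p ∣ T.relIndex H := by
  classical
  have hmap : H.map (σ * σ).toMonoidHom = H :=
    Core.ThompsonFPF.map_eq_of_le (Subgroup.map_le_iff_le_comap.mpr hH)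
  set τ : MulAut H := Core.ThompsonFPF.restrict (σ * σ) H hmap
  have hτ : ∀ x, τ (τ x) = x := fun x => Subtype.ext (hσ.four x)
  have hsur : Function.Surjective (τ.toMonoidHom : H →* H) := τ.surjective
  let f : Sylow p H → Sylow p H := fun P => P.mapSurjective hsur
  have hfc : ∀ P : Sylow p H, (f P : Subgroup H) = (P : Subgroup H).map τ.toMonoidHom :=
    fun P => Sylow.coe_mapSurjective hsur P
  have hf : Function.Involutive f := by
    intro P
    refine Sylow.ext ?_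
    rw [hfc, hfc, Subgroup.map_map]
    have : τ.toMonoidHom.comp τ.toMonoidHom = MonoidHom.id H := MonoidHom.ext hτ
    rw [this, Subgroup.map_id]
  haveI := Fintype.ofFinite (Sylow p H)
  obtain ⟨P₀⟩ : Nonempty (Sylow p H) := inferInstance
  have hodd : ¬ 2 ∣ Fintype.card (Sylow p H) := by
    rw [← Nat.card_eq_fintype_card]
    exact Nat.not_even_iff_odd.mpr (Odd.of_dvd_nat
      (Odd.of_dvd_nat hσ.odd (Subgroup.card_subgroup_dvd_card H))
      (P₀.card_dvd_index.trans (Subgroup.index_dvd_card _))) ∘ even_iff_two_dvd.mpr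
  haveI : Fact (Nat.Prime 2) := ⟨Nat.prime_two⟩
  obtain ⟨P, hP⟩ := Equiv.Perm.exists_fixed_point_of_prime (p := 2) (n := 1) hodd
    (σ := hf.toPerm f) (by ext P; simp [pow_two, hf P])
  have hP' : (P : Subgroup H).map τ.toMonoidHom = (P : Subgroup H) := by
    have := congrArg (fun Q : Sylow p H => (Q : Subgroup H)) hP
    rw [← hfc P]; exact this
  refine ⟨(P : Subgroup H).map H.subtype, Subgroup.map_subtype_le _, P.2.map _, ?_, ?_⟩
  · rintro _ ⟨x, hx, rfl⟩
    exact ⟨τ x, hP'.le ⟨x, hx, rfl⟩, rfl⟩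
  · rw [Subgroup.relIndex, Subgroup.subgroupOf,
      Subgroup.comap_map_eq_self_of_injective H.subtype_injective]
    exact P.not_dvd_index

/-- An invariant p-subgroup, maximal as such, is a Sylow subgroup. -/
theorem maximal_is_sylow (Inv : Subgroup G → Prop) {U : Subgroup G} (hUp : IsPGroup p U)
    (hN : ∃ T : Subgroup G, T ≤ Subgroup.normalizer (U : Set G) ∧ IsPGroup p T ∧ Inv T ∧
      ¬ p ∣ T.relIndex (Subgroup.normalizer (U : Set G)))
    (hmax : ∀ T : Subgroup G, U ≤ T → IsPGroup p T → Inv T → T = U) :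
    ¬ p ∣ U.index := by
  obtain ⟨T, hTN, hTp, hTi, hidx⟩ := hN
  set N := Subgroup.normalizer (U : Set G)
  haveI hUn : (U.subgroupOf N).Normal := Subgroup.normal_in_normalizer
  let R : Sylow p N := (hTp.comap_subtype (K := N)).toSylow hidx
  have hUT : U ≤ T := by
    intro u hu
    have h1 : U.subgroupOf N ≤ (R : Subgroup N) :=
      (Core.le_pCore hUn (hUp.comap_subtype (K := N))).trans (Core.pCore_le_sylow R)
    exact h1 (show (⟨u, Subgroup.le_normalizer hu⟩ : N) ∈ U.subgroupOf N from hu)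
  have hTU := hmax T hUT hTp hTi
  subst hTU
  obtain ⟨S, hS⟩ := hUp.exists_le_sylow
  rcases hS.lt_or_eq with hlt | heq
  · exfalso
    have hlt2 := Transfer.lt_inf_normalizer S.2 hlt
    set V := (S : Subgroup G) ⊓ N with hV
    have hVp : IsPGroup p (V.subgroupOf N) := (S.2.to_le inf_le_left).comap_subtype
    obtain ⟨R', hR'⟩ := hVp.exists_le_sylow
    have hc1 : Nat.card (V.subgroupOf N) ≤ Nat.card (R : Subgroup N) := by
      rw [R.card_eq_multiplicity, ← R'.card_eq_multiplicity]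
      exact Subgroup.card_le_of_le hR'
    have hc2 : Nat.card T < Nat.card V := by
      refine lt_of_le_of_ne (Subgroup.card_le_of_le hlt2.le) fun e => hlt2.ne ?_
      exact Subgroup.eq_of_le_of_card_ge hlt2.le e.ge
    have e1 : Nat.card (R : Subgroup N) = Nat.card T :=
      Nat.card_congr (Subgroup.subgroupOfEquivOfLe hTN).toEquiv
    have e2 : Nat.card (V.subgroupOf N) = Nat.card V :=
      Nat.card_congr (Subgroup.subgroupOfEquivOfLe inf_le_right).toEquiv
    omega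
  · rw [heq]; exact S.not_dvd_index

/-- An invariant p-subgroup lies in an invariant Sylow subgroup. -/
theorem exists_invariant_sylow_ge (Inv : Subgroup G → Prop)
    (hex : ∀ U : Subgroup G, Inv U → ∃ T : Subgroup G, T ≤ Subgroup.normalizer (U : Set G) ∧
      IsPGroup p T ∧ Inv T ∧ ¬ p ∣ T.relIndex (Subgroup.normalizer (U : Set G)))
    {U : Subgroup G} (hUp : IsPGroup p U) (hUi : Inv U) :
    ∃ P : Sylow p G, U ≤ P ∧ Inv (P : Subgroup G) := by
  obtain ⟨M, hM⟩ := (Set.toFinite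
    {T : Subgroup G | U ≤ T ∧ IsPGroup p T ∧ Inv T}).exists_maximal ⟨U, le_rfl, hUp, hUi⟩
  obtain ⟨hUM, hMp, hMi⟩ := hM.prop
  refine ⟨hMp.toSylow (maximal_is_sylow Inv hMp (hex M hMi) fun T hT hTp hTi => ?_),
    by simpa using hUM, by simpa using hMi⟩
  exact le_antisymm (hM.le_of_ge ⟨hUM.trans hT, hTp, hTi⟩ hT) hT

theorem zInv_normalizer {U : Subgroup G} (hU : ZInv σ U) :
    ZInv σ (Subgroup.normalizer (U : Set G)) := by
  intro n hn
  exact sInv_normalizer (σ := σ * σ) (fun x hx => hU x hx) n hn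

theorem Four.exists_sylow_ge (hσ : Four σ) {U : Subgroup G} (hUp : IsPGroup p U) (hUi : SInv σ U) :
    ∃ P : Sylow p G, U ≤ P ∧ SInv σ (P : Subgroup G) :=
  exists_invariant_sylow_ge (SInv σ) (fun _ hV => hσ.exists_sInv_sylow_in (sInv_normalizer hV))
    hUp hUi

theorem Four.exists_zSylow_ge (hσ : Four σ) {U : Subgroup G} (hUp : IsPGroup p U)
    (hUi : ZInv σ U) : ∃ P : Sylow p G, U ≤ P ∧ ZInv σ (P : Subgroup G) :=
  exists_invariant_sylow_ge (ZInv σ) (fun _ hV => hσ.exists_zInv_sylow_in (zInv_normalizer hV))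
    hUp hUi

theorem Four.sylow_unique (hσ : Four σ) {P P' : Sylow p G} (hP : SInv σ (P : Subgroup G))
    (hP' : SInv σ (P' : Subgroup G)) : P' = P := by
  obtain ⟨g, rfl⟩ := MulAction.exists_smul_eq G P P'
  have hconj : ∀ x, x ∈ ((g • P : Sylow p G) : Subgroup G) ↔ g⁻¹ * x * g ∈ (P : Subgroup G) := by
    intro x
    rw [Sylow.coe_subgroup_smul, Subgroup.mem_pointwise_smul_iff_inv_smul_mem]
    simp [MulAut.conj_apply]
  have hn : g⁻¹ * σ g ∈ Subgroup.normalizer ((P : Subgroup G) : Set G) := by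
    apply Coprime.mem_normalizer_of_conj_mem
    intro x hx
    obtain ⟨y, hy, rfl⟩ : x ∈ (P : Subgroup G).map σ.toMonoidHom := by rwa [hP.map_eq]
    have h1 : g * y * g⁻¹ ∈ ((g • P : Sylow p G) : Subgroup G) := by
      rw [hconj]; rw [show g⁻¹ * (g * y * g⁻¹) * g = y by group]; exact hy
    have h2 := (hconj _).mp (hP' _ h1)
    simp only [map_mul, map_inv, MulEquiv.coe_toMonoidHom] at h2 ⊢
    have e : g⁻¹ * σ g * σ y * (g⁻¹ * σ g)⁻¹ = g⁻¹ * (σ g * σ y * (σ g)⁻¹) * g := by group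
    rw [e]; exact h2
  set N := Subgroup.normalizer ((P : Subgroup G) : Set G)
  have hsurj : Function.Surjective (fun m : N =>
      (⟨(m : G)⁻¹ * σ (m : G), N.mul_mem (N.inv_mem m.2) (sInv_normalizer hP _ m.2)⟩ : N)) := by
    refine Finite.injective_iff_surjective.mp fun b c e => ?_
    have e' : (b : G)⁻¹ * σ (b : G) = (c : G)⁻¹ * σ (c : G) := congrArg Subtype.val e
    have : σ ((c : G) * (b : G)⁻¹) = (c : G) * (b : G)⁻¹ := by
      rw [map_mul, map_inv]
      calc σ (c : G) * (σ (b : G))⁻¹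
          = (c : G) * ((c : G)⁻¹ * σ (c : G)) * ((b : G)⁻¹ * σ (b : G))⁻¹ * (b : G)⁻¹ := by group
        _ = (c : G) * (b : G)⁻¹ := by rw [e']; group
    exact Subtype.ext (mul_inv_eq_one.mp (hσ.fpf _ this)).symm
  obtain ⟨m, hm⟩ := hsurj ⟨_, hn⟩
  have hm' : (m : G)⁻¹ * σ (m : G) = g⁻¹ * σ g := congrArg Subtype.val hm
  have hfix : σ (g * (m : G)⁻¹) = g * (m : G)⁻¹ := by
    rw [map_mul, map_inv]
    calc σ g * (σ (m : G))⁻¹ = g * (g⁻¹ * σ g) * ((m : G)⁻¹ * σ (m : G))⁻¹ * (m : G)⁻¹ := by group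
      _ = g * (m : G)⁻¹ := by rw [hm']; group
  rw [mul_inv_eq_one.mp (hσ.fpf _ hfix)]
  exact Sylow.smul_eq_iff_mem_normalizer.mpr m.2

/-- Two Sylow subgroups invariant under the square are conjugate by a fixed element. -/
theorem Four.zSylow_conj (hσ : Four σ) {H : Subgroup G} (hH : ZInv σ H) {P P' : Sylow p G}
    (hP : ZInv σ (P : Subgroup G)) (hP' : ZInv σ (P' : Subgroup G))
    (hPH : (P : Subgroup G) ≤ H) (hP'H : (P' : Subgroup G) ≤ H) :
    ∃ a ∈ fix2 σ ⊓ H, a • P = P' := by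
  obtain ⟨g', hg'⟩ := MulAction.exists_smul_eq H (P.subtype hPH) (P'.subtype hP'H)
  set g : G := (g' : G)
  have hgP : g • P = P' := by
    rw [Sylow.smul_subtype] at hg'
    exact Sylow.subtype_injective hg'
  have hconj : ∀ x, x ∈ (P' : Subgroup G) ↔ g⁻¹ * x * g ∈ (P : Subgroup G) := by
    intro x
    rw [← hgP, Sylow.coe_subgroup_smul, Subgroup.mem_pointwise_smul_iff_inv_smul_mem]
    simp [MulAut.conj_apply]
  set N := Subgroup.normalizer ((P : Subgroup G) : Set G) ⊓ H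
  have hN : ZInv σ N := (zInv_normalizer hP).inf hH
  have hn : g⁻¹ * σ (σ g) ∈ N := by
    refine ⟨Coprime.mem_normalizer_of_conj_mem fun x hx => ?_,
      H.mul_mem (H.inv_mem g'.2) (hH _ g'.2)⟩
    have hx' : σ (σ x) ∈ (P : Subgroup G) := hP x hx
    have h1 : g * σ (σ x) * g⁻¹ ∈ (P' : Subgroup G) := by
      rw [hconj, show g⁻¹ * (g * σ (σ x) * g⁻¹) * g = σ (σ x) by group]; exact hx'
    have h2 := (hconj _).mp (hP' _ h1)
    simp only [map_mul, map_inv, hσ.four] at h2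
    have e : g⁻¹ * σ (σ g) * x * (g⁻¹ * σ (σ g))⁻¹ = g⁻¹ * (σ (σ g) * x * (σ (σ g))⁻¹) * g := by
      group
    rw [e]; exact h2
  have htI : IsI σ (g⁻¹ * σ (σ g)) := by
    show σ (σ (g⁻¹ * σ (σ g))) = (g⁻¹ * σ (σ g))⁻¹
    rw [map_mul, map_mul, map_inv, map_inv, hσ.four, mul_inv_rev, inv_inv]
  obtain ⟨m, hm⟩ := hσ.odd
  set t := g⁻¹ * σ (σ g) with ht
  set i := (t ^ (m + 1))⁻¹ with hi
  have hiN : i ∈ N := N.inv_mem (N.pow_mem hn _)
  have hii : i⁻¹ * i⁻¹ = t := by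
    rw [hi, inv_inv, ← pow_add, show m + 1 + (m + 1) = Nat.card G + 1 by omega, pow_succ,
      pow_card_eq_one', one_mul]
  refine ⟨g * i⁻¹, ⟨?_, H.mul_mem g'.2 (H.inv_mem hiN.2)⟩, ?_⟩
  · show σ (σ (g * i⁻¹)) = g * i⁻¹
    rw [map_mul, map_mul, map_inv, map_inv, show σ (σ i) = i⁻¹ from (htI.pow _).inv,
      show σ (σ g) = g * t by rw [ht]; group, ← hii]
    group
  · rw [mul_smul, Sylow.smul_eq_iff_mem_normalizer.mpr (Subgroup.inv_mem _ hiN.1), hgP]

end Cfsg.Agent.FPF4
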