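/-
In a solvable group with a fixed-point-free automorphism of order dividing four, every element
inverted by the square lies in the Fitting subgroup.
-/
import Cfsg.Agent.FPF4.Split

set_option autoImplicit false
set_option linter.unusedSectionVars false
set_option linter.style.haveILetI false

namespace Cfsg.Agent.FPF4

open Cfsg
open scoped commutatorElement

universe u

theorem mem_fitting_aux : ∀ (n : ℕ) {G : Type u} [Group G] [Finite G],
    Nat.card G ≤ n → Group.IsSolvable G → ∀ σ : MulAut G, σ ^ 4 = 1 →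
      (∀ g : G, σ g = g → g = 1) → ∀ x : G, σ (σ x) = x⁻¹ → x ∈ fittingSubgroup G := by
  intro n
  induction n with
  | zero => intro G _ _ h; exact absurd h (by simp [Nat.card_pos.ne'])
  | succ n ih =>
  intro G _ _ hcard hsol σ hσ hfpf x hx
  classical
  rcases subsingleton_or_nontrivial G with hs | hnt
  · rw [Subsingleton.elim x 1]; exact one_mem _
  haveI := hsol
  -- a minimal nontrivial σ-invariant normal subgroup
  obtain ⟨V, ⟨hVn, hVσ, hV1⟩, hVmin⟩ := (Set.toFinite
    {V : Subgroup G | V.Normal ∧ V.map σ.toMonoidHom = V ∧ V ≠ ⊥}).exists_minimal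
    ⟨⊤, inferInstance, Subgroup.map_top_of_surjective _ σ.surjective, top_ne_bot⟩
  haveI := hVn
  have hmin : ∀ W : Subgroup G, W.Normal → W.map σ.toMonoidHom ≤ W → W ≤ V → W ≠ ⊥ → W = V := by
    intro W hWn hWσ hWV hW1
    exact le_antisymm hWV (hVmin ⟨hWn, Core.ThompsonFPF.map_eq_of_le hWσ, hW1⟩ hWV)
  have hVc : IsMulCommutative V := by
    rw [← Subgroup.commutator_self_eq_bot_iff]
    by_contra hne
    have heq : ⁅V, V⁆ = V := hmin _ inferInstance
      (by rw [Subgroup.map_commutator, hVσ]) (Subgroup.commutator_le_self V) hne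
    haveI : Nontrivial V := (Subgroup.nontrivial_iff_ne_bot V).mpr hV1
    refine (Group.IsSolvable.commutator_lt_top_of_nontrivial V).ne ?_
    refine Subgroup.map_injective V.subtype_injective ?_
    rw [Subgroup.map_subtype_commutator, heq, ← MonoidHom.range_eq_map, Subgroup.range_subtype]
  obtain ⟨p, hp, hpV⟩ := Nat.exists_prime_and_dvd (mt Subgroup.card_eq_one.mp hV1)
  haveI : Fact p.Prime := ⟨hp⟩
  -- `V` is a p-group
  have hVp : IsPGroup p V := by
    let W : Subgroup G := (pCore p V).map V.subtype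
    have hW : W = V := by
      have hWn : W.Normal := Core.normal_map_subtype_of_characteristic _
      refine hmin W hWn ?_ (Subgroup.map_subtype_le _) ?_
      · have h := Core.pCore_map_equiv (p := p) (Core.ThompsonFPF.restrict σ V hVσ)
        rintro _ ⟨_, ⟨w, hw, rfl⟩, rfl⟩
        refine ⟨Core.ThompsonFPF.restrict σ V hVσ w, ?_, rfl⟩
        exact h.le ⟨w, hw, rfl⟩
      · intro hbot
        have hb : pCore p V = ⊥ := (Subgroup.map_eq_bot_iff_of_injective _ V.subtype_injective).mp hbot
        obtain ⟨P⟩ := (inferInstance : Nonempty (Sylow p V))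
        haveI := hVc
        have hP := Core.le_pCore (Subgroup.normal_of_isMulCommutative (P : Subgroup V)) P.2
        rw [hb, le_bot_iff] at hP
        exact P.ne_bot_of_dvd_card hpV hP
    refine (((Core.isPGroup_pCore p V).map V.subtype).to_le hW.ge).of_equiv (MulEquiv.refl _)
  -- induction
  have hfq := Core.ThompsonFPF.fpf_quotient (φ := σ) hfpf hVσ
  have hq4 : (QuotientGroup.congr V V σ hVσ : MulAut (G ⧸ V)) ^ 4 = 1 := by
    refine MulEquiv.ext fun x => ?_
    obtain ⟨g, rfl⟩ := QuotientGroup.mk'_surjective V x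
    have := congrArg (fun f : MulAut G => f g) hσ
    simp only [pow_succ, pow_zero, one_mul, MulAut.mul_apply, MulAut.one_apply] at this ⊢
    show QuotientGroup.mk' V _ = _
    exact congrArg _ this
  have hqlt : Nat.card (G ⧸ V) < Nat.card G := by
    rw [Subgroup.card_eq_card_quotient_mul_card_subgroup V]
    exact lt_mul_of_one_lt_right Nat.card_pos ((Subgroup.one_lt_card_iff_ne_bot V).mpr hV1)
  have hIH := ih (by omega) inferInstance (QuotientGroup.congr V V σ hVσ) hq4 hfq
  -- the acting group
  set C := Subgroup.centralizer (V : Set G) with hC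
  have hCσ : C.map σ.toMonoidHom = C := by
    refine Core.ThompsonFPF.map_eq_of_le ?_
    rintro _ ⟨c, hc, rfl⟩
    refine Subgroup.mem_centralizer_iff.mpr fun v hv => ?_
    rw [← hVσ] at hv
    obtain ⟨w, hw, rfl⟩ := hv
    have := congrArg σ (Subgroup.mem_centralizer_iff.mp hc w hw)
    simpa using this
  set σH : MulAut (G ⧸ C) := QuotientGroup.congr C C σ hCσ with hσH
  have hσH_mk : ∀ g, σH (QuotientGroup.mk' C g) = QuotientGroup.mk' C (σ g) := fun g => rfl
  have hH4 : σH ^ 4 = 1 := by
    refine MulEquiv.ext fun x => ?_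
    obtain ⟨g, rfl⟩ := QuotientGroup.mk'_surjective C x
    have := congrArg (fun f : MulAut G => f g) hσ
    simp only [pow_succ, pow_zero, one_mul, MulAut.mul_apply, MulAut.one_apply] at this ⊢
    show QuotientGroup.mk' C _ = _
    exact congrArg _ this
  have hHfpf := Core.ThompsonFPF.fpf_quotient (φ := σ) hfpf hCσ
  -- `O_p(G / C) = 1`
  have hOp : pCore p (G ⧸ C) = ⊥ := by
    set K := (pCore p (G ⧸ C)).comap (QuotientGroup.mk' C) with hK
    have hfix : V ⊓ Subgroup.centralizer (K : Set G) = V := by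
      haveI : K.Normal := Subgroup.Normal.comap inferInstance _
      refine hmin _ inferInstance ?_ inf_le_left ?_
      · rintro _ ⟨w, ⟨hw1, hw2⟩, rfl⟩
        refine ⟨hVσ.le ⟨w, hw1, rfl⟩, Subgroup.mem_centralizer_iff.mpr fun k hk => ?_⟩
        have hk' : σ.symm k ∈ K := by
          show QuotientGroup.mk' C (σ.symm k) ∈ pCore p (G ⧸ C)
          have h := (Core.pCore_map_equiv (p := p) σH).ge hk
          obtain ⟨x, hx, hxe⟩ := h
          have : σH (QuotientGroup.mk' C (σ.symm k)) = σH x := by
            rw [hσH_mk, MulEquiv.apply_symm_apply]; exact hxe.symm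
          rw [σH.injective this]; exact hx
        have := congrArg σ (Subgroup.mem_centralizer_iff.mp hw2 _ hk')
        simpa using this
      · -- a p-group acting on a p-group fixes a nontrivial element
        let ρ : (G ⧸ C) →* MulAut V := QuotientGroup.lift C (MulAut.conjNormal (H := V)) (by
          intro c hc
          refine MulEquiv.ext fun v => Subtype.ext ?_
          rw [MulAut.conjNormal_apply, MulAut.one_apply,
            ← Subgroup.mem_centralizer_iff.mp hc v v.2, mul_inv_cancel_right])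
        letI : MulAction (G ⧸ C) V := MulAction.compHom V ρ
        haveI : Finite V := inferInstance
        have h1 : (1 : V) ∈ MulAction.fixedPoints (pCore p (G ⧸ C)) V := fun x =>
          map_one (ρ (x : G ⧸ C))
        obtain ⟨v, hv, hv1⟩ := (Core.isPGroup_pCore p (G ⧸ C)).exists_fixed_point_of_prime_dvd_card_of_fixed_point
          V hpV h1
        refine fun hb => hv1 (Subtype.ext ((Subgroup.eq_bot_iff_forall _).mp hb (v : G)
          ⟨v.2, Subgroup.mem_centralizer_iff.mpr fun k hk => ?_⟩)).symm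
        have h2 := congrArg Subtype.val (hv ⟨QuotientGroup.mk' C k, hk⟩)
        exact mul_inv_eq_iff_eq_mul.mp h2
    rw [Subgroup.eq_bot_iff_forall]
    intro x hx
    obtain ⟨g, rfl⟩ := QuotientGroup.mk'_surjective C x
    exact (QuotientGroup.eq_one_iff g).mpr (Subgroup.mem_centralizer_iff.mpr fun v hv =>
      ((Subgroup.mem_centralizer_iff.mp (hfix.ge hv).2) g hx).symm)
  have hkey : ∀ B : Subgroup (G ⧸ C), (∀ b ∈ B, σH b ∈ B) → IsMulCommutative B →
      (Nat.card B).Coprime p → (∀ b ∈ B, σH (σH b) = b⁻¹) → B = ⊥ := by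
    intro B hB hBc hBp hinv
    letI : CommGroup V := { (inferInstance : Group V) with mul_comm := hVc.1.1 }
    letI : CommGroup B := { (inferInstance : Group B) with mul_comm := hBc.1.1 }
    let ρ : (G ⧸ C) →* MulAut V := QuotientGroup.lift C (MulAut.conjNormal (H := V)) (by
      intro c hc
      refine MulEquiv.ext fun v => Subtype.ext ?_
      rw [MulAut.conjNormal_apply, MulAut.one_apply,
        ← Subgroup.mem_centralizer_iff.mp hc v v.2, mul_inv_cancel_right])
    have hBσ : B.map σH.toMonoidHom = B :=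
      Core.ThompsonFPF.map_eq_of_le (Subgroup.map_le_iff_le_comap.mpr hB)
    obtain ⟨k, hk⟩ := IsPGroup.iff_card.mp hVp
    have htriv := Transfer.FPFFour.acts_trivially (ρ.comp B.subtype) (Core.ThompsonFPF.restrict σ V hVσ)
      (Core.ThompsonFPF.restrict σH B hBσ)
      (by rw [hk]; exact hBp.pow_right k)
      (Odd.of_dvd_nat (Transfer.FPFFour.odd_card σH hH4 hHfpf) (Subgroup.card_subgroup_dvd_card B))
      (by
        refine MulEquiv.ext fun v => Subtype.ext ?_
        have := congrArg (fun f : MulAut G => f (v : G)) hσ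
        simp only [pow_succ, pow_zero, one_mul, MulAut.mul_apply, MulAut.one_apply] at this ⊢
        exact this)
      (fun v hv => Subtype.ext (hfpf _ (congrArg Subtype.val hv)))
      (fun b => Subtype.ext (hinv b b.2))
      (fun b v => by
        obtain ⟨g, hg⟩ := QuotientGroup.mk'_surjective C (b : G ⧸ C)
        refine Subtype.ext ?_
        show σ ((ρ (b : G ⧸ C) v : V) : G) = ((ρ (σH (b : G ⧸ C)) _ : V) : G)
        rw [← hg, hσH_mk]
        show σ (g * v * g⁻¹) = σ g * σ v * (σ g)⁻¹
        simp)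
    rw [Subgroup.eq_bot_iff_forall]
    intro b hb
    obtain ⟨g, rfl⟩ := QuotientGroup.mk'_surjective C b
    refine (QuotientGroup.eq_one_iff g).mpr (Subgroup.mem_centralizer_iff.mpr fun v hv => ?_)
    have h2 := congrArg Subtype.val (htriv ⟨_, hb⟩ ⟨v, hv⟩)
    exact (mul_inv_eq_iff_eq_mul.mp h2).symm
  have hab := Transfer.FPFFour.abelian_of_key σH hH4 hHfpf hOp hkey
  haveI hHc : IsMulCommutative (G ⧸ C) := ⟨⟨hab⟩⟩
  have hodd' := Transfer.FPFFour.odd_card σH hH4 hHfpf
  have hH4' : ∀ y, σH (σH (σH (σH y))) = y := fun y => by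
    have := congrArg (fun f : MulAut (G ⧸ C) => f y) hH4
    simpa [pow_succ, MulAut.mul_apply] using this
  -- the quotient has order prime to p, so the square acts trivially on it
  have hHp : (Nat.card (G ⧸ C)).Coprime p := by
    rw [Nat.coprime_comm, hp.coprime_iff_not_dvd]
    intro hd
    obtain ⟨R⟩ : Nonempty (Sylow p (G ⧸ C)) := inferInstance
    refine R.ne_bot_of_dvd_card hd (le_bot_iff.mp ?_)
    rw [← hOp]
    exact Core.le_pCore (Subgroup.normal_of_isMulCommutative (R : Subgroup (G ⧸ C))) R.2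
  have hx0 : QuotientGroup.mk' C x = 1 := by
    let u : (G ⧸ C) →* (G ⧸ C) := MonoidHom.mk' (fun y => y⁻¹ * σH (σH y)) (fun a b => by
      rw [map_mul, map_mul, mul_inv_rev, hab b⁻¹ a⁻¹,
        mul_assoc, ← mul_assoc b⁻¹, hab b⁻¹ (σH (σH a))]
      simp only [mul_assoc])
    have hB : u.range = ⊥ := by
      refine hkey u.range ?_ ?_ (Nat.Coprime.coprime_dvd_left
        (Subgroup.card_subgroup_dvd_card _) hHp) ?_
      · rintro _ ⟨y, rfl⟩
        exact ⟨σH y, by simp [u]⟩
      · exact ⟨⟨fun a b => Subtype.ext (hab _ _)⟩⟩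
      · rintro _ ⟨y, rfl⟩
        show σH (σH (y⁻¹ * σH (σH y))) = (y⁻¹ * σH (σH y))⁻¹
        simp only [map_mul, map_inv, hH4', mul_inv_rev]
        rw [inv_inv]
    have h1 := (Subgroup.eq_bot_iff_forall _).mp hB _ ⟨QuotientGroup.mk' C x, rfl⟩
    have h2 : σH (σH (QuotientGroup.mk' C x)) = QuotientGroup.mk' C x :=
      (inv_mul_eq_one.mp h1).symm
    rw [hσH_mk, hσH_mk, hx, map_inv] at h2
    exact Transfer.FPFFour.eq_one_of_inv_eq_self hodd' h2
  have hxC : x ∈ C := (QuotientGroup.eq_one_iff x).mp hx0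
  have hxq : QuotientGroup.mk' V x ∈ fittingSubgroup (G ⧸ V) := by
    refine hIH _ ?_
    show QuotientGroup.mk' V (σ (σ x)) = (QuotientGroup.mk' V x)⁻¹
    rw [hx, map_inv]
  let K : Subgroup G := (fittingSubgroup (G ⧸ V)).comap (QuotientGroup.mk' V) ⊓ C
  haveI hKn : K.Normal := inferInstance
  have hFn := Core.isNilpotent_fittingSubgroup (G ⧸ V)
  haveI := hFn
  let f : K →* fittingSubgroup (G ⧸ V) :=
    ((QuotientGroup.mk' V).comp K.subtype).codRestrict _ (fun y => y.2.1)
  have hnil : Group.IsNilpotent K := by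
    refine Subgroup.isNilpotent_of_ker_le_center f
      (fun y hy => Subgroup.mem_center_iff.mpr fun z => ?_)
    have hyV : (y : G) ∈ V := (QuotientGroup.eq_one_iff _).mp (congrArg Subtype.val hy)
    exact Subtype.ext (Subgroup.mem_centralizer_iff.mp z.2.2 y hyV).symm
  exact Core.le_fittingSubgroup hKn hnil ⟨hxq, hxC⟩

variable {G : Type*} [Group G] [Finite G] {σ : MulAut G}

/-- An inverted element of an invariant solvable subgroup lies in the Fitting subgroup. -/
theorem Four.mem_fitting (hσ : Four σ) {N : Subgroup G} (hN : SInv σ N)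
    (hs : Group.IsSolvable N) {x : G} (hx : x ∈ N) (hxI : IsI σ x) :
    (⟨x, hx⟩ : N) ∈ fittingSubgroup N :=
  mem_fitting_aux _ le_rfl hs _ (hσ.restrict hN).pow_four (hσ.restrict hN).fpf _
    (Subtype.ext (show σ (σ x) = x⁻¹ from hxI))

/-- Inverted elements of coprime order in an invariant solvable subgroup commute. -/
theorem Four.commute_coprime (hσ : Four σ) {N : Subgroup G} (hN : SInv σ N)
    (hs : Group.IsSolvable N) {x y : G} (hx : x ∈ N) (hxI : IsI σ x) (hy : y ∈ N) (hyI : IsI σ y)
    (h : (orderOf x).Coprime (orderOf y)) : x * y = y * x := by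
  haveI := Core.isNilpotent_fittingSubgroup N
  have := OddLocal.commute_of_coprime_orderOf
    (x := (⟨_, hσ.mem_fitting hN hs hx hxI⟩ : fittingSubgroup N))
    (y := ⟨_, hσ.mem_fitting hN hs hy hyI⟩)
    (by rwa [← Subgroup.orderOf_coe, ← Subgroup.orderOf_coe, Subgroup.orderOf_mk, Subgroup.orderOf_mk])
  exact congrArg (fun z : fittingSubgroup N => ((z : N) : G)) this.eq

end Cfsg.Agent.FPF4
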