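/-
A minimal non-solvable group with a fixed-point-free automorphism of order dividing four:
the invariant Sylow subgroups.
-/
import Cfsg.Agent.FPF4.Nilp
import Cfsg.Agent.Transfer.ZJFusion

set_option autoImplicit false
set_option linter.unusedSectionVars false
set_option linter.style.haveILetI false

namespace Cfsg.Agent.FPF4

open Cfsg
open scoped commutatorElement

variable {G : Type*} [Group G]

/-- A minimal counterexample. -/
structure Minimal (σ : MulAut G) : Prop where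
  toFour : Four σ
  solvable : ∀ N : Subgroup G, SInv σ N → N ≠ ⊤ → Group.IsSolvable N
  normal : ∀ N : Subgroup G, N.Normal → SInv σ N → N = ⊥ ∨ N = ⊤
  not_solvable : ¬ Group.IsSolvable G

/-- The invariant Sylow subgroup. -/
def sylowS (σ : MulAut G) (p : ℕ) : Subgroup G :=
  sSup {U : Subgroup G | IsPGroup p U ∧ SInv σ U}

/-- The subgroup generated by the inverted elements of the invariant Sylow subgroup. -/
def invGen (σ : MulAut G) (p : ℕ) : Subgroup G :=
  Subgroup.closure {x : G | x ∈ sylowS σ p ∧ IsI σ x}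

/-- Its normalizer. -/
def maxS (σ : MulAut G) (p : ℕ) : Subgroup G := Subgroup.normalizer (invGen σ p : Set G)

/-- The primes whose local subgroup contains all the fixed elements. -/
def IsFull (σ : MulAut G) (p : ℕ) : Prop := fix2 σ ≤ maxS σ p

variable {σ : MulAut G} [Finite G]

theorem mem_normalizer_closure {S : Set G} {g : G}
    (h : ∀ s ∈ S, g * s * g⁻¹ ∈ Subgroup.closure S) :
    g ∈ Subgroup.normalizer (Subgroup.closure S : Set G) := by
  refine Coprime.mem_normalizer_of_conj_mem fun x hx => ?_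
  have h' : Subgroup.closure S ≤ (Subgroup.closure S).comap (MulAut.conj g).toMonoidHom :=
    (Subgroup.closure_le _).mpr fun s hs => by simpa using h s hs
  simpa using h' hx

variable {p : ℕ} [hp : Fact p.Prime]

theorem Four.exists_sylowS (hσ : Four σ) :
    ∃ S : Sylow p G, (S : Subgroup G) = sylowS σ p ∧ SInv σ (sylowS σ p) := by
  obtain ⟨S, -, hS⟩ := hσ.exists_sylow_ge (p := p) (U := ⊥) IsPGroup.of_bot
    (fun x hx => by rw [Subgroup.mem_bot] at hx; simp [hx])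
  have h : (S : Subgroup G) = sylowS σ p := by
    refine le_antisymm (le_sSup ⟨S.2, hS⟩) (sSup_le fun U hU => ?_)
    obtain ⟨S', hUS', hS'⟩ := hσ.exists_sylow_ge hU.1 hU.2
    rwa [hσ.sylow_unique hS hS'] at hUS'
  exact ⟨S, h, h ▸ hS⟩

theorem Four.isPGroup_sylowS (hσ : Four σ) : IsPGroup p (sylowS σ p) := by
  obtain ⟨S, h, -⟩ := hσ.exists_sylowS (p := p)
  exact h ▸ S.2

theorem Four.sInv_sylowS (hσ : Four σ) : SInv σ (sylowS σ p) := by
  obtain ⟨S, -, hS⟩ := hσ.exists_sylowS (p := p)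
  exact hS

omit hp [Finite G] in
theorem le_sylowS {U : Subgroup G} (hU : IsPGroup p U) (hS : SInv σ U) : U ≤ sylowS σ p :=
  le_sSup ⟨hU, hS⟩

theorem Four.mem_sylowS_of_fix2 (hσ : Four σ) {a : G} (ha : a ∈ fix2 σ) {k : ℕ}
    (hk : orderOf a = p ^ k) : a ∈ sylowS σ p :=
  le_sylowS (IsPGroup.of_card (by rw [Nat.card_zpowers, hk])) (hσ.sInv_zpowers_fix2 ha)
    (Subgroup.mem_zpowers a)

theorem Four.zInv_zpowers (hσ : Four σ) {x : G} (hx : IsI σ x) : ZInv σ (Subgroup.zpowers x) := by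
  rintro y ⟨k, rfl⟩
  show σ (σ (x ^ k)) ∈ Subgroup.zpowers x
  rw [map_zpow, map_zpow, show σ (σ x) = x⁻¹ from hx]
  exact Subgroup.zpow_mem _ (Subgroup.inv_mem _ (Subgroup.mem_zpowers x)) _

/-- An inverted `p`-element is conjugate to one in the invariant Sylow subgroup by a fixed element. -/
theorem Four.exists_conj (hσ : Four σ) {x : G} (hx : IsI σ x) {k : ℕ} (hk : orderOf x = p ^ k) :
    ∃ a ∈ fix2 σ, a⁻¹ * x * a ∈ sylowS σ p ∧ IsI σ (a⁻¹ * x * a) := by
  obtain ⟨S, hS, hSi⟩ := hσ.exists_sylowS (p := p)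
  obtain ⟨T, hxT, hT⟩ := hσ.exists_zSylow_ge (p := p) (U := Subgroup.zpowers x)
    (IsPGroup.of_card (by rw [Nat.card_zpowers, hk])) (hσ.zInv_zpowers hx)
  obtain ⟨a, ha, haT⟩ := hσ.zSylow_conj (H := ⊤) (fun _ _ => trivial)
    (P := S) (P' := T) (hS ▸ hSi.zInv) hT le_top le_top
  have hxT' : x ∈ ((a • S : Sylow p G) : Subgroup G) := haT ▸ hxT (Subgroup.mem_zpowers x)
  rw [Sylow.coe_subgroup_smul, Subgroup.mem_pointwise_smul_iff_inv_smul_mem, hS] at hxT'
  refine ⟨a, ha.1, by simpa [MulAut.conj_apply] using hxT', ?_⟩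
  have := hx.conj ((fix2 σ).inv_mem ha.1)
  rwa [inv_inv] at this

namespace Minimal

variable (hm : Minimal σ)
include hm

theorem sInv_eq_bot_of_normal {N : Subgroup G} (hn : N.Normal) (hs : SInv σ N) (hne : N ≠ ⊤) :
    N = ⊥ :=
  (hm.normal N hn hs).resolve_right hne

theorem center_eq_bot : Subgroup.center G = ⊥ := by
  refine hm.sInv_eq_bot_of_normal inferInstance (fun c hc => ?_) fun h => ?_
  · rw [Subgroup.mem_center_iff] at hc ⊢
    intro g
    obtain ⟨y, rfl⟩ := σ.surjective g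
    rw [← map_mul, ← map_mul, hc y]
  · refine hm.not_solvable (Group.isSolvable_of_comm fun a b => ?_)
    have hb : b ∈ Subgroup.center G := h ▸ Subgroup.mem_top b
    exact Subgroup.mem_center_iff.mp hb a

theorem pResidual_eq_top : pResidual p G = ⊤ := by
  refine (hm.normal _ ⟨?_⟩ ?_).resolve_left fun h => ?_
  · intro x hx c
    have hle : pResidual p G ≤ (pResidual p G).comap (MulAut.conj c).toMonoidHom :=
      (Subgroup.closure_le _).mpr fun y hy => Subgroup.subset_closure (by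
        show Nat.Coprime (orderOf (MulAut.conj c y)) p
        rw [MulEquiv.orderOf_eq]
        exact hy)
    simpa using hle hx
  · refine sInv_closure fun x hx => ?_
    show Nat.Coprime (orderOf (σ x)) p
    rw [MulEquiv.orderOf_eq]
    exact hx
  · have := (Core.pResidual_eq_bot_iff (p := p)).mp h
    haveI : Group.IsNilpotent G := this.isNilpotent
    exact hm.not_solvable inferInstance

/-- The centralizer of an invariant set containing a nontrivial element is proper. -/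
theorem centralizer_ne_top {S : Set G} {x : G} (hx : x ∈ S) (hx1 : x ≠ 1) :
    Subgroup.centralizer S ≠ ⊤ := by
  intro h
  have : x ∈ Subgroup.center G := Subgroup.mem_center_iff.mpr fun g =>
    (Subgroup.mem_centralizer_iff.mp (h ▸ Subgroup.mem_top g) x hx).symm
  rw [hm.center_eq_bot, Subgroup.mem_bot] at this
  exact hx1 this

theorem sInv_centralizer_fix2 {v : G} (hv : v ∈ fix2 σ) :
    SInv σ (Subgroup.centralizer ({v} : Set G)) := by
  intro c hc
  rw [Subgroup.mem_centralizer_singleton_iff] at hc ⊢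
  have h := congrArg σ hc
  rw [map_mul, map_mul, hm.toFour.sigma_fix2 hv] at h
  calc σ c * v = v * (v⁻¹ * σ c) * v := by group
    _ = v * (σ c * v⁻¹) * v := by rw [h]
    _ = v * σ c := by group

theorem normalizer_ne_top {U : Subgroup G} (hU : SInv σ U) (h1 : U ≠ ⊥) (h2 : U ≠ ⊤) :
    Subgroup.normalizer (U : Set G) ≠ ⊤ := by
  intro h
  rcases hm.normal U (Subgroup.normalizer_eq_top_iff.mp h) hU with h' | h'
  exacts [h1 h', h2 h']

theorem sylowS_ne_top : sylowS σ p ≠ ⊤ := by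
  intro h
  have := hm.toFour.isPGroup_sylowS (p := p)
  rw [h] at this
  haveI : Group.IsNilpotent G :=
    (this.of_equiv (Subgroup.topEquiv : (⊤ : Subgroup G) ≃* G)).isNilpotent
  exact hm.not_solvable inferInstance

theorem sInv_centre : SInv σ (sylowS σ p ⊓ Subgroup.centralizer (sylowS σ p : Set G)) :=
  hm.toFour.sInv_sylowS.inf (sInv_centralizer hm.toFour.sInv_sylowS)

/-- Inverted `p`-elements of a proper invariant subgroup lie in the invariant Sylow subgroup. -/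
theorem mem_sylowS {N : Subgroup G} (hN : SInv σ N) (hne : N ≠ ⊤) {x : G} (hx : x ∈ N)
    (hxI : IsI σ x) {k : ℕ} (hk : orderOf x = p ^ k) : x ∈ sylowS σ p := by
  have hs := hm.solvable N hN hne
  haveI := Core.isNilpotent_fittingSubgroup N
  let F := fittingSubgroup N
  have hFp : (pCore p F).map F.subtype ≤ pCore p N :=
    Core.le_pCore (Core.normal_map_subtype_of_characteristic _)
      ((Core.isPGroup_pCore p _).map _)
  let T : Subgroup N := pCore p N
  have hT : IsPGroup p (T.map N.subtype) := (Core.isPGroup_pCore p _).map _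
  have hTs : SInv σ (T.map N.subtype) := by
    rintro _ ⟨t, ht, rfl⟩
    let τ := Core.ThompsonFPF.restrict σ N hN.map_eq
    exact ⟨τ t, (Core.pCore_map_equiv τ).le ⟨t, ht, rfl⟩, rfl⟩
  refine le_sylowS hT hTs ⟨⟨x, hx⟩, hFp ⟨⟨_, hm.toFour.mem_fitting hN hs hx hxI⟩, ?_, rfl⟩, rfl⟩
  obtain ⟨R, hR⟩ := (IsPGroup.of_card (p := p)
    (show Nat.card (Subgroup.zpowers (⟨⟨x, hx⟩, hm.toFour.mem_fitting hN hs hx hxI⟩ :
      fittingSubgroup N)) = p ^ k by
      rw [Nat.card_zpowers, ← Subgroup.orderOf_coe, Subgroup.orderOf_mk, hk])).exists_le_sylow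
  rw [Core.pCore_eq_sylow R]
  exact hR (Subgroup.mem_zpowers _)

theorem exists_isI_mem_sylowS (hdvd : p ∣ Nat.card G) :
    ∃ x ∈ sylowS σ p, IsI σ x ∧ x ≠ 1 := by
  have hσ := hm.toFour
  by_contra h
  obtain ⟨S, hS, hSi⟩ := hσ.exists_sylowS (p := p)
  have hA : sylowS σ p ≤ fix2 σ := by
    intro s hs
    obtain ⟨a, ha, i, hi, hiI, e⟩ := hσ.exists_mul hSi.zInv hs
    have : i = 1 := by
      by_contra h1
      exact h ⟨i, hi, hiI, h1⟩
    rw [← e, this, mul_one]
    exact ha.1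
  refine S.ne_bot_of_dvd_card hdvd (le_bot_iff.mp ?_)
  rw [← Transfer.focalSubgroup_eq_of_pResidual_eq_top S hm.pResidual_eq_top]
  refine Transfer.focalSubgroup_le_of_forall fun x hx g hgx => ?_
  obtain ⟨a, ha, i, -, hiI, rfl⟩ := hσ.exists_mul (H := ⊤) (fun _ _ => trivial) (Subgroup.mem_top g)
  rw [hS] at hx hgx
  have hx' := hA hx
  have h' : i * x * i⁻¹ ∈ fix2 σ := by
    rw [show i * x * i⁻¹ = a⁻¹ * (a * i * x * (a * i)⁻¹) * a by group]
    exact mul_mem (mul_mem (inv_mem ha.1) (hA hgx)) ha.1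
  have hc := hσ.commute_of_isI hiI hx' h'
  rw [Subgroup.mem_bot, show a * i * x * (a * i)⁻¹ = x by
    calc a * i * x * (a * i)⁻¹ = a * (i * x) * i⁻¹ * a⁻¹ := by group
      _ = a * x * a⁻¹ := by rw [hc]; group
      _ = x := by rw [hσ.commute_fix2 ha.1 hx']; group, inv_mul_cancel]

omit hm hp [Finite G] in
theorem invGen_le : invGen σ p ≤ sylowS σ p := (Subgroup.closure_le _).mpr fun _ h => h.1

omit hm hp [Finite G] in
theorem mem_invGen {x : G} (hx : x ∈ sylowS σ p) (hxI : IsI σ x) : x ∈ invGen σ p :=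
  Subgroup.subset_closure ⟨hx, hxI⟩

theorem sInv_invGen : SInv σ (invGen σ p) :=
  sInv_closure fun x hx => ⟨hm.toFour.sInv_sylowS _ hx.1, hx.2.sigma⟩

theorem sInv_maxS : SInv σ (maxS σ p) := sInv_normalizer hm.sInv_invGen

theorem maxS_ne_top (hdvd : p ∣ Nat.card G) : maxS σ p ≠ ⊤ := by
  refine hm.normalizer_ne_top hm.sInv_invGen (fun h => ?_) fun h => ?_
  · obtain ⟨x, hx, hxI, hx1⟩ := hm.exists_isI_mem_sylowS hdvd
    exact hx1 ((Subgroup.eq_bot_iff_forall _).mp h x (mem_invGen hx hxI))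
  · exact hm.sylowS_ne_top (p := p) (top_le_iff.mp (h ▸ invGen_le))

theorem sylowS_le_maxS : sylowS σ p ≤ maxS σ p := by
  intro s hs
  have hσ := hm.toFour
  obtain ⟨a, ha, i, hi, hiI, rfl⟩ := hσ.exists_mul hσ.sInv_sylowS.zInv hs
  refine mul_mem (mem_normalizer_closure fun x hx => ?_) (Subgroup.le_normalizer (mem_invGen hi hiI))
  exact Subgroup.subset_closure ⟨mul_mem (mul_mem ha.2 hx.1) (inv_mem ha.2), hx.2.conj ha.1⟩

theorem mem_fix2_normalizes {N : Subgroup G} (hN : SInv σ N) (hne : N ≠ ⊤) {a : G}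
    (ha : a ∈ fix2 σ) (haN : a ∈ N) {x : G} (hx : x ∈ N) (hxI : IsI σ x) (hxP : x ∈ sylowS σ p) :
    a * x * a⁻¹ ∈ sylowS σ p := by
  obtain ⟨k, hk⟩ := IsPGroup.iff_orderOf.mp hm.toFour.isPGroup_sylowS ⟨x, hxP⟩
  refine hm.mem_sylowS hN hne (mul_mem (mul_mem haN hx) (inv_mem haN)) (hxI.conj ha) (k := k) ?_
  rw [← MulAut.conj_apply, MulEquiv.orderOf_eq]
  rwa [Subgroup.orderOf_mk] at hk

omit hm in
theorem exists_parts (hσ : Four σ) {x : G} (hxI : IsI σ x) :
    ∃ y z : G, x = y * z ∧ y * z = z * y ∧ IsI σ y ∧ IsI σ z ∧ y ∈ Subgroup.zpowers x ∧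
      z ∈ Subgroup.zpowers x ∧ (∃ k, orderOf y = p ^ k) ∧ (orderOf z).Coprime p := by
  set n := orderOf x
  have hn : n ≠ 0 := (orderOf_pos x).ne'
  have hcop : (p ^ n.factorization p).Coprime (n / p ^ n.factorization p) :=
    (Nat.coprime_ordCompl hp.out hn).pow_left _
  set P' := p ^ n.factorization p
  set m := n / P'
  have hPm : P' * m = n := Nat.ordProj_mul_ordCompl_eq_self n p
  have hb : (P' : ℤ) * Nat.gcdA P' m + (m : ℤ) * Nat.gcdB P' m = 1 := by
    have := Nat.gcd_eq_gcd_ab P' m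
    rw [hcop] at this
    exact_mod_cast this.symm
  have hpow : ∀ {c : ℤ}, IsI σ (x ^ c) := by
    intro c
    show σ (σ (x ^ c)) = (x ^ c)⁻¹
    rw [map_zpow, map_zpow, show σ (σ x) = x⁻¹ from hxI, inv_zpow]
  have hy : (x ^ ((m : ℤ) * Nat.gcdB P' m)) ^ P' = 1 := by
    rw [← zpow_natCast, ← zpow_mul,
      show (m : ℤ) * Nat.gcdB P' m * P' = (n : ℤ) * Nat.gcdB P' m by
        rw [← hPm]; push_cast; ring, zpow_mul, zpow_natCast, pow_orderOf_eq_one, one_zpow]
  have hz : (x ^ ((P' : ℤ) * Nat.gcdA P' m)) ^ m = 1 := by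
    rw [← zpow_natCast, ← zpow_mul,
      show (P' : ℤ) * Nat.gcdA P' m * m = (n : ℤ) * Nat.gcdA P' m by
        rw [← hPm]; push_cast; ring, zpow_mul, zpow_natCast, pow_orderOf_eq_one, one_zpow]
  refine ⟨x ^ ((m : ℤ) * Nat.gcdB P' m), x ^ ((P' : ℤ) * Nat.gcdA P' m), ?_, ?_, hpow, hpow, Subgroup.zpow_mem _ (Subgroup.mem_zpowers x) _,
    Subgroup.zpow_mem _ (Subgroup.mem_zpowers x) _, ?_, ?_⟩
  · rw [← zpow_add, add_comm, hb, zpow_one]
  · exact ((Commute.refl x).zpow_zpow _ _).eq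
  · obtain ⟨k, -, hk⟩ := (Nat.dvd_prime_pow hp.out).mp (orderOf_dvd_of_pow_eq_one hy)
    exact ⟨k, hk⟩
  · exact Nat.Coprime.coprime_dvd_left (orderOf_dvd_of_pow_eq_one hz)
      (Nat.coprime_ordCompl hp.out hn).symm

/-- A proper invariant subgroup containing the inverted elements of the Sylow subgroup. -/
theorem le_maxS {N : Subgroup G} (hN : SInv σ N) (hne : N ≠ ⊤)
    (hIP : ∀ x ∈ sylowS σ p, IsI σ x → x ∈ N) : N ≤ maxS σ p := by
  intro n hn
  have hσ := hm.toFour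
  obtain ⟨a, ha, i, hi, hiI, rfl⟩ := hσ.exists_mul hN.zInv hn
  refine mul_mem (mem_normalizer_closure fun x hx => ?_) ?_
  · exact Subgroup.subset_closure ⟨hm.mem_fix2_normalizes hN hne ha.1 ha.2 (hIP x hx.1 hx.2) hx.2 hx.1,
      hx.2.conj ha.1⟩
  obtain ⟨y, z, rfl, -, hyI, hzI, hyi, hzi, ⟨k, hk⟩, hzp⟩ := exists_parts (p := p) hσ hiI
  refine mul_mem (Subgroup.le_normalizer (mem_invGen (hm.mem_sylowS hN hne
    ((Subgroup.zpowers_le.mpr hi) hyi) hyI hk) hyI)) (mem_normalizer_closure fun x hx => ?_)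
  obtain ⟨j, hj⟩ := IsPGroup.iff_orderOf.mp hσ.isPGroup_sylowS ⟨x, hx.1⟩
  rw [Subgroup.orderOf_mk] at hj
  have hc := hσ.commute_coprime hN (hm.solvable N hN hne) ((Subgroup.zpowers_le.mpr hi) hzi) hzI
    (hIP x hx.1 hx.2) hx.2 (hj ▸ hzp.pow_right j)
  rw [hc, mul_inv_cancel_right]
  exact Subgroup.subset_closure hx

theorem full_of {u v : G} (hu : u ∈ sylowS σ p) (huI : IsI σ u) (hu1 : u ≠ 1)
    (huZ : ∀ x ∈ sylowS σ p, x * u = u * x) (hv : v ∈ fix2 σ) (hv1 : v ≠ 1)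
    (huv : u * v = v * u) : IsFull σ p := by
  classical
  have hσ := hm.toFour
  let F : Set (Subgroup G) := {N | SInv σ N ∧ N ≠ ⊤ ∧ fix2 σ ≤ N ∧ u ∈ N}
  have hFne : F.Nonempty := by
    refine ⟨Subgroup.centralizer ({v} : Set G), hm.sInv_centralizer_fix2 hv,
      hm.centralizer_ne_top (Set.mem_singleton v) hv1, fun a ha => ?_, ?_⟩
    · exact Subgroup.mem_centralizer_singleton_iff.mpr (hσ.commute_fix2 ha hv)
    · exact Subgroup.mem_centralizer_singleton_iff.mpr huv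
  obtain ⟨N, hN, hmax⟩ := Set.exists_max_image F
    (fun N => Nat.card (sylowS σ p ⊓ N : Subgroup G)) (Set.toFinite F) hFne
  obtain ⟨hNs, hNne, hNA, huN⟩ := hN
  have hsol := hm.solvable N hNs hNne
  set Y : Set G := {y | y ∈ N ∧ IsI σ y ∧ (orderOf y).Coprime p} with hY
  by_cases hY1 : ∃ y ∈ Y, y ≠ 1
  · obtain ⟨y₀, hy₀, hy₀1⟩ := hY1
    set L := Subgroup.closure Y with hL
    have hLs : SInv σ L := sInv_closure fun y hy =>
      ⟨hNs _ hy.1, hy.2.1.sigma, by rw [MulEquiv.orderOf_eq]; exact hy.2.2⟩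
    have hLN : L ≤ N := (Subgroup.closure_le _).mpr fun y hy => hy.1
    have hQ := hm.normalizer_ne_top hLs
      (fun h => hy₀1 ((Subgroup.eq_bot_iff_forall _).mp h _ (Subgroup.subset_closure hy₀)))
      (fun h => hNne (top_le_iff.mp (h ▸ hLN)))
    have hNL : N ≤ Subgroup.normalizer (L : Set G) := by
      intro n hn
      obtain ⟨a, ha, i, hi, hiI, rfl⟩ := hσ.exists_mul hNs.zInv hn
      refine mul_mem (mem_normalizer_closure fun y hy => Subgroup.subset_closure
        ⟨mul_mem (mul_mem ha.2 hy.1) (inv_mem ha.2), hy.2.1.conj ha.1, by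
          rw [← MulAut.conj_apply, MulEquiv.orderOf_eq]; exact hy.2.2⟩) ?_
      obtain ⟨s, t, rfl, -, hsI, htI, hsi, hti, ⟨k, hk⟩, htp⟩ := exists_parts (p := p) hσ hiI
      refine mul_mem (mem_normalizer_closure fun y hy => ?_)
        (Subgroup.le_normalizer (Subgroup.subset_closure
          ⟨(Subgroup.zpowers_le.mpr hi) hti, htI, htp⟩))
      have hc := hσ.commute_coprime hNs hsol ((Subgroup.zpowers_le.mpr hi) hsi) hsI hy.1 hy.2.1
        (hk ▸ hy.2.2.symm.pow_left k)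
      rw [hc, mul_inv_cancel_right]
      exact Subgroup.subset_closure hy
    have hIP : ∀ x ∈ sylowS σ p, IsI σ x → x ∈ Subgroup.normalizer (L : Set G) := by
      intro x hx hxI
      refine mem_normalizer_closure fun y hy => ?_
      set C := Subgroup.centralizer ({u, u⁻¹, σ u, (σ u)⁻¹} : Set G)
      have hCs : SInv σ C := sInv_centralizer fun w hw => by
        have h2 : σ (σ u) = u⁻¹ := huI
        rcases hw with rfl | rfl | rfl | rfl <;> simp [h2]
      have hCne : C ≠ ⊤ := hm.centralizer_ne_top (Set.mem_insert u _) hu1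
      obtain ⟨j, hj⟩ := IsPGroup.iff_orderOf.mp hσ.isPGroup_sylowS ⟨x, hx⟩
      rw [Subgroup.orderOf_mk] at hj
      have hxC : x ∈ C := by
        have hxσ : ∀ g ∈ sylowS σ p, g * σ u = σ u * g := by
          intro g hg
          obtain ⟨g', hg', rfl⟩ := (hσ.sInv_sylowS (p := p)).map_eq.ge hg
          show σ g' * σ u = σ u * σ g'
          rw [← map_mul, ← map_mul, huZ g' hg']
        have hsu : σ u ∈ sylowS σ p := hσ.sInv_sylowS u hu
        refine Subgroup.mem_centralizer_iff.mpr ?_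
        rintro w (rfl | rfl | rfl | rfl)
        · exact (huZ x hx).symm
        · exact (Commute.inv_right (huZ x hx : Commute x u)).symm.eq
        · exact (hxσ x hx).symm
        · exact (Commute.inv_right (hxσ x hx : Commute x (σ u))).symm.eq
      obtain ⟨l, hl⟩ := IsPGroup.iff_orderOf.mp hσ.isPGroup_sylowS ⟨u, hu⟩
      rw [Subgroup.orderOf_mk] at hl
      have hcu : ∀ w, w ∈ N → IsI σ w → orderOf w = p ^ l → Commute y w := fun w hw hwI hwo =>
        hσ.commute_coprime hNs hsol hy.1 hy.2.1 hw hwI (hwo ▸ hy.2.2.pow_right l)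
      have hyC : y ∈ C := by
        have h1 : Commute y u := hcu u huN huI hl
        have h2 : Commute y (σ u) := hcu _ (hNs u huN) huI.sigma (by rw [MulEquiv.orderOf_eq, hl])
        refine Subgroup.mem_centralizer_iff.mpr ?_
        rintro w (rfl | rfl | rfl | rfl)
        exacts [h1.symm.eq, h1.inv_right.symm.eq, h2.symm.eq, h2.inv_right.symm.eq]
      have hc := hσ.commute_coprime hCs (hm.solvable C hCs hCne) hxC hxI hyC hy.2.1
        (hj ▸ hy.2.2.symm.pow_left j)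
      rw [hc, mul_inv_cancel_right]
      exact Subgroup.subset_closure hy
    exact hNA.trans (hNL.trans (hm.le_maxS (sInv_normalizer hLs) hQ hIP))
  · push Not at hY1
    set T := sylowS σ p ⊓ N with hT
    have hI : ∀ i ∈ N, IsI σ i → i ∈ T := by
      intro i hi hiI
      obtain ⟨s, t, rfl, -, hsI, htI, hsi, hti, ⟨k, hk⟩, htp⟩ := exists_parts (p := p) hσ hiI
      have ht1 : t = 1 := hY1 t ⟨(Subgroup.zpowers_le.mpr hi) hti, htI, htp⟩
      subst ht1
      rw [mul_one]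
      exact ⟨hm.mem_sylowS hNs hNne ((Subgroup.zpowers_le.mpr hi) hsi) hsI hk,
        (Subgroup.zpowers_le.mpr hi) hsi⟩
    have hTA : fix2 σ ≤ Subgroup.normalizer (T : Set G) := by
      intro a ha
      refine Coprime.mem_normalizer_of_conj_mem fun t ht => ?_
      obtain ⟨b, hb, i, hi, hiI, rfl⟩ :=
        hσ.exists_mul ((hσ.sInv_sylowS (p := p)).inf hNs).zInv ht
      rw [show a * (b * i) * a⁻¹ = a * b * a⁻¹ * (a * i * a⁻¹) by group,
        hσ.commute_fix2 ha hb.1, mul_inv_cancel_right]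
      exact mul_mem hb.2 (hI _ (mul_mem (mul_mem (hNA ha) hi.2) (inv_mem (hNA ha))) (hiI.conj ha))
    have hTs : SInv σ T := hσ.sInv_sylowS.inf hNs
    have hT1 : T ≠ ⊥ := fun h => hu1 ((Subgroup.eq_bot_iff_forall _).mp h u ⟨hu, huN⟩)
    have hTne := hm.normalizer_ne_top hTs hT1
      (fun h => hm.sylowS_ne_top (p := p) (top_le_iff.mp (h ▸ inf_le_left)))
    have hTP : T = sylowS σ p := by
      by_contra hne
      have hlt := Transfer.lt_inf_normalizer (A := T) hσ.isPGroup_sylowS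
        (lt_of_le_of_ne inf_le_left hne)
      have h := hmax _ ⟨sInv_normalizer hTs, hTne, hTA, Subgroup.le_normalizer ⟨hu, huN⟩⟩
      exact hlt.ne (Subgroup.eq_of_le_of_card_ge hlt.le h)
    refine hTA.trans (hm.le_maxS (sInv_normalizer hTs) hTne fun x hx _ => ?_)
    exact Subgroup.le_normalizer (hTP.ge hx)

theorem full_of_fix2_mem (hdvd : p ∣ Nat.card G) {b : G} (hb : b ∈ fix2 σ)
    (hbP : b ∈ sylowS σ p) (hb1 : b ≠ 1) : IsFull σ p := by
  have hσ := hm.toFour
  set P := sylowS σ p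
  set Z := P ⊓ Subgroup.centralizer (P : Set G)
  have hZ1 : Z ≠ ⊥ := by
    obtain ⟨x, hx, -, hx1⟩ := hm.exists_isI_mem_sylowS hdvd
    haveI : Nontrivial P := ⟨⟨⟨x, hx⟩, 1, fun e => hx1 (congrArg Subtype.val e)⟩⟩
    obtain ⟨⟨⟨z, hzP⟩, hz⟩, hz1⟩ := (nontrivial_iff_exists_ne
      (1 : Subgroup.center P)).mp hσ.isPGroup_sylowS.center_nontrivial
    intro h
    refine hz1 (Subtype.ext (Subtype.ext ((Subgroup.eq_bot_iff_forall _).mp h z
      ⟨hzP, Subgroup.mem_centralizer_iff.mpr fun w hw => ?_⟩)))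
    exact congrArg Subtype.val (Subgroup.mem_center_iff.mp hz ⟨w, hw⟩)
  obtain ⟨z, hz, hz1⟩ := (Subgroup.bot_or_exists_ne_one Z).resolve_left hZ1
  obtain ⟨a, ha, i, hi, hiI, rfl⟩ := hσ.exists_mul hm.sInv_centre.zInv hz
  by_cases hi1 : i = 1
  · subst hi1
    rw [mul_one] at hz1
    refine le_trans ?_ (hm.le_maxS (hm.sInv_centralizer_fix2 ha.1)
      (hm.centralizer_ne_top (Set.mem_singleton a) hz1) fun x hx _ => ?_)
    · exact fun c hc => Subgroup.mem_centralizer_singleton_iff.mpr (hσ.commute_fix2 hc ha.1)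
    · exact Subgroup.mem_centralizer_singleton_iff.mpr (Subgroup.mem_centralizer_iff.mp ha.2.2 x hx)
  · exact hm.full_of hi.1 hiI hi1 (fun x hx => Subgroup.mem_centralizer_iff.mp hi.2 x hx) hb hb1
      (Subgroup.mem_centralizer_iff.mp hi.2 b hbP).symm

omit hm in
theorem not_hasSL2Section (hσ : Four σ) (hp2 : p ≠ 2) :
    ¬ Dickson.HasSL2Section p (⊤ : Subgroup G) := by
  rintro ⟨H, φ, -, hφ⟩
  obtain ⟨h, hh⟩ := hφ (-1)
  have hodd : Odd (Nat.card H) := Odd.of_dvd_nat hσ.odd (Subgroup.card_subgroup_dvd_card H)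
  have h2 : (φ h) * (φ h) = 1 := by rw [hh]; simp
  have h1 : φ h = 1 := by
    rw [← orderOf_eq_one_iff]
    exact Nat.eq_one_of_dvd_coprimes (Nat.coprime_two_left.mpr hodd)
      (orderOf_dvd_of_pow_eq_one (by rw [pow_two, h2]))
      ((orderOf_map_dvd φ h).trans (orderOf_dvd_natCard h))
  rw [hh] at h1
  have h00 : ((-1 : Matrix.SpecialLinearGroup (Fin 2) (ZMod p)) : Matrix (Fin 2) (Fin 2) (ZMod p)) 0 0
      = ((1 : Matrix.SpecialLinearGroup (Fin 2) (ZMod p)) : Matrix (Fin 2) (Fin 2) (ZMod p)) 0 0 := by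
    rw [h1]
  haveI : Fact (2 < p) := ⟨lt_of_le_of_ne hp.out.two_le (Ne.symm hp2)⟩
  exact ZMod.neg_one_ne_one (n := p) (by simpa using h00)

theorem ne_two (hdvd : p ∣ Nat.card G) : p ≠ 2 := by
  rintro rfl
  exact Nat.not_even_iff_odd.mpr hm.toFour.odd (even_iff_two_dvd.mpr hdvd)

/-- Fusion in the Sylow subgroup is induced from the local subgroup. -/
theorem fusion (hdvd : p ∣ Nat.card G) {x g : G} (hx : x ∈ sylowS σ p)
    (hgx : g * x * g⁻¹ ∈ sylowS σ p) :
    ∃ n ∈ maxS σ p, n * x * n⁻¹ = g * x * g⁻¹ := by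
  have hσ := hm.toFour
  obtain ⟨S, hS, hSi⟩ := hσ.exists_sylowS (p := p)
  obtain ⟨n, hn, hna⟩ := Transfer.ZJ.agreesIn (hm.ne_two hdvd) (not_hasSL2Section hσ (hm.ne_two hdvd))
    S (A := Subgroup.closure {x}) (g := g) ((Subgroup.closure_le _).mpr (by simpa [hS] using hx))
    (by
      rw [MonoidHom.map_closure, Subgroup.closure_le]
      rintro _ ⟨a, ha, rfl⟩
      obtain rfl : a = x := ha
      simpa [hS] using hgx)
  refine ⟨n, ?_, hna x (Subgroup.subset_closure rfl)⟩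
  rw [hS] at hn
  set Z := centerThompsonOf p (sylowS σ p)
  have hZs : SInv σ Z := by
    refine sInv_of_map_eq ?_
    rw [Transfer.ZJ.ctMap _ σ.injective.injOn, hSi.map_eq]
  have hP1 : sylowS σ p ≠ ⊥ := fun h => by
    obtain ⟨y, hy, -, hy1⟩ := hm.exists_isI_mem_sylowS hdvd
    exact hy1 ((Subgroup.eq_bot_iff_forall _).mp h y hy)
  have hZ1 : Z ≠ ⊥ := Transfer.ZJ.ct_ne_bot hσ.isPGroup_sylowS hP1
  refine hm.le_maxS (sInv_normalizer hZs) (hm.normalizer_ne_top hZs hZ1 fun h =>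
    hm.sylowS_ne_top (p := p) (top_le_iff.mp (h ▸ Transfer.ZJ.ct_le p _))) (fun y hy _ => ?_) hn
  exact Transfer.ZJ.normalizer_le_ct p _ (Subgroup.le_normalizer hy)

/-- The Sylow subgroup is generated by its inverted elements. -/
theorem sylowS_eq_invGen (hdvd : p ∣ Nat.card G) : sylowS σ p = invGen σ p := by
  have hσ := hm.toFour
  refine le_antisymm ?_ invGen_le
  obtain ⟨S, hS, hSi⟩ := hσ.exists_sylowS (p := p)
  rw [← hS, ← Transfer.focalSubgroup_eq_of_pResidual_eq_top S hm.pResidual_eq_top]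
  refine Transfer.focalSubgroup_le_of_forall fun x hx g hgx => ?_
  rw [hS] at hx hgx
  obtain ⟨n, hn, hne⟩ := hm.fusion hdvd hx hgx
  rw [← hne] at hgx ⊢
  obtain ⟨b, hb, j, hj, hjI, rfl⟩ := hσ.exists_mul hSi.zInv hx
  obtain ⟨a, ha, i, hi, hiI, rfl⟩ := hσ.exists_mul hm.sInv_maxS.zInv hn
  obtain ⟨y, z, rfl, hyz, hyI, hzI, hyi, hzi, ⟨k, hk⟩, hzp⟩ := exists_parts (p := p) hσ hiI
  have hMne := hm.maxS_ne_top hdvd
  have hzM : z ∈ maxS σ p := (Subgroup.zpowers_le.mpr hi) hzi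
  have hy : y ∈ invGen σ p :=
    mem_invGen (hm.mem_sylowS hm.sInv_maxS hMne ((Subgroup.zpowers_le.mpr hi) hyi) hyI hk) hyI
  have hj' : j ∈ invGen σ p := mem_invGen hj hjI
  have hnorm : ∀ {c r : G}, c ∈ maxS σ p → r ∈ invGen σ p → c * r * c⁻¹ ∈ invGen σ p :=
    fun hc hr => (Subgroup.mem_normalizer_iff.mp hc _).mp hr
  have hbM : b ∈ maxS σ p := hm.sylowS_le_maxS hb.2
  -- the part outside the generated subgroup
  set u := a * z * a⁻¹ with hu
  set v := b * (a * z⁻¹ * a⁻¹) * b⁻¹ with hv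
  have hcalc : a * z * b * z⁻¹ * a⁻¹ = u * v * b := by
    rw [hu, hv, show a * z * a⁻¹ * (b * (a * z⁻¹ * a⁻¹) * b⁻¹) * b
      = a * z * (a⁻¹ * (b * a)) * z⁻¹ * a⁻¹ by group, hσ.commute_fix2 hb.1 ha.1]
    group
  have e1 : a * (y * z) * (b * j) * (a * (y * z))⁻¹ =
      (a * y * a⁻¹) * (u * v * b) * ((a * z) * j * (a * z)⁻¹) * (a * y * a⁻¹)⁻¹ := by
    rw [← hcalc]; group
  set r₁ := a * y * a⁻¹
  set r₂ := (a * z) * j * (a * z)⁻¹
  have hr₁ : r₁ ∈ invGen σ p := hnorm ha.2 hy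
  have hr₂ : r₂ ∈ invGen σ p := hnorm (mul_mem ha.2 hzM) hj'
  rw [e1] at hgx ⊢
  have huv : u * v ∈ sylowS σ p := by
    rw [show u * v = r₁⁻¹ * (r₁ * (u * v * b) * r₂ * r₁⁻¹) * r₁ * r₂⁻¹ * b⁻¹ by group]
    exact mul_mem (mul_mem (mul_mem (mul_mem (inv_mem (invGen_le hr₁)) hgx) (invGen_le hr₁))
      (inv_mem (invGen_le hr₂))) (inv_mem hb.2)
  have huvone : u * v = 1 := by
    have hs := hm.solvable _ hm.sInv_maxS hMne
    have huM : u ∈ maxS σ p := mul_mem (mul_mem ha.2 hzM) (inv_mem ha.2)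
    have hvM : v ∈ maxS σ p :=
      mul_mem (mul_mem hbM (mul_mem (mul_mem ha.2 (inv_mem hzM)) (inv_mem ha.2))) (inv_mem hbM)
    have hu' := hσ.mem_fitting hm.sInv_maxS hs huM (hzI.conj ha.1)
    have hv' := hσ.mem_fitting hm.sInv_maxS hs hvM ((hzI.inv.conj ha.1).conj hb.1)
    haveI := Core.isNilpotent_fittingSubgroup (maxS σ p)
    set F := fittingSubgroup (maxS σ p)
    set u' : F := ⟨_, hu'⟩
    set v' : F := ⟨_, hv'⟩
    have hou : orderOf u' = orderOf z := by
      rw [← Subgroup.orderOf_coe, Subgroup.orderOf_mk, hu, ← MulAut.conj_apply, MulEquiv.orderOf_eq]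
    have hov : orderOf v' = orderOf z := by
      rw [← Subgroup.orderOf_coe, Subgroup.orderOf_mk, hv, ← MulAut.conj_apply, MulEquiv.orderOf_eq,
        ← MulAut.conj_apply, MulEquiv.orderOf_eq, orderOf_inv]
    obtain ⟨l, hl⟩ := IsPGroup.iff_orderOf.mp hσ.isPGroup_sylowS ⟨_, huv⟩
    rw [Subgroup.orderOf_mk] at hl
    have hoe : orderOf (u' * v') = p ^ l := by
      rw [← Subgroup.orderOf_coe]
      exact (Subgroup.orderOf_coe _).symm.trans hl
    have hcop : (orderOf u').Coprime (orderOf (u' * v')) := by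
      rw [hou, hoe]; exact hzp.pow_right l
    have hc : Commute u'⁻¹ (u' * v') := (OddLocal.commute_of_coprime_orderOf hcop).inv_left
    have := hc.orderOf_mul_eq_mul_orderOf_of_coprime (by rwa [orderOf_inv])
    rw [inv_mul_cancel_left, hov, orderOf_inv, hou, hoe] at this
    have h1 : p ^ l = 1 :=
      (mul_eq_left₀ (orderOf_pos z).ne').mp this.symm
    rwa [h1, orderOf_eq_one_iff] at hl
  rw [huvone, one_mul, show (b * j)⁻¹ * (r₁ * b * r₂ * r₁⁻¹)
    = j⁻¹ * (b⁻¹ * r₁ * b⁻¹⁻¹) * r₂ * r₁⁻¹ by group]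
  exact mul_mem (mul_mem (mul_mem (inv_mem hj') (hnorm (inv_mem hbM) hr₁)) hr₂) (inv_mem hr₁)

/-- Fixed elements normalize the Sylow subgroup at a full prime. -/
theorem conj_mem (hdvd : p ∣ Nat.card G) (hf : IsFull σ p) {a x : G} (ha : a ∈ fix2 σ)
    (hx : x ∈ sylowS σ p) : a * x * a⁻¹ ∈ sylowS σ p := by
  rw [hm.sylowS_eq_invGen hdvd] at hx ⊢
  exact (Subgroup.mem_normalizer_iff.mp (hf ha) x).mp hx

/-- Some fixed element of order prime to `p` moves the Sylow subgroup. -/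
theorem exists_not_commute (hdvd : p ∣ Nat.card G) :
    ∃ a ∈ fix2 σ, (orderOf a).Coprime p ∧ ∃ x ∈ sylowS σ p, a * x ≠ x * a := by
  have hσ := hm.toFour
  by_contra h
  push Not at h
  obtain ⟨S, hS, hSi⟩ := hσ.exists_sylowS (p := p)
  set P := sylowS σ p with hP
  have hn : Group.IsNilpotent P := hσ.isPGroup_sylowS.isNilpotent
  obtain ⟨y₀, hy₀, -, hy₀1⟩ := hm.exists_isI_mem_sylowS hdvd
  refine hy₀1 ((Subgroup.eq_bot_iff_forall P).mp (Transfer.eq_bot_of_le_commutator le_rfl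
    ((hS.ge.trans (Transfer.focalSubgroup_eq_of_pResidual_eq_top S hm.pResidual_eq_top).ge).trans
      ?_)) y₀ hy₀)
  refine Transfer.focalSubgroup_le_of_forall fun x hx g hgx => ?_
  rw [hS] at hx hgx
  obtain ⟨n, hnM, hne⟩ := hm.fusion hdvd hx hgx
  obtain ⟨a, ha, i, hi, hiI, rfl⟩ := hσ.exists_mul hm.sInv_maxS.zInv hnM
  obtain ⟨y, z, rfl, -, hyI, hzI, hyi, hzi, ⟨k, hk⟩, hzp⟩ := exists_parts (p := p) hσ hiI
  have hMne := hm.maxS_ne_top hdvd
  have hy : y ∈ P := hm.mem_sylowS hm.sInv_maxS hMne ((Subgroup.zpowers_le.mpr hi) hyi) hyI hk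
  -- the element of order prime to p centralizes
  have hzc : z * x = x * z := by
    rw [hP, hm.sylowS_eq_invGen hdvd] at hx
    have hle : invGen σ p ≤ Subgroup.centralizer ({z} : Set G) := by
      refine (Subgroup.closure_le _).mpr fun w hw => Subgroup.mem_centralizer_singleton_iff.mpr ?_
      obtain ⟨j, hj⟩ := IsPGroup.iff_orderOf.mp hσ.isPGroup_sylowS ⟨w, hw.1⟩
      rw [Subgroup.orderOf_mk] at hj
      exact hσ.commute_coprime hm.sInv_maxS (hm.solvable _ hm.sInv_maxS hMne)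
        (hm.sylowS_le_maxS hw.1) hw.2 ((Subgroup.zpowers_le.mpr hi) hzi) hzI
        (hj ▸ hzp.symm.pow_left j)
    exact (Subgroup.mem_centralizer_singleton_iff.mp (hle hx)).symm
  -- the fixed element acts as an element of the Sylow subgroup
  obtain ⟨c, hcP, hca⟩ : ∃ c ∈ P, ∀ w ∈ P, a * w * a⁻¹ = c * w * c⁻¹ := by
    set n := orderOf a
    have hn0 : n ≠ 0 := (orderOf_pos a).ne'
    have hcop : (p ^ n.factorization p).Coprime (n / p ^ n.factorization p) :=
      (Nat.coprime_ordCompl hp.out hn0).pow_left _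
    set P' := p ^ n.factorization p
    set m := n / P'
    have hPm : P' * m = n := Nat.ordProj_mul_ordCompl_eq_self n p
    have hb : (P' : ℤ) * Nat.gcdA P' m + (m : ℤ) * Nat.gcdB P' m = 1 := by
      have := Nat.gcd_eq_gcd_ab P' m
      rw [hcop] at this
      exact_mod_cast this.symm
    set c := a ^ ((m : ℤ) * Nat.gcdB P' m)
    set d := a ^ ((P' : ℤ) * Nat.gcdA P' m)
    have hc : c ^ P' = 1 := by
      rw [← zpow_natCast, ← zpow_mul,
        show (m : ℤ) * Nat.gcdB P' m * P' = (n : ℤ) * Nat.gcdB P' m by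
          rw [← hPm]; push_cast; ring, zpow_mul, zpow_natCast, pow_orderOf_eq_one, one_zpow]
    have hd : d ^ m = 1 := by
      rw [← zpow_natCast, ← zpow_mul,
        show (P' : ℤ) * Nat.gcdA P' m * m = (n : ℤ) * Nat.gcdA P' m by
          rw [← hPm]; push_cast; ring, zpow_mul, zpow_natCast, pow_orderOf_eq_one, one_zpow]
    obtain ⟨l, -, hl⟩ := (Nat.dvd_prime_pow hp.out).mp (orderOf_dvd_of_pow_eq_one hc)
    refine ⟨c, hσ.mem_sylowS_of_fix2 ((fix2 σ).zpow_mem ha.1 _) hl, fun w hw => ?_⟩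
    have hdc : d * w = w * d := h d ((fix2 σ).zpow_mem ha.1 _)
      (Nat.Coprime.coprime_dvd_left (orderOf_dvd_of_pow_eq_one hd)
        (Nat.coprime_ordCompl hp.out hn0).symm) w hw
    have had : a = c * d := by rw [← zpow_add, add_comm, hb, zpow_one]
    calc a * w * a⁻¹ = c * (d * w) * d⁻¹ * c⁻¹ := by rw [had]; group
      _ = c * w * c⁻¹ := by rw [hdc]; group
  rw [← hne, show a * (y * z) * x * (a * (y * z))⁻¹ = a * (y * (z * x) * z⁻¹ * y⁻¹) * a⁻¹ by group,
    hzc, show y * (x * z) * z⁻¹ * y⁻¹ = y * x * y⁻¹ by group,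
    hca _ (mul_mem (mul_mem hy hx) (inv_mem hy)),
    show x⁻¹ * (c * (y * x * y⁻¹) * c⁻¹) = ⁅x⁻¹, c * y⁆ by rw [commutatorElement_def]; group]
  exact Subgroup.commutator_mem_commutator (inv_mem hx) (mul_mem hcP hy)

end Minimal

end Cfsg.Agent.FPF4
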