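/-
A minimal non-solvable group with a fixed-point-free automorphism of order dividing four does not
exist: there are too few elements inverted by the square.
-/
import Cfsg.Agent.FPF4.Primes

set_option autoImplicit false
set_option linter.unusedSectionVars false
set_option linter.style.haveILetI false

namespace Cfsg.Agent.FPF4

open Cfsg
open scoped commutatorElement

variable {G : Type*} [Group G]

/-- The order of the Sylow subgroup. -/
noncomputable def ppart (G : Type*) (p : ℕ) : ℕ := p ^ (Nat.card G).factorization p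

/-- The index of the Sylow subgroup. -/
noncomputable def cofactor (G : Type*) (p : ℕ) : ℕ := Nat.card G / ppart G p

theorem ppart_mul_cofactor (G : Type*) (p : ℕ) : ppart G p * cofactor G p = Nat.card G :=
  Nat.ordProj_mul_ordCompl_eq_self _ _

variable [Finite G]

theorem not_dvd_cofactor {p : ℕ} (hp : p.Prime) : ¬ p ∣ cofactor G p :=
  Nat.not_dvd_ordCompl hp Nat.card_pos.ne'

theorem coprime_ppart {p : ℕ} (hp : p.Prime) : (ppart G p).Coprime (cofactor G p) :=
  ((hp.coprime_iff_not_dvd).mpr (not_dvd_cofactor hp)).pow_left _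

theorem ppart_dvd_cofactor {p q : ℕ} (hp : p.Prime) (hq : q.Prime) (h : q ≠ p) :
    ppart G q ∣ cofactor G p :=
  Nat.Coprime.dvd_of_dvd_mul_left
    (((Nat.coprime_primes hq hp).mpr h).pow _ _ : (ppart G q).Coprime (ppart G p))
    ((Nat.ordProj_dvd _ _).trans (ppart_mul_cofactor G p).symm.dvd)

theorem exists_orderOf_pow_cofactor {p : ℕ} (hp : p.Prime) (x : G) :
    ∃ k, orderOf (x ^ cofactor G p) = p ^ k := by
  have h : (x ^ cofactor G p) ^ ppart G p = 1 := by
    rw [← pow_mul, Nat.mul_comm, ppart_mul_cofactor, pow_card_eq_one']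
  obtain ⟨k, -, hk⟩ := (Nat.dvd_prime_pow hp).mp (orderOf_dvd_of_pow_eq_one h)
  exact ⟨k, hk⟩

theorem orderOf_pow_ppart_dvd (p : ℕ) (x : G) : orderOf (x ^ ppart G p) ∣ cofactor G p :=
  orderOf_dvd_of_pow_eq_one (by rw [← pow_mul, ppart_mul_cofactor, pow_card_eq_one'])

theorem eq_of_parts {p : ℕ} (hp : p.Prime) {x y : G} (h1 : x ^ cofactor G p = y ^ cofactor G p)
    (h2 : x ^ ppart G p = y ^ ppart G p) : x = y := by
  have hb : (ppart G p : ℤ) * Nat.gcdA (ppart G p) (cofactor G p)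
      + (cofactor G p : ℤ) * Nat.gcdB (ppart G p) (cofactor G p) = 1 := by
    have := Nat.gcd_eq_gcd_ab (ppart G p) (cofactor G p)
    rw [coprime_ppart hp] at this
    exact_mod_cast this.symm
  have e : ∀ z : G, z = (z ^ ppart G p) ^ Nat.gcdA (ppart G p) (cofactor G p) *
      (z ^ cofactor G p) ^ Nat.gcdB (ppart G p) (cofactor G p) := by
    intro z
    rw [← zpow_natCast z (ppart G p), ← zpow_natCast z (cofactor G p), ← zpow_mul, ← zpow_mul,
      ← zpow_add, hb, zpow_one]
  rw [e x, e y, h1, h2]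

/-- An element lies in a subgroup containing all its primary parts. -/
theorem mem_of_parts {x : G} {C : Subgroup G} {S : Finset ℕ}
    (hS : ∀ r, r.Prime → r ∣ orderOf x → r ∈ S) (h : ∀ r ∈ S, x ^ cofactor G r ∈ C) : x ∈ C := by
  classical
  have hex : ∃ k, 0 < k ∧ x ^ k ∈ C := ⟨orderOf x, orderOf_pos x, by
    rw [pow_orderOf_eq_one]; exact C.one_mem⟩
  set d := Nat.find hex
  obtain ⟨hd0, hdC⟩ := Nat.find_spec hex
  have hdvd : ∀ k, x ^ k ∈ C → d ∣ k := by
    intro k hk
    refine Nat.dvd_of_mod_eq_zero (Nat.eq_zero_of_not_pos fun hpos => ?_)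
    refine Nat.find_min hex (Nat.mod_lt k hd0) ⟨hpos, ?_⟩
    rw [← Nat.mod_add_div k d, pow_add, pow_mul] at hk
    exact (C.mul_mem_cancel_right (C.pow_mem hdC _)).mp hk
  have : d = 1 := by
    by_contra h1
    obtain ⟨r, hr, hrd⟩ := Nat.exists_prime_and_dvd h1
    have hrx : r ∣ orderOf x :=
      hrd.trans (hdvd _ (by rw [pow_orderOf_eq_one]; exact C.one_mem))
    exact not_dvd_cofactor hr (hrd.trans (hdvd _ (h r (hS r hr hrx))))
  rw [← pow_one x, ← this]
  exact hdC

theorem parts_injective {S : Finset ℕ} {x y : G} (hx : ∀ r, r.Prime → r ∣ orderOf x → r ∈ S)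
    (hy : ∀ r, r.Prime → r ∣ orderOf y → r ∈ S)
    (h : ∀ r ∈ S, x ^ cofactor G r = y ^ cofactor G r) : x = y := by
  have hc : Commute x y := Subgroup.mem_centralizer_singleton_iff.mp
    (mem_of_parts (C := Subgroup.centralizer ({y} : Set G)) hx fun r hr => by
      rw [h r hr]
      exact Subgroup.mem_centralizer_singleton_iff.mpr (Commute.pow_self y _).eq)
  have h' : x * y⁻¹ ∈ (⊥ : Subgroup G) := by
    refine mem_of_parts (S := S) (fun r hr hd => ?_) fun r hr => ?_
    · have := hd.trans (hc.inv_right.orderOf_mul_dvd_lcm)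
      rw [orderOf_inv] at this
      rcases (Nat.Prime.dvd_mul hr).mp (this.trans (Nat.lcm_dvd_mul _ _)) with h | h
      exacts [hx r hr h, hy r hr h]
    · rw [hc.inv_right.mul_pow, inv_pow, h r hr, mul_inv_cancel, Subgroup.mem_bot]
  exact mul_inv_eq_one.mp (Subgroup.mem_bot.mp h')

theorem card_le_prod {X : Set G} {S : Finset ℕ} (Y : ℕ → Set G)
    (hS : ∀ x ∈ X, ∀ r, r.Prime → r ∣ orderOf x → r ∈ S)
    (hY : ∀ x ∈ X, ∀ r ∈ S, x ^ cofactor G r ∈ Y r) :
    Nat.card X ≤ ∏ r ∈ S, Nat.card (Y r) := by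
  rw [← Finset.prod_coe_sort, ← Nat.card_pi]
  refine Nat.card_le_card_of_injective
    (fun x r => ⟨(x : G) ^ cofactor G r, hY x x.2 r r.2⟩) fun x y e => Subtype.ext ?_
  exact parts_injective (hS x x.2) (hS y y.2) fun r hr =>
    congrArg Subtype.val (congrFun e ⟨r, hr⟩)

section Regular

variable {P : Type*} [Group P] [Finite P]

/-- The fixed points of a group of automorphisms. -/
def fixedOf (X : Subgroup (MulAut P)) : Subgroup P where
  carrier := {y | ∀ f ∈ X, f y = y}
  one_mem' := fun f _ => map_one f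
  mul_mem' := fun {a b} ha hb f hf => by rw [map_mul, ha f hf, hb f hf]
  inv_mem' := fun {a} ha f hf => by rw [map_inv, ha f hf]

/-- An abelian group of automorphisms of coprime order has order less than the index of its fixed
points. -/
theorem card_lt_index_fixedOf {p : ℕ} [Fact p.Prime] (hP : IsPGroup p P) : ∀ (n : ℕ)
    (X : Subgroup (MulAut P)), Nat.card X ≤ n → (∀ f ∈ X, ∀ g ∈ X, f * g = g * f) →
      (∀ f ∈ X, (orderOf f).Coprime p) → X ≠ ⊥ → Nat.card X < (fixedOf X).index := by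
  intro n
  induction n with
  | zero => intro X h; exact absurd h (by simp [Nat.card_pos.ne'])
  | succ n ih =>
  intro X hn hcomm hcop hX
  classical
  set U := fixedOf X with hU
  obtain ⟨y, hy⟩ : ∃ y, y ∉ U := by
    by_contra h
    push Not at h
    exact hX ((Subgroup.eq_bot_iff_forall X).mpr fun f hf => MulEquiv.ext fun w => h w f hf)
  let X₀ : Subgroup (MulAut P) :=
    { carrier := {f | f ∈ X ∧ f y = y}
      one_mem' := ⟨X.one_mem, rfl⟩
      mul_mem' := fun {f g} hf hg => ⟨X.mul_mem hf.1 hg.1, by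
        rw [MulAut.mul_apply, hg.2, hf.2]⟩
      inv_mem' := fun {f} hf => ⟨X.inv_mem hf.1, by
        rw [MulAut.inv_def, MulEquiv.symm_apply_eq, hf.2]⟩ }
  have hX₀ : X₀ ≤ X := fun f hf => hf.1
  set W := fixedOf X₀
  have hUW : U ≤ W := fun w hw f hf => hw f hf.1
  have hyW : y ∈ W := fun f hf => hf.2
  have hinv : ∀ f ∈ X, f y ∈ W := fun f hf g hg => by
    rw [← MulAut.mul_apply, ← hcomm f hf g hg.1, MulAut.mul_apply, hg.2]
  -- the orbit of `y` meets every coset once
  have hkey : X₀.relIndex X + 1 ≤ U.relIndex W := by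
    rw [Subgroup.relIndex, Subgroup.relIndex, Subgroup.index, Subgroup.index,
      ← Finite.card_option]
    let φ : X ⧸ X₀.subgroupOf X → W ⧸ U.subgroupOf W := fun q =>
      ((⟨(q.out : MulAut P) y, hinv _ q.out.2⟩ : W) : W ⧸ U.subgroupOf W)
    refine Nat.card_le_card_of_injective
      (fun o => o.elim ((1 : W) : W ⧸ U.subgroupOf W) φ) ?_
    have h1 : ∀ q, φ q ≠ ((1 : W) : W ⧸ U.subgroupOf W) := by
      intro q e
      have e' := QuotientGroup.eq.mp e
      rw [mul_one, inv_mem_iff, Subgroup.mem_subgroupOf] at e'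
      refine hy ?_
      have := e' (q.out : MulAut P)⁻¹ (X.inv_mem q.out.2)
      rw [MulAut.inv_apply_self] at this
      rw [this]
      exact e'
    have h2 : Function.Injective φ := by
      intro a b e
      have e' := QuotientGroup.eq.mp e
      rw [Subgroup.mem_subgroupOf] at e'
      rw [← QuotientGroup.out_eq' a, ← QuotientGroup.out_eq' b]
      refine QuotientGroup.eq.mpr ?_
      rw [Subgroup.mem_subgroupOf]
      set f := (a.out : MulAut P)
      set g := (b.out : MulAut P)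
      have hf : f ∈ X := a.out.2
      have hg : g ∈ X := b.out.2
      change (f y)⁻¹ * g y ∈ U at e'
      change f⁻¹ * g ∈ X₀
      refine ⟨X.mul_mem (X.inv_mem hf) hg, ?_⟩
      set u := (f y)⁻¹ * g y with hu
      set z := f⁻¹ * g with hz
      have hzu : z y = y * u := by
        have : f (z y) = f (y * u) := by
          rw [hz, MulAut.mul_apply, MulAut.apply_inv_self, map_mul, e' f hf, hu, mul_inv_cancel_left]
        exact f.injective this
      have hk : ∀ k : ℕ, (z ^ k) y = y * u ^ k := by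
        intro k
        induction k with
        | zero => simp
        | succ k ihk =>
          rw [pow_succ', MulAut.mul_apply, ihk, map_mul, map_pow,
            e' z (X.mul_mem (X.inv_mem hf) hg), hzu, pow_succ', mul_assoc]
      have hu1 : u ^ orderOf z = 1 := by
        have := hk (orderOf z)
        rw [pow_orderOf_eq_one, MulAut.one_apply] at this
        exact mul_eq_left.mp this.symm
      obtain ⟨k, hk'⟩ := IsPGroup.iff_orderOf.mp hP u
      have hu2 : u = 1 := by
        rw [← orderOf_eq_one_iff]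
        exact Nat.eq_one_of_dvd_coprimes
          ((hcop z (X.mul_mem (X.inv_mem hf) hg)).pow_right k)
          (orderOf_dvd_of_pow_eq_one hu1) hk'.dvd
      rw [hzu, hu2, mul_one]
    intro o o' e
    match o, o' with
    | none, none => rfl
    | none, some b => exact absurd e.symm (h1 b)
    | some a, none => exact absurd e (h1 a)
    | some a, some b => exact congrArg some (h2 e)
  have hcard : X₀.relIndex X * Nat.card X₀ = Nat.card X := by
    rw [mul_comm, ← Core.card_subgroupOf hX₀]; exact Subgroup.card_mul_index _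
  have hidx : U.relIndex W * W.index = U.index := Subgroup.relIndex_mul_index hUW
  by_cases h0 : X₀ = ⊥
  · rw [h0, Subgroup.card_bot, mul_one] at hcard
    rw [h0] at hkey
    calc Nat.card X < U.relIndex W := by omega
      _ ≤ U.relIndex W * W.index :=
        Nat.le_mul_of_pos_right _ (Nat.pos_of_ne_zero Subgroup.index_ne_zero_of_finite)
      _ = U.index := hidx
  · have hlt : Nat.card X₀ < Nat.card X := by
      refine lt_of_le_of_ne (Subgroup.card_le_of_le hX₀) fun e => hy fun f hf => ?_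
      exact ((Subgroup.eq_of_le_of_card_ge hX₀ e.ge).ge hf).2
    have hW := ih X₀ (by omega) (fun f hf g hg => hcomm f hf.1 g hg.1) (fun f hf => hcop f hf.1) h0
    rw [← hcard, ← hidx]
    calc X₀.relIndex X * Nat.card X₀ ≤ (X₀.relIndex X + 1) * Nat.card X₀ :=
          Nat.mul_le_mul_right _ (Nat.le_succ _)
      _ ≤ U.relIndex W * Nat.card X₀ := Nat.mul_le_mul_right _ hkey
      _ < U.relIndex W * W.index := Nat.mul_lt_mul_of_pos_left hW (by omega)

end Regular

namespace Minimal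

variable {σ : MulAut G}

/-- The number of inverted elements of the Sylow subgroup. -/
noncomputable def fCount (σ : MulAut G) (p : ℕ) : ℕ :=
  Nat.card {x : G // x ∈ sylowS σ p ∧ IsI σ x}

open Classical in
/-- The full primes of the group order. -/
noncomputable def fullSet (σ : MulAut G) : Finset ℕ :=
  (Nat.card G).primeFactors.filter fun p => IsFull σ p

variable (hm : Minimal σ)
include hm

omit hm in
theorem mem_fullSet {p : ℕ} :
    p ∈ fullSet σ ↔ p ∈ (Nat.card G).primeFactors ∧ IsFull σ p := by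
  classical
  exact Finset.mem_filter

theorem card_sylowS (p : ℕ) [Fact p.Prime] : Nat.card (sylowS σ p) = ppart G p := by
  obtain ⟨S, hS, -⟩ := hm.toFour.exists_sylowS (p := p)
  rw [← hS]
  exact S.card_eq_multiplicity

theorem card_sylowS_eq (p : ℕ) [Fact p.Prime] :
    Nat.card (sylowS σ p) = Nat.card ↥(fix2 σ ⊓ sylowS σ p) * fCount σ p :=
  hm.toFour.card_eq hm.toFour.sInv_sylowS.zInv

theorem full_of_mem_fix2 {p : ℕ} [hp : Fact p.Prime] {a : G} (ha : a ∈ fix2 σ)
    (hd : p ∣ orderOf a) : p ∈ fullSet σ := by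
  have hdvd : p ∣ Nat.card G := hd.trans (orderOf_dvd_natCard a)
  refine mem_fullSet.mpr ⟨Nat.mem_primeFactors.mpr ⟨hp.out, hdvd, Nat.card_pos.ne'⟩, ?_⟩
  have ho : orderOf (a ^ (orderOf a / p)) = p := orderOf_pow_orderOf_div (orderOf_pos a).ne' hd
  refine hm.full_of_fix2_mem hdvd ((fix2 σ).pow_mem ha _)
    (hm.toFour.mem_sylowS_of_fix2 ((fix2 σ).pow_mem ha _) (k := 1) (by rw [ho, pow_one]))
    fun h => hp.out.ne_one ?_
  exact ho.symm.trans (by rw [h, orderOf_one])

theorem card_fix2_le :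
    Nat.card (fix2 σ) ≤ ∏ p ∈ (Nat.card G).primeFactors, Nat.card ↥(fix2 σ ⊓ sylowS σ p) := by
  refine card_le_prod (X := (fix2 σ : Set G))
    (fun p => ((fix2 σ ⊓ sylowS σ p : Subgroup G) : Set G)) (fun x _ r hr hd =>
      Nat.mem_primeFactors.mpr ⟨hr, hd.trans (orderOf_dvd_natCard x), Nat.card_pos.ne'⟩)
    fun x hx r hr => ?_
  haveI : Fact r.Prime := ⟨Nat.prime_of_mem_primeFactors hr⟩
  obtain ⟨k, hk⟩ := exists_orderOf_pow_cofactor (Nat.prime_of_mem_primeFactors hr) x
  exact ⟨(fix2 σ).pow_mem hx _, hm.toFour.mem_sylowS_of_fix2 ((fix2 σ).pow_mem hx _) hk⟩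

theorem prod_fCount_le :
    ∏ p ∈ (Nat.card G).primeFactors, fCount σ p ≤ Nat.card {x : G // IsI σ x} := by
  have h1 := hm.toFour.card_eq (H := ⊤) (fun _ _ => trivial)
  rw [inf_top_eq, Subgroup.card_top] at h1
  have h2 : Nat.card {x : G // x ∈ (⊤ : Subgroup G) ∧ IsI σ x} = Nat.card {x : G // IsI σ x} :=
    Nat.card_congr (Equiv.subtypeEquivRight fun x => by simp)
  rw [h2] at h1
  have h3 : Nat.card G = ∏ p ∈ (Nat.card G).primeFactors,
      (Nat.card ↥(fix2 σ ⊓ sylowS σ p) * fCount σ p) := by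
    conv_lhs => rw [← Nat.prod_factorization_pow_eq_self (Nat.card_pos (α := G)).ne']
    rw [Finsupp.prod, Nat.support_factorization]
    refine Finset.prod_congr rfl fun p hp => ?_
    haveI : Fact p.Prime := ⟨Nat.prime_of_mem_primeFactors hp⟩
    rw [← hm.card_sylowS_eq, hm.card_sylowS]
    rfl
  rw [Finset.prod_mul_distrib] at h3
  have hle : ∏ p ∈ (Nat.card G).primeFactors, Nat.card ↥(fix2 σ ⊓ sylowS σ p) *
      fCount σ p ≥ 0 := Nat.zero_le _
  refine Nat.le_of_mul_le_mul_left ?_ (Nat.card_pos (α := fix2 σ))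
  calc Nat.card (fix2 σ) * ∏ p ∈ (Nat.card G).primeFactors, fCount σ p
      ≤ (∏ p ∈ (Nat.card G).primeFactors, Nat.card ↥(fix2 σ ⊓ sylowS σ p)) *
          ∏ p ∈ (Nat.card G).primeFactors, fCount σ p :=
        Nat.mul_le_mul_right _ hm.card_fix2_le
    _ = Nat.card (fix2 σ) * Nat.card {x : G // IsI σ x} := by rw [← h3, h1]

theorem prime_of_mem_fullSet {p : ℕ} (h : p ∈ fullSet σ) :
    p.Prime ∧ p ∣ Nat.card G ∧ IsFull σ p :=
  ⟨Nat.prime_of_mem_primeFactors (mem_fullSet.mp h).1,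
    Nat.dvd_of_mem_primeFactors (mem_fullSet.mp h).1, (mem_fullSet.mp h).2⟩

theorem three_le_fCount {p : ℕ} (h : p ∈ fullSet σ) : 2 ≤ fCount σ p := by
  haveI : Fact p.Prime := ⟨(hm.prime_of_mem_fullSet h).1⟩
  obtain ⟨x, hx, hxI, hx1⟩ := hm.exists_isI_mem_sylowS (hm.prime_of_mem_fullSet h).2.1
  haveI : Nontrivial {x : G // x ∈ sylowS σ p ∧ IsI σ x} :=
    ⟨⟨x, hx, hxI⟩, ⟨1, one_mem _, IsI.one⟩, fun e => hx1 (congrArg Subtype.val e)⟩
  exact Finite.one_lt_card

theorem exists_other {p : ℕ} (h : p ∈ fullSet σ) : ∃ q ∈ fullSet σ, q ≠ p := by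
  haveI : Fact p.Prime := ⟨(hm.prime_of_mem_fullSet h).1⟩
  obtain ⟨a, ha, hap, x, -, hne⟩ := hm.exists_not_commute (hm.prime_of_mem_fullSet h).2.1
  obtain ⟨r, hr, hra⟩ := Nat.exists_prime_and_dvd (n := orderOf a) fun h1 => hne (by
    rw [orderOf_eq_one_iff.mp h1, one_mul, mul_one])
  haveI : Fact r.Prime := ⟨hr⟩
  refine ⟨r, hm.full_of_mem_fix2 ha hra, fun e => hr.ne_one ?_⟩
  exact Nat.eq_one_of_dvd_coprimes hap hra (e ▸ dvd_rfl)

/-- An inverted element of prime power order lies in the Sylow subgroup at a full prime. -/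
theorem mem_sylowS_of_full {p : ℕ} [Fact p.Prime] (hdvd : p ∣ Nat.card G) (hf : IsFull σ p)
    {x : G} (hx : IsI σ x) {k : ℕ} (hk : orderOf x = p ^ k) : x ∈ sylowS σ p := by
  obtain ⟨a, ha, hax, -⟩ := hm.toFour.exists_conj hx hk
  have := hm.conj_mem hdvd hf ha hax
  rwa [show a * (a⁻¹ * x * a) * a⁻¹ = x by group] at this

omit hm in
/-- The part prime to `p` of the fixed elements. -/
noncomputable def actHom (hσ : Four σ) (p : ℕ)
    (h : ∀ a ∈ fix2 σ, a ∈ Subgroup.normalizer (sylowS σ p : Set G)) :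
    fix2 σ →* MulAut (sylowS σ p) :=
  (Subgroup.normalizerMonoidHom (sylowS σ p)).comp
    { toFun := fun a => ⟨(a : G) ^ ppart G p, h _ ((fix2 σ).pow_mem a.2 _)⟩
      map_one' := Subtype.ext (one_pow _)
      map_mul' := fun a b => Subtype.ext ((show Commute (a : G) b from hσ.commute_fix2 a.2 b.2).mul_pow _) }

omit hm in
theorem actHom_eq_self {hσ : Four σ} {p : ℕ}
    {h : ∀ a ∈ fix2 σ, a ∈ Subgroup.normalizer (sylowS σ p : Set G)} {a : fix2 σ} {x : sylowS σ p} :
    actHom hσ p h a x = x ↔ (a : G) ^ ppart G p * x = x * (a : G) ^ ppart G p := by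
  rw [← mul_inv_eq_iff_eq_mul, ← Subtype.coe_inj]
  rfl

theorem normalizes {p : ℕ} (h : p ∈ fullSet σ) :
    ∀ a ∈ fix2 σ, a ∈ Subgroup.normalizer (sylowS σ p : Set G) := by
  haveI : Fact p.Prime := ⟨(hm.prime_of_mem_fullSet h).1⟩
  intro a ha
  exact Coprime.mem_normalizer_of_conj_mem fun x hx =>
    hm.conj_mem (hm.prime_of_mem_fullSet h).2.1 (hm.prime_of_mem_fullSet h).2.2 ha hx

omit hm in
/-- The fixed `p`-elements centralizing the other Sylow subgroups at full primes. -/
def centPart (σ : MulAut G) (p : ℕ) : Set G :=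
  {w | w ∈ fix2 σ ∧ w ∈ sylowS σ p ∧ ∀ q ∈ fullSet σ, q ≠ p → ∀ x ∈ sylowS σ q, w * x = x * w}

/-- The local bound. -/
theorem local_bound {p : ℕ} (h : p ∈ fullSet σ) :
    Nat.card (actHom hm.toFour p (hm.normalizes h)).range * Nat.card (centPart σ p) < fCount σ p := by
  classical
  obtain ⟨hp, hdvd, hf⟩ := hm.prime_of_mem_fullSet h
  haveI : Fact p.Prime := ⟨hp⟩
  have hσ := hm.toFour
  set P := sylowS σ p with hP
  set ρ := actHom hσ p (hm.normalizes h) with hρ
  have hPp : IsPGroup p P := hσ.isPGroup_sylowS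
  set U : Subgroup P := fixedOf ρ.range
  have hmemU : ∀ x : P, x ∈ U ↔ ∀ a ∈ fix2 σ, a ^ ppart G p * x = x * a ^ ppart G p := by
    intro x
    constructor
    · intro hx a ha
      exact actHom_eq_self.mp (hx (ρ ⟨a, ha⟩) ⟨⟨a, ha⟩, rfl⟩)
    · rintro hx _ ⟨a, rfl⟩
      exact actHom_eq_self.mpr (hx a a.2)
  have hcomm : ∀ f ∈ ρ.range, ∀ g ∈ ρ.range, f * g = g * f := by
    rintro _ ⟨a, rfl⟩ _ ⟨b, rfl⟩
    rw [← map_mul, ← map_mul, Subtype.ext (hσ.commute_fix2 a.2 b.2) (a1 := a * b) (a2 := b * a)]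
  have hcop : ∀ f ∈ ρ.range, (orderOf f).Coprime p := by
    rintro _ ⟨a, rfl⟩
    refine Nat.Coprime.coprime_dvd_left ?_ ((hp.coprime_iff_not_dvd).mpr (not_dvd_cofactor (G := G) hp)).symm
    refine orderOf_dvd_of_pow_eq_one ?_
    rw [hρ, ← map_pow]
    refine MulEquiv.ext fun x => ?_
    rw [MulAut.one_apply, actHom_eq_self, SubmonoidClass.coe_pow, ← pow_mul, Nat.mul_comm,
      ppart_mul_cofactor, pow_card_eq_one', one_mul, mul_one]
  obtain ⟨a₀, ha₀, hap, x₀, hx₀, hne⟩ := hm.exists_not_commute hdvd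
  obtain ⟨s, hs⟩ := exists_pow_eq_self_of_coprime
    (n := ppart G p) (x := a₀) (Nat.Coprime.pow_left _ hap.symm)
  have hx₀U : (⟨x₀, hx₀⟩ : P) ∉ U := fun hU => hne (by
    have hc : Commute (a₀ ^ ppart G p) x₀ := (hmemU _).mp hU a₀ ha₀
    have := hc.pow_left s
    rwa [hs] at this)
  have hne' : ρ.range ≠ ⊥ := fun hb => hx₀U (by
    intro f hf
    rw [hb, Subgroup.mem_bot] at hf
    rw [hf, MulAut.one_apply])
  have h1 := card_lt_index_fixedOf hPp _ ρ.range le_rfl hcomm hcop hne'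
  -- an inverted element normalizing the fixed points
  set V : Subgroup G := U.map P.subtype
  have hVP : V < P := by
    refine lt_of_le_of_ne (Subgroup.map_subtype_le U) fun e => hx₀U ?_
    obtain ⟨u, hu, hu'⟩ := (e.ge hx₀ : x₀ ∈ V)
    rwa [show u = ⟨x₀, hx₀⟩ from Subtype.ext hu'] at hu
  have hVs : SInv σ V := by
    rintro _ ⟨u, hu, rfl⟩
    refine ⟨⟨σ u, hσ.sInv_sylowS _ u.2⟩, (hmemU _).mpr fun a ha => ?_, rfl⟩
    have := congrArg σ ((hmemU u).mp hu a⁻¹ ((fix2 σ).inv_mem ha))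
    rwa [map_mul, map_mul, map_pow, map_inv, hσ.sigma_fix2 ha, inv_inv] at this
  have hBV : fix2 σ ⊓ P ≤ V := fun b hb =>
    ⟨⟨b, hb.2⟩, (hmemU _).mpr fun a ha => hσ.commute_fix2 ((fix2 σ).pow_mem ha _) hb.1, rfl⟩
  obtain ⟨n, hn, hnV⟩ := SetLike.exists_of_lt (Transfer.lt_inf_normalizer hPp hVP)
  obtain ⟨b, hb, i, hi, hiI, rfl⟩ :=
    hσ.exists_mul (hσ.sInv_sylowS.inf (sInv_normalizer hVs)).zInv hn
  have hiV : i ∉ V := fun hiV => hnV (mul_mem (hBV ⟨hb.1, hb.2.1⟩) hiV)
  have hcent : ∀ v ∈ centPart σ p, i * v = v * i → v = 1 := by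
    rintro v ⟨hvA, hvP, hv⟩ hiv
    by_contra hv1
    set C := Subgroup.centralizer ({v} : Set G)
    have hCs := hm.sInv_centralizer_fix2 hvA
    have hCne := hm.centralizer_ne_top (Set.mem_singleton v) hv1
    refine hiV ⟨⟨i, hi.1⟩, (hmemU _).mpr fun a ha => ?_, rfl⟩
    refine (Subgroup.mem_centralizer_singleton_iff.mp ?_ : a ^ ppart G p * i = i * a ^ ppart G p)
    refine mem_of_parts (S := (fullSet σ).erase p) (fun r hr hrd => ?_) fun r hr => ?_
    · haveI : Fact r.Prime := ⟨hr⟩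
      refine Finset.mem_erase.mpr ⟨fun e => ?_, hm.full_of_mem_fix2 ((fix2 σ).pow_mem ha _) hrd⟩
      exact not_dvd_cofactor hp (e ▸ hrd.trans (orderOf_pow_ppart_dvd p a))
    · obtain ⟨hrp, hrF⟩ := Finset.mem_erase.mp hr
      obtain ⟨hr', hrdvd, -⟩ := hm.prime_of_mem_fullSet hrF
      haveI : Fact r.Prime := ⟨hr'⟩
      obtain ⟨k, hk⟩ := exists_orderOf_pow_cofactor (G := G) hr' (a ^ ppart G p)
      have hmem := hσ.mem_sylowS_of_fix2 ((fix2 σ).pow_mem ((fix2 σ).pow_mem ha _) _) hk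
      rw [hm.sylowS_eq_invGen hrdvd] at hmem
      refine (Subgroup.closure_le _).mpr (fun x hx => ?_) hmem
      refine Subgroup.mem_centralizer_singleton_iff.mpr ?_
      obtain ⟨j, hj⟩ := IsPGroup.iff_orderOf.mp (hσ.isPGroup_sylowS (p := r)) ⟨x, hx.1⟩
      obtain ⟨l, hl⟩ := IsPGroup.iff_orderOf.mp hPp ⟨i, hi.1⟩
      rw [Subgroup.orderOf_mk] at hj hl
      refine hσ.commute_coprime hCs (hm.solvable C hCs hCne)
        (Subgroup.mem_centralizer_singleton_iff.mpr (hv r hrF hrp x hx.1).symm) hx.2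
        (Subgroup.mem_centralizer_singleton_iff.mpr hiv) hiI ?_
      rw [hj, hl]
      exact ((Nat.coprime_primes hr' hp).mpr hrp).pow _ _
  have h2 : Nat.card (centPart σ p) * Nat.card ↥(fix2 σ ⊓ P) ≤ Nat.card U := by
    rw [← Nat.card_prod]
    have hiN : i ∈ Subgroup.normalizer (V : Set G) := hi.2
    have hmap : ∀ (w : centPart σ p) (c : ↥(fix2 σ ⊓ P)), i * (w : G) * i⁻¹ * c ∈ V := fun w c =>
      mul_mem ((Subgroup.mem_normalizer_iff.mp hiN _).mp (hBV ⟨w.2.1, w.2.2.1⟩)) (hBV c.2)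
    refine le_trans (Nat.card_le_card_of_injective
      (fun z : centPart σ p × ↥(fix2 σ ⊓ P) => (⟨i * (z.1 : G) * i⁻¹ * z.2, hmap z.1 z.2⟩ : V)) ?_)
      (le_of_eq (Nat.card_congr
        (Subgroup.equivMapOfInjective U P.subtype P.subtype_injective).toEquiv).symm)
    rintro ⟨w, c⟩ ⟨w', c'⟩ e
    have e' : i * (w : G) * i⁻¹ * c = i * (w' : G) * i⁻¹ * c' := congrArg Subtype.val e
    set v := (w' : G)⁻¹ * w with hv
    have e2 : i * v * i⁻¹ = (c' : G) * (c : G)⁻¹ := by
      calc i * v * i⁻¹ = (i * (w' : G) * i⁻¹)⁻¹ * (i * (w : G) * i⁻¹ * c) * (c : G)⁻¹ := by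
            rw [hv]; group
        _ = (c' : G) * (c : G)⁻¹ := by rw [e']; group
    have hvA : v ∈ fix2 σ := mul_mem (inv_mem w'.2.1) w.2.1
    have hvK : v ∈ centPart σ p := ⟨hvA, mul_mem (inv_mem w'.2.2.1) w.2.2.1, fun q hq hne x hx =>
      ((show Commute (w' : G) x from w'.2.2.2 q hq hne x hx).inv_left.mul_left
        (show Commute (w : G) x from w.2.2.2 q hq hne x hx)).eq⟩
    have hv1 := hcent v hvK (hσ.commute_of_isI hiI hvA (e2 ▸ mul_mem c'.2.1 (inv_mem c.2.1)))
    have hw : (w : G) = w' := (inv_mul_eq_one.mp hv1).symm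
    rw [hv1, mul_one, mul_inv_cancel] at e2
    exact Prod.ext (Subtype.ext hw) (Subtype.ext (mul_inv_eq_one.mp e2.symm).symm)
  have h3 : Nat.card U * U.index = Nat.card ↥(fix2 σ ⊓ P) * fCount σ p := by
    rw [Subgroup.card_mul_index, hm.card_sylowS_eq]
  refine Nat.lt_of_mul_lt_mul_left (a := Nat.card ↥(fix2 σ ⊓ P)) ?_
  have hKpos : 0 < Nat.card (centPart σ p) := by
    haveI : Nonempty (centPart σ p) :=
      ⟨⟨1, one_mem _, one_mem _, fun _ _ _ _ _ => by rw [one_mul, mul_one]⟩⟩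
    exact Nat.card_pos
  calc Nat.card ↥(fix2 σ ⊓ P) * (Nat.card ρ.range * Nat.card (centPart σ p))
      = Nat.card ρ.range * (Nat.card (centPart σ p) * Nat.card ↥(fix2 σ ⊓ P)) := by ring
    _ < U.index * (Nat.card (centPart σ p) * Nat.card ↥(fix2 σ ⊓ P)) :=
        Nat.mul_lt_mul_of_pos_right h1 (Nat.mul_pos hKpos Nat.card_pos)
    _ ≤ U.index * Nat.card U := Nat.mul_le_mul_left _ h2
    _ = _ := by rw [mul_comm, h3]

theorem card_fix2_lt (hne : (fullSet σ).Nonempty) :
    Nat.card (fix2 σ) < ∏ p ∈ fullSet σ, fCount σ p := by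
  classical
  have hσ := hm.toFour
  let Φ : fix2 σ →* ((r : fullSet σ) → MulAut (sylowS σ r)) :=
    Pi.monoidHom fun r => actHom hσ r (hm.normalizes r.2)
  have h1 : Nat.card Φ.range ≤ ∏ r : fullSet σ, Nat.card (actHom hσ r (hm.normalizes r.2)).range := by
    rw [← Nat.card_pi]
    refine Nat.card_le_card_of_injective
      (fun f r => ⟨(f : (r : fullSet σ) → MulAut (sylowS σ r)) r, ?_⟩) fun f g e => ?_
    · obtain ⟨a, ha⟩ := f.2
      exact ⟨a, by rw [← ha]; rfl⟩
    · exact Subtype.ext (funext fun r => congrArg Subtype.val (congrFun e r))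
  have h2 : Nat.card Φ.ker ≤ ∏ r ∈ fullSet σ, Nat.card (centPart σ r) := by
    rw [Nat.card_congr (Subgroup.equivMapOfInjective Φ.ker (fix2 σ).subtype
      (fix2 σ).subtype_injective).toEquiv]
    refine card_le_prod (X := ((Φ.ker.map (fix2 σ).subtype : Subgroup G) : Set G))
      (centPart σ) ?_ ?_
    · rintro _ ⟨a, -, rfl⟩ r hr hd
      haveI : Fact r.Prime := ⟨hr⟩
      exact hm.full_of_mem_fix2 a.2 hd
    · rintro _ ⟨a, ha, rfl⟩ r hr
      obtain ⟨hr', -, -⟩ := hm.prime_of_mem_fullSet hr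
      haveI : Fact r.Prime := ⟨hr'⟩
      obtain ⟨k, hk⟩ := exists_orderOf_pow_cofactor (G := G) hr' (a : G)
      refine ⟨(fix2 σ).pow_mem a.2 _, hσ.mem_sylowS_of_fix2 ((fix2 σ).pow_mem a.2 _) hk,
        fun q hq hqr x hx => ?_⟩
      obtain ⟨hq', -, -⟩ := hm.prime_of_mem_fullSet hq
      have hker : actHom hσ q (hm.normalizes hq) a = 1 := congrFun (MonoidHom.mem_ker.mp ha) ⟨q, hq⟩
      have hc : Commute ((a : G) ^ ppart G q) x :=
        actHom_eq_self.mp (show actHom hσ q (hm.normalizes hq) a ⟨x, hx⟩ = ⟨x, hx⟩ by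
          rw [hker, MulAut.one_apply])
      obtain ⟨c, hc'⟩ := ppart_dvd_cofactor (G := G) hr' hq' hqr
      show (a : G) ^ cofactor G r * x = x * (a : G) ^ cofactor G r
      rw [hc', pow_mul]
      exact (hc.pow_left c).eq
  rw [← Φ.ker.card_mul_index, Subgroup.index_ker]
  calc Nat.card Φ.ker * Nat.card Φ.range
      ≤ (∏ r ∈ fullSet σ, Nat.card (centPart σ r)) *
          ∏ r : fullSet σ, Nat.card (actHom hσ r (hm.normalizes r.2)).range :=
        Nat.mul_le_mul h2 h1
    _ = ∏ r : fullSet σ,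
          Nat.card (actHom hσ r (hm.normalizes r.2)).range * Nat.card (centPart σ r) := by
        rw [← Finset.prod_coe_sort (fullSet σ) fun r => Nat.card (centPart σ r),
          ← Finset.prod_mul_distrib]
        exact Finset.prod_congr rfl fun r _ => mul_comm _ _
    _ < ∏ r : fullSet σ, fCount σ r := by
        haveI : Nonempty (fullSet σ) := hne.to_subtype
        refine Finset.prod_lt_prod_of_nonempty (fun r _ => Nat.mul_pos Nat.card_pos ?_)
          (fun r _ => hm.local_bound r.2) Finset.univ_nonempty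
        haveI : Nonempty (centPart σ r) :=
          ⟨⟨1, one_mem _, one_mem _, fun _ _ _ _ _ => by rw [one_mul, mul_one]⟩⟩
        exact Nat.card_pos
    _ = _ := Finset.prod_coe_sort (fullSet σ) fun r => fCount σ r

section Bad

variable {p : ℕ} [hp : Fact p.Prime] (hdvd : p ∣ Nat.card G) (hbad : ¬ IsFull σ p)
include hdvd hbad

theorem isI_of_mem {x : G} (hx : x ∈ sylowS σ p) : IsI σ x := by
  obtain ⟨a, ha, i, -, hiI, rfl⟩ := hm.toFour.exists_mul hm.toFour.sInv_sylowS.zInv hx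
  have : a = 1 := by
    by_contra h
    exact hbad (hm.full_of_fix2_mem hdvd ha.1 ha.2 h)
  rwa [this, one_mul]

theorem commute_mem {x y : G} (hx : x ∈ sylowS σ p) (hy : y ∈ sylowS σ p) : x * y = y * x := by
  have h : σ (σ (x⁻¹ * y⁻¹)) = (x⁻¹ * y⁻¹)⁻¹ :=
    hm.isI_of_mem hdvd hbad (mul_mem (inv_mem hx) (inv_mem hy))
  rw [map_mul, map_mul, show σ (σ x⁻¹) = x⁻¹⁻¹ from hm.isI_of_mem hdvd hbad (inv_mem hx),
    show σ (σ y⁻¹) = y⁻¹⁻¹ from hm.isI_of_mem hdvd hbad (inv_mem hy), mul_inv_rev] at h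
  simpa using h

theorem eq_one_of_commute {x a : G} (hx : x ∈ sylowS σ p) (hx1 : x ≠ 1) (ha : a ∈ fix2 σ)
    (h : a * x = x * a) : a = 1 := by
  by_contra ha1
  exact hbad (hm.full_of hx (hm.isI_of_mem hdvd hbad hx) hx1
    (fun y hy => hm.commute_mem hdvd hbad hy hx) ha ha1 h.symm)

theorem isI_centralizer {x c : G} (hx : x ∈ sylowS σ p) (hx1 : x ≠ 1)
    (hc : c ∈ Subgroup.centralizer ({x} : Set G)) : IsI σ c := by
  obtain ⟨a, ha, i, -, hiI, rfl⟩ :=
    hm.toFour.exists_mul (zInv_centralizer_singleton (hm.isI_of_mem hdvd hbad hx)) hc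
  rw [hm.eq_one_of_commute hdvd hbad hx hx1 ha.1 (Subgroup.mem_centralizer_singleton_iff.mp ha.2),
    one_mul]
  exact hiI

theorem centralizer_eq {x : G} (hx : x ∈ sylowS σ p) (hx1 : x ≠ 1) :
    Subgroup.centralizer ({x} : Set G) = Subgroup.centralizer (sylowS σ p : Set G) := by
  refine le_antisymm (fun c hc => Subgroup.mem_centralizer_iff.mpr fun y hy => ?_)
    (Subgroup.centralizer_le (Set.singleton_subset_iff.mpr hx))
  have hyC : y ∈ Subgroup.centralizer ({x} : Set G) :=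
    Subgroup.mem_centralizer_singleton_iff.mpr (hm.commute_mem hdvd hbad hy hx)
  have hI : ∀ g ∈ Subgroup.centralizer ({x} : Set G), σ (σ g) = g⁻¹ := fun g hg =>
    hm.isI_centralizer hdvd hbad hx hx1 hg
  have h := hI _ (mul_mem (inv_mem hyC) (inv_mem hc))
  rw [map_mul, map_mul, hI _ (inv_mem hyC), hI _ (inv_mem hc), mul_inv_rev] at h
  simpa using h

theorem sInv_centralizer_sylowS : SInv σ (Subgroup.centralizer (sylowS σ p : Set G)) :=
  sInv_centralizer hm.toFour.sInv_sylowS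

theorem centralizer_sylowS_ne_top : Subgroup.centralizer (sylowS σ p : Set G) ≠ ⊤ := by
  obtain ⟨x, hx, -, hx1⟩ := hm.exists_isI_mem_sylowS hdvd
  exact hm.centralizer_ne_top hx hx1

theorem isI_of_mem_centralizer {c : G} (hc : c ∈ Subgroup.centralizer (sylowS σ p : Set G)) :
    IsI σ c := by
  obtain ⟨x, hx, -, hx1⟩ := hm.exists_isI_mem_sylowS hdvd
  exact hm.isI_centralizer hdvd hbad hx hx1
    (Subgroup.centralizer_le (Set.singleton_subset_iff.mpr hx) hc)

theorem normalizer_le : Subgroup.normalizer (sylowS σ p : Set G) ≤ maxS σ p := by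
  refine hm.le_maxS (sInv_normalizer hm.toFour.sInv_sylowS) ?_
    fun x hx _ => Subgroup.le_normalizer hx
  obtain ⟨x, hx, -, hx1⟩ := hm.exists_isI_mem_sylowS hdvd
  exact hm.normalizer_ne_top hm.toFour.sInv_sylowS
    (fun h => hx1 ((Subgroup.eq_bot_iff_forall _).mp h x hx)) hm.sylowS_ne_top

theorem mem_maxS_of_translate {c x : G} (hc : c ∈ fix2 σ) (hx : x ∈ sylowS σ p) (hx1 : x ≠ 1)
    (hcx : c * x * c⁻¹ ∈ sylowS σ p) : c ∈ maxS σ p := by
  have hσ := hm.toFour
  obtain ⟨S, hS, -⟩ := hσ.exists_sylowS (p := p)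
  refine hm.normalizer_le hdvd hbad (Coprime.mem_normalizer_of_conj_mem fun z hz => ?_)
  have hy1 : c * x * c⁻¹ ≠ 1 := fun h => hx1 (conj_eq_one_iff.mp h)
  have hzC : c * z * c⁻¹ ∈ Subgroup.centralizer (sylowS σ p : Set G) := by
    rw [← hm.centralizer_eq hdvd hbad hcx hy1, Subgroup.mem_centralizer_singleton_iff]
    calc c * z * c⁻¹ * (c * x * c⁻¹) = c * (z * x) * c⁻¹ := by group
      _ = c * (x * z) * c⁻¹ := by rw [hm.commute_mem hdvd hbad hz hx]
      _ = _ := by group
  obtain ⟨k, hk⟩ := IsPGroup.iff_orderOf.mp hσ.isPGroup_sylowS ⟨z, hz⟩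
  rw [Subgroup.orderOf_mk] at hk
  have hQ : IsPGroup p (Subgroup.zpowers (c * z * c⁻¹)) := IsPGroup.of_card (n := k) (by
    rw [Nat.card_zpowers, ← MulAut.conj_apply, MulEquiv.orderOf_eq, hk])
  have hmem : c * z * c⁻¹ ∈ Subgroup.zpowers (c * z * c⁻¹) ⊓
      Subgroup.normalizer ((S : Subgroup G) : Set G) := by
    refine ⟨Subgroup.mem_zpowers _, Coprime.mem_normalizer_of_conj_mem fun w hw => ?_⟩
    rw [hS] at hw ⊢
    rw [← Subgroup.mem_centralizer_iff.mp hzC w hw, mul_inv_cancel_right]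
    exact hw
  rw [← hS]
  exact ((hQ.inf_normalizer_sylow S).le hmem).2

theorem mem_maxS_of_translate' {c y : G} (hc : c ∈ fix2 σ) (hy1 : y ≠ 1)
    (hy : y ∈ Subgroup.centralizer (sylowS σ p : Set G))
    (hcy : c * y * c⁻¹ ∈ Subgroup.centralizer (sylowS σ p : Set G)) : c ∈ maxS σ p := by
  have hσ := hm.toFour
  obtain ⟨S, hS, hSi⟩ := hσ.exists_sylowS (p := p)
  set y' := c * y * c⁻¹ with hy'
  have hy'I : IsI σ y' := (hm.isI_of_mem_centralizer hdvd hbad hy).conj hc
  have hy'1 : y' ≠ 1 := fun h => hy1 (conj_eq_one_iff.mp h)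
  have hPS : (S : Subgroup G) ≤ Subgroup.centralizer ({y'} : Set G) := by
    intro z hz
    rw [Subgroup.mem_centralizer_singleton_iff]
    exact Subgroup.mem_centralizer_iff.mp hcy z (hS ▸ hz)
  have hcS : ((c • S : Sylow p G) : Subgroup G) ≤ Subgroup.centralizer ({y'} : Set G) := by
    intro z hz
    rw [Sylow.coe_subgroup_smul, Subgroup.mem_pointwise_smul_iff_inv_smul_mem, hS] at hz
    simp only [← map_inv, MulAut.smul_def, MulAut.conj_apply, inv_inv] at hz
    rw [Subgroup.mem_centralizer_singleton_iff]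
    calc z * y' = c * ((c⁻¹ * z * c) * y) * c⁻¹ := by rw [hy']; group
      _ = c * (y * (c⁻¹ * z * c)) * c⁻¹ := by rw [Subgroup.mem_centralizer_iff.mp hy _ hz]
      _ = y' * z := by rw [hy']; group
  have hcSz : ZInv σ ((c • S : Sylow p G) : Subgroup G) := by
    intro z hz
    rw [Sylow.coe_subgroup_smul, Subgroup.mem_pointwise_smul_iff_inv_smul_mem, hS] at hz ⊢
    simp only [← map_inv, MulAut.smul_def, MulAut.conj_apply, inv_inv] at hz ⊢
    have := hSi.zInv _ hz
    simp only [map_mul, map_inv] at this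
    rwa [show σ (σ c) = c from hc] at this
  obtain ⟨d, hd, hdS⟩ := hσ.zSylow_conj (zInv_centralizer_singleton hy'I) (hS ▸ hSi.zInv) hcSz
    hPS hcS
  have hdM : d ∈ maxS σ p := by
    set C := Subgroup.centralizer ({y', y'⁻¹, σ y', (σ y')⁻¹} : Set G)
    have hy'σ : σ (σ y') = y'⁻¹ := hy'I
    have hCs : SInv σ C := sInv_centralizer fun w hw => by
      rcases hw with rfl | rfl | rfl | rfl <;> simp [hy'σ]
    have hσy' : σ y' ∈ Subgroup.centralizer (sylowS σ p : Set G) :=
      hm.sInv_centralizer_sylowS hdvd hbad _ hcy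
    refine hm.le_maxS hCs (hm.centralizer_ne_top (Set.mem_insert y' _) hy'1) (fun z hz _ => ?_) ?_
    · refine Subgroup.mem_centralizer_iff.mpr ?_
      rintro w (rfl | rfl | rfl | rfl)
      · exact (Subgroup.mem_centralizer_iff.mp hcy z hz).symm
      · exact (Subgroup.mem_centralizer_iff.mp (inv_mem hcy) z hz).symm
      · exact (Subgroup.mem_centralizer_iff.mp hσy' z hz).symm
      · exact (Subgroup.mem_centralizer_iff.mp (inv_mem hσy') z hz).symm
    · have h1 : Commute d y' := Subgroup.mem_centralizer_singleton_iff.mp hd.2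
      have h2 : Commute d (σ y') := by
        have h := (h1.inv_left.map σ)
        rwa [map_inv, hσ.sigma_fix2 hd.1, inv_inv] at h
      refine Subgroup.mem_centralizer_iff.mpr ?_
      rintro w (rfl | rfl | rfl | rfl)
      exacts [h1.symm.eq, h1.inv_right.symm.eq, h2.symm.eq, h2.inv_right.symm.eq]
  have hN : d⁻¹ * c ∈ Subgroup.normalizer ((S : Subgroup G) : Set G) := by
    exact Sylow.smul_eq_iff_mem_normalizer.mp (by rw [mul_smul, ← hdS]; exact inv_smul_smul d S)
  rw [hS] at hN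
  have := mul_mem hdM (hm.normalizer_le hdvd hbad hN)
  rwa [mul_inv_cancel_left] at this

omit hm hdvd hbad in
/-- The number of translates. -/
noncomputable def transCount (σ : MulAut G) (p : ℕ) : ℕ := ((maxS σ p).subgroupOf (fix2 σ)).index

theorem three_le_transCount : 3 ≤ transCount σ p := by
  have h1 : transCount σ p ≠ 1 := fun h => hbad (Subgroup.subgroupOf_eq_top.mp
    (Subgroup.index_eq_one.mp h))
  have h0 : transCount σ p ≠ 0 := Subgroup.index_ne_zero_of_finite
  have hodd : Odd (transCount σ p) := Odd.of_dvd_nat (Odd.of_dvd_nat hm.toFour.odd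
    (Subgroup.card_subgroup_dvd_card (fix2 σ))) (Subgroup.index_dvd_card _)
  obtain ⟨m, hm'⟩ := hodd
  omega

theorem transCount_le : transCount σ p ≤ Nat.card (fix2 σ) :=
  Nat.le_of_dvd Nat.card_pos (Subgroup.index_dvd_card _)

omit hm hdvd hbad in
/-- The centralizer in another Sylow subgroup. -/
noncomputable def wCount (σ : MulAut G) (p q : ℕ) : ℕ :=
  Nat.card {y : G // y ∈ sylowS σ q ∧ y ∈ Subgroup.centralizer (sylowS σ p : Set G)}

theorem translates_le {q : ℕ} (hq : q ∈ fullSet σ) :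
    transCount σ p * (wCount σ p q - 1) + 1 ≤ fCount σ q := by
  classical
  obtain ⟨hq', hqdvd, hqf⟩ := hm.prime_of_mem_fullSet hq
  haveI : Fact q.Prime := ⟨hq'⟩
  set W := {y : G // y ∈ sylowS σ q ∧ y ∈ Subgroup.centralizer (sylowS σ p : Set G)}
  set H := (maxS σ p).subgroupOf (fix2 σ)
  have hmem : ∀ (c : fix2 σ ⧸ H) (y : W), (c.out : G) * y * (c.out : G)⁻¹ ∈ sylowS σ q ∧
      IsI σ ((c.out : G) * y * (c.out : G)⁻¹) := fun c y =>
    ⟨hm.conj_mem hqdvd hqf c.out.2 y.2.1,
      (hm.isI_of_mem_centralizer hdvd hbad y.2.2).conj c.out.2⟩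
  let φ : Option ((fix2 σ ⧸ H) × {y : W // (y : G) ≠ 1}) →
      {x : G // x ∈ sylowS σ q ∧ IsI σ x} := fun o =>
    o.elim ⟨1, one_mem _, IsI.one⟩ fun z => ⟨_, hmem z.1 z.2.1⟩
  have hφ : Function.Injective φ := by
    intro o o' e
    have e' := congrArg Subtype.val e
    match o, o' with
    | none, none => rfl
    | none, some z => exact absurd (conj_eq_one_iff.mp e'.symm) z.2.2
    | some z, none => exact absurd (conj_eq_one_iff.mp e') z.2.2
    | some (a, y), some (b, y') =>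
      change (a.out : G) * (y : G) * (a.out : G)⁻¹ = (b.out : G) * (y' : G) * (b.out : G)⁻¹ at e'
      have hyy : ((b.out : G)⁻¹ * a.out) * (y : G) * ((b.out : G)⁻¹ * a.out)⁻¹ = (y' : G) := by
        calc _ = (b.out : G)⁻¹ * ((a.out : G) * (y : G) * (a.out : G)⁻¹) * b.out := by group
          _ = _ := by rw [e']; group
      have hM := hm.mem_maxS_of_translate' hdvd hbad (mul_mem (inv_mem b.out.2) a.out.2) y.2
        y.1.2.2 (by rw [hyy]; exact y'.1.2.2)
      have hab : a = b := by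
        rw [← QuotientGroup.out_eq' a, ← QuotientGroup.out_eq' b]
        exact (QuotientGroup.eq.mpr (Subgroup.mem_subgroupOf.mpr hM)).symm
      subst hab
      have : (y : G) = (y' : G) := by
        rwa [inv_mul_cancel, one_mul, inv_one, mul_one] at hyy
      rw [show y = y' from Subtype.ext (Subtype.ext this)]
  have hle := Nat.card_le_card_of_injective φ hφ
  rw [Finite.card_option, Nat.card_prod] at hle
  have hW : Nat.card {y : W // (y : G) ≠ 1} = wCount σ p q - 1 := by
    haveI := Fintype.ofFinite W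
    let one' : W := ⟨1, one_mem _, one_mem _⟩
    have h1 : Nat.card {y : W // (y : G) ≠ 1} = Nat.card {y : W // ¬ y = one'} :=
      Nat.card_congr (Equiv.subtypeEquivRight fun y =>
        not_congr ⟨fun h => Subtype.ext h, fun h => congrArg Subtype.val h⟩)
    rw [h1, show wCount σ p q = Nat.card W from rfl, Nat.card_eq_fintype_card,
      Nat.card_eq_fintype_card, Fintype.card_subtype_compl, Fintype.card_subtype_eq]
  rw [hW] at hle
  exact hle

theorem trans_mul_wCount_lt (hne : (fullSet σ).Nonempty) :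
    transCount σ p * ∏ q ∈ fullSet σ, wCount σ p q < ∏ q ∈ fullSet σ, fCount σ q := by
  classical
  have hpos : ∀ q, 1 ≤ wCount σ p q := fun q => by
    haveI : Nonempty {y : G // y ∈ sylowS σ q ∧ y ∈ Subgroup.centralizer (sylowS σ p : Set G)} :=
      ⟨⟨1, one_mem _, one_mem _⟩⟩
    exact Nat.card_pos
  by_cases hall : ∀ q ∈ fullSet σ, wCount σ p q = 1
  · rw [Finset.prod_congr rfl hall, Finset.prod_const_one, mul_one]
    exact (hm.transCount_le hdvd hbad).trans_lt (hm.card_fix2_lt hne)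
  push Not at hall
  obtain ⟨q₀, hq₀, hw₀⟩ := hall
  obtain ⟨q₁, hq₁, h10⟩ := hm.exists_other hq₀
  set n := transCount σ p
  have hn3 : 3 ≤ n := hm.three_le_transCount hdvd hbad
  have hw2 : 1 ≤ wCount σ p q₀ - 1 := by have := hpos q₀; omega
  have ht := fun q (hq : q ∈ fullSet σ) => hm.translates_le hdvd hbad hq
  have h0 : n * wCount σ p q₀ < 2 * fCount σ q₀ := by
    have := ht q₀ hq₀
    obtain ⟨v, hv⟩ : ∃ v, wCount σ p q₀ = v + 1 := ⟨wCount σ p q₀ - 1, by omega⟩
    rw [hv, Nat.add_sub_cancel] at this hw2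
    rw [hv]
    nlinarith
  have h1 : 2 * wCount σ p q₁ ≤ fCount σ q₁ := by
    have := ht q₁ hq₁
    obtain ⟨v, hv⟩ : ∃ v, wCount σ p q₁ = v + 1 := ⟨wCount σ p q₁ - 1, by
      have := hpos q₁; omega⟩
    rw [hv, Nat.add_sub_cancel] at this
    rw [hv]
    rcases Nat.eq_zero_or_pos v with rfl | hv0
    · have := hm.three_le_fCount hq₁; omega
    · nlinarith
  have hrest : ∀ q ∈ fullSet σ, wCount σ p q ≤ fCount σ q := by
    intro q hq
    have := ht q hq
    obtain ⟨v, hv⟩ : ∃ v, wCount σ p q = v + 1 := ⟨wCount σ p q - 1, by have := hpos q; omega⟩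
    rw [hv, Nat.add_sub_cancel] at this
    rw [hv]
    nlinarith
  set R := ((fullSet σ).erase q₀).erase q₁
  have hsplit : ∀ g : ℕ → ℕ, ∏ q ∈ fullSet σ, g q = g q₀ * (g q₁ * ∏ q ∈ R, g q) := fun g => by
    rw [← Finset.mul_prod_erase _ _ hq₀, ← Finset.mul_prod_erase ((fullSet σ).erase q₀) _
      (Finset.mem_erase.mpr ⟨h10, hq₁⟩)]
  rw [hsplit, hsplit]
  have hR : ∏ q ∈ R, wCount σ p q ≤ ∏ q ∈ R, fCount σ q := Finset.prod_le_prod'
    fun q hq => hrest q (Finset.mem_of_mem_erase (Finset.mem_of_mem_erase hq))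
  have hRpos : 0 < ∏ q ∈ R, wCount σ p q := Finset.prod_pos fun q _ => hpos q
  have hw1 := hpos q₁
  calc n * (wCount σ p q₀ * (wCount σ p q₁ * ∏ q ∈ R, wCount σ p q))
      = n * wCount σ p q₀ * (wCount σ p q₁ * ∏ q ∈ R, wCount σ p q) := by ring
    _ < 2 * fCount σ q₀ * (wCount σ p q₁ * ∏ q ∈ R, wCount σ p q) :=
        Nat.mul_lt_mul_of_pos_right h0 (Nat.mul_pos hw1 hRpos)
    _ = fCount σ q₀ * (2 * wCount σ p q₁ * ∏ q ∈ R, wCount σ p q) := by ring
    _ ≤ fCount σ q₀ * (fCount σ q₁ * ∏ q ∈ R, fCount σ q) :=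
        Nat.mul_le_mul_left _ (Nat.mul_le_mul h1 hR)

omit hm hdvd hbad in
/-- The inverted elements whose order involves only the given primes. -/
def invSet (σ : MulAut G) (S : Finset ℕ) : Set G :=
  {x | IsI σ x ∧ ∀ r, r.Prime → r ∣ orderOf x → r ∈ S}

theorem card_insert_lt (hne : (fullSet σ).Nonempty) {T : Finset ℕ}
    (hT : T ⊆ (Nat.card G).primeFactors \ fullSet σ) (hpT : p ∉ T)
    (hJ : Nat.card (invSet σ (fullSet σ ∪ T)) ≤ ∏ q ∈ fullSet σ ∪ T, fCount σ q) :
    Nat.card (invSet σ (fullSet σ ∪ insert p T)) < ∏ q ∈ fullSet σ ∪ insert p T, fCount σ q := by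
  classical
  have hσ := hm.toFour
  set D := Subgroup.centralizer (sylowS σ p : Set G)
  set J := invSet σ (fullSet σ ∪ T)
  have hdisj : Disjoint (fullSet σ) T :=
    Finset.disjoint_left.mpr fun q hq hq' => (Finset.mem_sdiff.mp (hT hq')).2 hq
  have hDJ : Nat.card {z : G // z ∈ D ∧ z ∈ J} ≤
      (∏ q ∈ fullSet σ, wCount σ p q) * ∏ q ∈ T, fCount σ q := by
    calc Nat.card {z : G // z ∈ D ∧ z ∈ J}
        ≤ ∏ q ∈ fullSet σ ∪ T, Nat.card {y : G | y ∈ sylowS σ q ∧ y ∈ D} := by
          refine card_le_prod (X := {z : G | z ∈ D ∧ z ∈ J})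
            (fun q => {y : G | y ∈ sylowS σ q ∧ y ∈ D}) (fun z hz => hz.2.2) fun z hz q hq => ?_
          have hqpf : q ∈ (Nat.card G).primeFactors := by
            rcases Finset.mem_union.mp hq with h | h
            exacts [(mem_fullSet.mp h).1, (Finset.mem_sdiff.mp (hT h)).1]
          haveI : Fact q.Prime := ⟨Nat.prime_of_mem_primeFactors hqpf⟩
          obtain ⟨k, hk⟩ := exists_orderOf_pow_cofactor (Nat.prime_of_mem_primeFactors hqpf) z
          exact ⟨hm.mem_sylowS (hm.sInv_centralizer_sylowS hdvd hbad)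
            (hm.centralizer_sylowS_ne_top hdvd hbad) (D.pow_mem hz.1 _) (hz.2.1.pow _) hk,
            D.pow_mem hz.1 _⟩
      _ ≤ (∏ q ∈ fullSet σ, wCount σ p q) * ∏ q ∈ T, fCount σ q := by
          rw [Finset.prod_union hdisj]
          refine Nat.mul_le_mul (le_of_eq rfl) (Finset.prod_le_prod' fun q _ => ?_)
          exact Nat.card_le_card_of_injective
            (fun y : {y : G // y ∈ sylowS σ q ∧ y ∈ D} =>
              (⟨y, y.2.1, hm.isI_of_mem_centralizer hdvd hbad y.2.2⟩ :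
                {x : G // x ∈ sylowS σ q ∧ IsI σ x}))
            fun a b e => Subtype.ext
              (congrArg (fun z : {x : G // x ∈ sylowS σ q ∧ IsI σ x} => (z : G)) e)
  set H := (maxS σ p).subgroupOf (fix2 σ)
  set N := {x : G // x ∈ invSet σ (fullSet σ ∪ insert p T) ∧ x ∉ J}
  have hp' := hp.out
  have hdata : ∀ x : N, ∃ c : fix2 σ ⧸ H,
      (c.out : G)⁻¹ * (x : G) ^ cofactor G p * c.out ∈ sylowS σ p ∧
      (c.out : G)⁻¹ * (x : G) ^ cofactor G p * c.out ≠ 1 ∧
      (c.out : G)⁻¹ * (x : G) ^ ppart G p * c.out ∈ D ∧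
      (c.out : G)⁻¹ * (x : G) ^ ppart G p * c.out ∈ J := by
    rintro ⟨x, hx, hxJ⟩
    have hy1 : x ^ cofactor G p ≠ 1 := by
      intro h
      refine hxJ ⟨hx.1, fun r hr hd => ?_⟩
      have hrp : r ≠ p := fun e =>
        not_dvd_cofactor hp' (e ▸ hd.trans (orderOf_dvd_of_pow_eq_one h))
      have := hx.2 r hr hd
      rw [Finset.union_insert, Finset.mem_insert] at this
      exact this.resolve_left hrp
    obtain ⟨k, hk⟩ := exists_orderOf_pow_cofactor hp' x
    obtain ⟨a, ha, hay, -⟩ := hσ.exists_conj (hx.1.pow _) hk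
    set c : fix2 σ ⧸ H := ((⟨a, ha⟩ : fix2 σ) : fix2 σ ⧸ H)
    have hrel : (c.out : G)⁻¹ * a ∈ maxS σ p := by
      have h := QuotientGroup.eq.mp (QuotientGroup.out_eq' c)
      rw [Subgroup.mem_subgroupOf] at h
      exact h
    have hyP : (c.out : G)⁻¹ * x ^ cofactor G p * c.out ∈ sylowS σ p := by
      have := hm.mem_fix2_normalizes hm.sInv_maxS (hm.maxS_ne_top hdvd)
        (mul_mem (inv_mem c.out.2) ha) hrel (hm.sylowS_le_maxS hay)
        (hm.isI_of_mem hdvd hbad hay) hay
      rwa [show (c.out : G)⁻¹ * a * (a⁻¹ * x ^ cofactor G p * a) * ((c.out : G)⁻¹ * a)⁻¹ =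
        (c.out : G)⁻¹ * x ^ cofactor G p * c.out by group] at this
    have hyP1 : (c.out : G)⁻¹ * x ^ cofactor G p * c.out ≠ 1 := fun h => hy1 (by
      calc x ^ cofactor G p = (c.out : G) * ((c.out : G)⁻¹ * x ^ cofactor G p * c.out) *
            (c.out : G)⁻¹ := by group
        _ = 1 := by rw [h]; group)
    refine ⟨c, hyP, hyP1, ?_, ?_⟩
    · show _ ∈ Subgroup.centralizer (sylowS σ p : Set G)
      rw [← hm.centralizer_eq hdvd hbad hyP hyP1, Subgroup.mem_centralizer_singleton_iff]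
      calc (c.out : G)⁻¹ * x ^ ppart G p * c.out * ((c.out : G)⁻¹ * x ^ cofactor G p * c.out)
          = (c.out : G)⁻¹ * (x ^ ppart G p * x ^ cofactor G p) * c.out := by group
        _ = (c.out : G)⁻¹ * (x ^ cofactor G p * x ^ ppart G p) * c.out := by
            rw [← pow_add, ← pow_add, Nat.add_comm]
        _ = _ := by group
    · refine ⟨?_, fun r hr hd => ?_⟩
      · have h := (hx.1.pow (ppart G p)).conj ((fix2 σ).inv_mem c.out.2)
        rwa [inv_inv] at h
      · have hoz : orderOf ((c.out : G)⁻¹ * x ^ ppart G p * c.out) = orderOf (x ^ ppart G p) := by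
          rw [← MulEquiv.orderOf_eq (MulAut.conj (c.out : G)) ((c.out : G)⁻¹ * x ^ ppart G p * c.out),
            MulAut.conj_apply]
          congr 1
          group
        rw [hoz] at hd
        have hrp : r ≠ p := fun e =>
          not_dvd_cofactor hp' (e ▸ hd.trans (orderOf_pow_ppart_dvd p x))
        have := hx.2 r hr (hd.trans (orderOf_pow_dvd _))
        rw [Finset.union_insert, Finset.mem_insert] at this
        exact this.resolve_left hrp
  choose c hc using hdata
  have hN : Nat.card N ≤ transCount σ p * ((fCount σ p - 1) * Nat.card {z : G // z ∈ D ∧ z ∈ J}) := by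
    let one' : {x : G // x ∈ sylowS σ p ∧ IsI σ x} := ⟨1, one_mem _, IsI.one⟩
    let ψ : N → (fix2 σ ⧸ H) × ({y : {x : G // x ∈ sylowS σ p ∧ IsI σ x} // y ≠ one'} ×
        {z : G // z ∈ D ∧ z ∈ J}) := fun x =>
      (c x, ⟨⟨_, (hc x).1, hm.isI_of_mem hdvd hbad (hc x).1⟩,
        fun e => (hc x).2.1 (congrArg Subtype.val e)⟩, ⟨_, (hc x).2.2⟩)
    refine (Nat.card_le_card_of_injective ψ fun x x' e => ?_).trans (le_of_eq ?_)
    · have e1 : c x = c x' := congrArg Prod.fst e
      have e2 := congrArg (fun z => ((z.2.1 : {x : G // x ∈ sylowS σ p ∧ IsI σ x}) : G)) e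
      have e3 := congrArg (fun z => (z.2.2 : G)) e
      simp only [ψ, e1, mul_left_cancel_iff, mul_right_cancel_iff] at e2 e3
      exact Subtype.ext (eq_of_parts hp' e2 e3)
    · rw [Nat.card_prod, Nat.card_prod]
      congr 2
      haveI := Fintype.ofFinite {x : G // x ∈ sylowS σ p ∧ IsI σ x}
      rw [Nat.card_eq_fintype_card, fCount, Nat.card_eq_fintype_card,
        Fintype.card_subtype_compl, Fintype.card_subtype_eq]
  have hsplit : Nat.card (invSet σ (fullSet σ ∪ insert p T)) ≤ Nat.card J + Nat.card N := by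
    rw [← Nat.card_sum]
    refine Nat.card_le_card_of_injective
      (fun x => if h : (x : G) ∈ J then Sum.inl ⟨x, h⟩ else Sum.inr (⟨x, x.2, h⟩ : N))
      fun x y e => ?_
    simp only at e
    by_cases hx : (x : G) ∈ J <;> by_cases hy : (y : G) ∈ J <;> simp [hx, hy] at e
    · exact Subtype.ext e
    · exact Subtype.ext (congrArg (fun z : N => (z : G)) e)
  have hpF : p ∉ fullSet σ := fun h => hbad (mem_fullSet.mp h).2
  rw [Finset.prod_union hdisj] at hJ
  rw [Finset.union_insert, Finset.prod_insert (by simp [hpF, hpT]), Finset.prod_union hdisj]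
  set F := ∏ q ∈ fullSet σ, fCount σ q
  set FT := ∏ q ∈ T, fCount σ q
  have hFT : 0 < FT := Finset.prod_pos fun q _ => by
    haveI : Nonempty {x : G // x ∈ sylowS σ q ∧ IsI σ x} := ⟨⟨1, one_mem _, IsI.one⟩⟩
    exact Nat.card_pos
  have hlt := hm.trans_mul_wCount_lt hdvd hbad hne
  have hf2 : 2 ≤ fCount σ p := by
    obtain ⟨x, hx, hxI, hx1⟩ := hm.exists_isI_mem_sylowS hdvd
    haveI : Nontrivial {x : G // x ∈ sylowS σ p ∧ IsI σ x} :=
      ⟨⟨x, hx, hxI⟩, ⟨1, one_mem _, IsI.one⟩, fun e => hx1 (congrArg Subtype.val e)⟩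
    exact Finite.one_lt_card
  calc Nat.card (invSet σ (insert p (fullSet σ ∪ T)))
      ≤ F * FT + transCount σ p * ((fCount σ p - 1) *
          ((∏ q ∈ fullSet σ, wCount σ p q) * FT)) := by
        rw [← Finset.union_insert]
        exact hsplit.trans (Nat.add_le_add hJ
          (hN.trans (Nat.mul_le_mul_left _ (Nat.mul_le_mul_left _ hDJ))))
    _ = F * FT + (transCount σ p * ∏ q ∈ fullSet σ, wCount σ p q) * ((fCount σ p - 1) * FT) := by
        ring
    _ < F * FT + F * ((fCount σ p - 1) * FT) :=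
        Nat.add_lt_add_left (Nat.mul_lt_mul_of_pos_right hlt (Nat.mul_pos (by omega) hFT)) _
    _ = fCount σ p * (F * FT) := by
        obtain ⟨v, hv⟩ : ∃ v, fCount σ p = v + 1 := ⟨fCount σ p - 1, by omega⟩
        rw [hv, Nat.add_sub_cancel]
        ring

end Bad

theorem fullSet_nonempty : (fullSet σ).Nonempty := by
  by_contra h
  have hA : ∀ a ∈ fix2 σ, a = 1 := by
    intro a ha
    by_contra ha1
    obtain ⟨r, hr, hra⟩ := Nat.exists_prime_and_dvd (n := orderOf a)
      (mt orderOf_eq_one_iff.mp ha1)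
    haveI : Fact r.Prime := ⟨hr⟩
    exact h ⟨r, hm.full_of_mem_fix2 ha hra⟩
  have hI : ∀ g : G, σ (σ g) = g⁻¹ := by
    intro g
    obtain ⟨a, ha, i, -, hiI, rfl⟩ :=
      hm.toFour.exists_mul (H := ⊤) (fun _ _ => trivial) (Subgroup.mem_top g)
    rw [hA a ha.1, one_mul]
    exact hiI
  refine hm.not_solvable (Group.isSolvable_of_comm fun x y => ?_)
  have := hI (x⁻¹ * y⁻¹)
  rw [map_mul, map_mul, hI, hI, mul_inv_rev] at this
  simpa using this

theorem card_invSet_le :
    Nat.card (invSet σ (fullSet σ)) ≤ ∏ q ∈ fullSet σ, fCount σ q := by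
  refine card_le_prod (fun q => {x : G | x ∈ sylowS σ q ∧ IsI σ x}) (fun x hx => hx.2)
    fun x hx q hq => ?_
  obtain ⟨hq', hqdvd, hqf⟩ := hm.prime_of_mem_fullSet hq
  haveI : Fact q.Prime := ⟨hq'⟩
  obtain ⟨k, hk⟩ := exists_orderOf_pow_cofactor hq' x
  exact ⟨hm.mem_sylowS_of_full hqdvd hqf (hx.1.pow _) hk, hx.1.pow _⟩

/-- There is no minimal counterexample. -/
theorem absurd_minimal : False := by
  classical
  have hσ := hm.toFour
  have hne := hm.fullSet_nonempty
  set S := (Nat.card G).primeFactors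
  have hall : Nat.card (invSet σ S) = Nat.card {x : G // IsI σ x} :=
    Nat.card_congr (Equiv.subtypeEquivRight fun x =>
      ⟨fun h => h.1, fun h => ⟨h, fun r hr hd => Nat.mem_primeFactors.mpr
        ⟨hr, hd.trans (orderOf_dvd_natCard x), Nat.card_pos.ne'⟩⟩⟩)
  have hge := hm.prod_fCount_le
  rw [← hall] at hge
  have hsub : fullSet σ ⊆ S := fun q hq => (mem_fullSet.mp hq).1
  have hind : ∀ T : Finset ℕ, T ⊆ S \ fullSet σ →
      Nat.card (invSet σ (fullSet σ ∪ T)) ≤ ∏ q ∈ fullSet σ ∪ T, fCount σ q ∧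
      (T.Nonempty → Nat.card (invSet σ (fullSet σ ∪ T)) < ∏ q ∈ fullSet σ ∪ T, fCount σ q) := by
    intro T
    induction T using Finset.induction with
    | empty =>
      intro _
      rw [Finset.union_empty]
      exact ⟨hm.card_invSet_le, fun h => absurd h Finset.not_nonempty_empty⟩
    | insert p T hpT ih =>
      intro hT
      have hT' := (Finset.subset_insert p T).trans hT
      obtain ⟨hpS, hpF⟩ := Finset.mem_sdiff.mp (hT (Finset.mem_insert_self p T))
      haveI : Fact p.Prime := ⟨Nat.prime_of_mem_primeFactors hpS⟩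
      have hlt := hm.card_insert_lt (Nat.dvd_of_mem_primeFactors hpS)
        (fun h => hpF (mem_fullSet.mpr ⟨hpS, h⟩)) hne hT' hpT (ih hT').1
      exact ⟨hlt.le, fun _ => hlt⟩
  have hU : fullSet σ ∪ (S \ fullSet σ) = S := Finset.union_sdiff_of_subset hsub
  by_cases hbad : (S \ fullSet σ).Nonempty
  · have := (hind _ subset_rfl).2 hbad
    rw [hU] at this
    exact absurd hge (not_le.mpr this)
  have hS : fullSet σ = S :=
    Finset.Subset.antisymm hsub (Finset.sdiff_eq_empty_iff_subset.mp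
      (Finset.not_nonempty_iff_eq_empty.mp hbad))
  -- every combination of inverted elements occurs
  let φ : invSet σ S → ((r : S) → {x : G // x ∈ sylowS σ r ∧ IsI σ x}) := fun x r =>
    ⟨(x : G) ^ cofactor G r, by
      obtain ⟨hr', hrdvd, hrf⟩ := hm.prime_of_mem_fullSet (hS.ge r.2)
      haveI : Fact (r : ℕ).Prime := ⟨hr'⟩
      obtain ⟨k, hk⟩ := exists_orderOf_pow_cofactor hr' (x : G)
      exact ⟨hm.mem_sylowS_of_full hrdvd hrf (x.2.1.pow _) hk, x.2.1.pow _⟩⟩
  have hinj : Function.Injective φ := fun x y e => Subtype.ext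
    (parts_injective x.2.2 y.2.2 fun r hr => congrArg Subtype.val (congrFun e ⟨r, hr⟩))
  have hbij : Function.Bijective φ := by
    refine hinj.bijective_of_nat_card_le ?_
    rw [Nat.card_pi]
    exact (le_of_eq (Finset.prod_coe_sort S fun r => fCount σ r)).trans hge
  have hcomm : ∀ q ∈ S, ∀ r ∈ S, q ≠ r → ∀ x ∈ sylowS σ q, ∀ y ∈ sylowS σ r, x * y = y * x := by
    intro q hq r hr hqr
    have hkey : ∀ x ∈ sylowS σ q, IsI σ x → ∀ y ∈ sylowS σ r, IsI σ y → x * y = y * x := by
      intro x hx hxI y hy hyI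
      let g : (s : S) → {z : G // z ∈ sylowS σ s ∧ IsI σ z} := fun s =>
        if h : (s : ℕ) = q then ⟨x, h ▸ hx, hxI⟩
        else if h' : (s : ℕ) = r then ⟨y, h' ▸ hy, hyI⟩ else ⟨1, one_mem _, IsI.one⟩
      obtain ⟨u, hu⟩ := hbij.2 g
      have e1 : (u : G) ^ cofactor G q = x := by
        have := congrArg Subtype.val (congrFun hu ⟨q, hq⟩)
        simpa [g] using this
      have e2 : (u : G) ^ cofactor G r = y := by
        have := congrArg Subtype.val (congrFun hu ⟨r, hr⟩)
        simpa [g, Ne.symm hqr] using this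
      rw [← e1, ← e2, ← pow_add, ← pow_add, Nat.add_comm]
    haveI : Fact q.Prime := ⟨Nat.prime_of_mem_primeFactors hq⟩
    haveI : Fact r.Prime := ⟨Nat.prime_of_mem_primeFactors hr⟩
    intro x hx y hy
    rw [hm.sylowS_eq_invGen (Nat.dvd_of_mem_primeFactors hq)] at hx
    rw [hm.sylowS_eq_invGen (Nat.dvd_of_mem_primeFactors hr)] at hy
    have h1 : ∀ b ∈ {b : G | b ∈ sylowS σ r ∧ IsI σ b}, x ∈ Subgroup.centralizer ({b} : Set G) :=
      fun b hb => (Subgroup.closure_le _).mpr (fun a ha =>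
        Subgroup.mem_centralizer_singleton_iff.mpr (hkey a ha.1 ha.2 b hb.1 hb.2)) hx
    have h2 : invGen σ r ≤ Subgroup.centralizer ({x} : Set G) :=
      (Subgroup.closure_le _).mpr fun b hb =>
        Subgroup.mem_centralizer_singleton_iff.mpr
          (Subgroup.mem_centralizer_singleton_iff.mp (h1 b hb)).symm
    exact (Subgroup.mem_centralizer_singleton_iff.mp (h2 hy)).symm
  obtain ⟨p, hp⟩ := hne
  obtain ⟨hp', hpdvd, -⟩ := hm.prime_of_mem_fullSet hp
  haveI : Fact p.Prime := ⟨hp'⟩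
  obtain ⟨x₀, hx₀, -, hx₀1⟩ := hm.exists_isI_mem_sylowS hpdvd
  refine hm.normalizer_ne_top hσ.sInv_sylowS
    (fun h => hx₀1 ((Subgroup.eq_bot_iff_forall _).mp h x₀ hx₀)) (hm.sylowS_ne_top (p := p)) ?_
  set N := Subgroup.normalizer (sylowS σ p : Set G)
  refine Subgroup.index_eq_one.mp (Nat.eq_one_iff_not_exists_prime_dvd.mpr fun r hr hd => ?_)
  have hrS : r ∈ S := Nat.mem_primeFactors.mpr
    ⟨hr, hd.trans N.index_dvd_card, Nat.card_pos.ne'⟩
  haveI : Fact r.Prime := ⟨hr⟩
  obtain ⟨R, hR, -⟩ := hσ.exists_sylowS (p := r)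
  have hle : (R : Subgroup G) ≤ N := by
    intro g hg
    rw [hR] at hg
    by_cases hrp : r = p
    · subst hrp; exact Subgroup.le_normalizer hg
    · refine Coprime.mem_normalizer_of_conj_mem fun z hz => ?_
      rw [hcomm r hrS p (hsub hp) hrp g hg z hz, mul_inv_cancel_right]
      exact hz
  exact R.not_dvd_index (hd.trans (Subgroup.index_dvd_of_le hle))

end Minimal

universe u

theorem isSolvable_aux : ∀ (n : ℕ) {G : Type u} [Group G] [Finite G], Nat.card G ≤ n →
    ∀ σ : MulAut G, σ ^ 4 = 1 → (∀ g : G, σ g = g → g = 1) → Group.IsSolvable G := by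
  intro n
  induction n with
  | zero => intro G _ _ h; exact absurd h (by simp [Nat.card_pos.ne'])
  | succ n ih =>
  intro G _ _ hcard σ hσ hfpf
  by_contra hns
  have hodd := Transfer.FPFFour.odd_card σ hσ hfpf
  have hfour : Four σ := ⟨hodd, fun g => by
    have := congrArg (fun f : MulAut G => f g) hσ
    simpa [pow_succ, MulAut.mul_apply] using this, hfpf⟩
  have hlt : ∀ N : Subgroup G, N ≠ ⊤ → Nat.card N ≤ n := fun N hN => by
    have : Nat.card N < Nat.card G := lt_of_le_of_ne (Subgroup.card_le_card_group N)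
      fun e => hN ((Subgroup.card_eq_iff_eq_top N).mp e)
    omega
  refine Minimal.absurd_minimal (σ := σ) ⟨hfour, fun N hN hne =>
    ih (hlt N hne) _ (hfour.restrict hN).pow_four (hfour.restrict hN).fpf, fun N hn hN => ?_, hns⟩
  by_contra h
  push Not at h
  haveI := hn
  haveI : Group.IsSolvable N := ih (hlt N h.2) _ (hfour.restrict hN).pow_four (hfour.restrict hN).fpf
  have hq : Group.IsSolvable (G ⧸ N) := by
    refine ih ?_ (QuotientGroup.congr N N σ hN.map_eq) ?_ ?_
    · have h1 := Subgroup.card_eq_card_quotient_mul_card_subgroup N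
      have h2 : 1 < Nat.card N := (Subgroup.one_lt_card_iff_ne_bot N).mpr h.1
      have h3 : 0 < Nat.card (G ⧸ N) := Nat.card_pos
      nlinarith
    · refine MulEquiv.ext fun x => ?_
      obtain ⟨g, rfl⟩ := QuotientGroup.mk'_surjective N x
      have := congrArg (fun f : MulAut G => f g) hσ
      simp only [pow_succ, pow_zero, one_mul, MulAut.mul_apply, MulAut.one_apply] at this ⊢
      show QuotientGroup.mk' N _ = _
      exact congrArg _ this
    · exact Core.ThompsonFPF.fpf_quotient (φ := σ) hfpf hN.map_eq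
  haveI := hq
  exact hns (Group.isSolvable_of_ker_le_range N.subtype (QuotientGroup.mk' N)
    (by rw [QuotientGroup.ker_mk', Subgroup.range_subtype]))

/-- A finite group with a fixed-point-free automorphism of order dividing four is solvable. -/
theorem isSolvable_of_fpf_four {G : Type u} [Group G] [Finite G] (σ : MulAut G) (hσ : σ ^ 4 = 1)
    (hfpf : ∀ g : G, σ g = g → g = 1) : Group.IsSolvable G :=
  isSolvable_aux _ le_rfl σ hσ hfpf

end Cfsg.Agent.FPF4
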